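import Mathlib
import Cfsg.Agent.Lib.Helper80.DefOneGram
import Cfsg.Agent.Lib.Helper16.RootConj

/-!
# Blocks of defect one: values on `P` from the columns

`P` a Sylow `p`-subgroup of order `p`, `C = C_G(P)`, `N = N_G(P)`, `B` a block with defect group
`P`, `θ` an irreducible character of `C` with `P` in its kernel whose block induces `B`.
If `χ ∈ B` has constant column `c` (`col θ ψ χ = c` for all `ψ ≠ 1`), then
`χ u = - c θ(1) |N : T|` for every `u ∈ P`, `u ≠ 1`, where `T` is the stabilizer of `θ` in `N`.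
-/

set_option autoImplicit false
set_option linter.unusedSectionVars false
set_option linter.style.haveILetI false
set_option maxHeartbeats 1000000

namespace Cfsg.Agent.Lib.Helper80.DefOneRow

open Cfsg Cfsg.Agent.Lib.CT Cfsg.Agent.Lib.CT.Wedderburn Cfsg.Agent.Lib.Helper17.BrGrp
  Cfsg.Agent.Lib.Helper80.DefOneLoc Cfsg.Agent.Lib.Helper80.DefOneCol
  Cfsg.Agent.Lib.Helper80.DefOneGram Cfsg.Agent.Lib.Helper80.AbSylowCh
open scoped ComplexConjugate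

universe u
variable {G : Type u} [Group G] {p : ℕ} [Fact p.Prime] [Fintype G] (P : Sylow p G)
  (hP : Nat.card P = p)

local notation "𝐂" => Subgroup.centralizer ((P : Subgroup G) : Set G)
local notation "𝐍" => Subgroup.normalizer ((P : Subgroup G) : Set G)

variable [Fintype ↥(Subgroup.centralizer ((P : Subgroup G) : Set G))] [Fintype ↥(P : Subgroup G)]
  (π : ↥(Subgroup.centralizer ((P : Subgroup G) : Set G)) →* ↥(P : Subgroup G))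
  (hπP : ∀ c : ↥(Subgroup.centralizer ((P : Subgroup G) : Set G)),
    (c : G) ∈ (P : Subgroup G) → ((π c : ↥(P : Subgroup G)) : G) = (c : G))
  (hπreg : ∀ c : ↥(Subgroup.centralizer ((P : Subgroup G) : Set G)), π c = 1 ↔ ¬ p ∣ orderOf c)

/-- The section coefficient of a conjugate of `θ`. -/
theorem sec_conjTh (θ : ↥𝐂 → ℂ) {χ : G → ℂ} (hχ : IsClassFunction G χ) (n : ↥𝐍) (u : G) :
    sec P (conjTh P θ n) χ u = sec P θ χ ((n : G) * u * (n : G)⁻¹) := by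
  unfold sec conjTh
  congr 1
  refine Fintype.sum_equiv (cjC P n).toEquiv _ _ fun r => ?_
  show (if p ∣ orderOf r then (0 : ℂ) else χ (u * (r : G)) * conj (θ (cjC P n r))) =
    (if p ∣ orderOf (cjC P n r) then 0 else
      χ ((n : G) * u * (n : G)⁻¹ * ((cjC P n r : ↥𝐂) : G)) * conj (θ (cjC P n r)))
  rw [MulEquiv.orderOf_eq]
  have e : (n : G) * u * (n : G)⁻¹ * ((cjC P n r : ↥𝐂) : G) =
      (n : G) * (u * (r : G)) * (n : G)⁻¹ := by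
    rw [cjC_coe]
    group
  rw [e, hχ]

include hP hπP hπreg in
/-- Section coefficients of a character with constant column. -/
theorem sec_of_const [Fintype (↥(P : Subgroup G) →* ℂˣ)] {θ : ↥𝐂 → ℂ} (hθ : IsCharacter ↥𝐂 θ)
    (hθP : ∀ x : ↥𝐂, (x : G) ∈ (P : Subgroup G) → θ x = θ 1) (χ : G → ℂ) (c : ℂ)
    (hc : ∀ ψ : ↥(P : Subgroup G) →* ℂˣ, ψ ≠ 1 → col P π θ ψ χ = c)
    (w : ↥(P : Subgroup G)) (hw : w ≠ 1) :
    (p : ℂ) * sec P θ χ (w : G) = - c := by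
  classical
  have hPab : ∀ a ∈ (P : Subgroup G), ∀ b ∈ (P : Subgroup G), a * b = b * a :=
    fun a ha b hb => comm_of_mem P hP ha hb
  rw [← sum_col_mul_hom P hP π hπP hπreg hθ hθP χ w hw]
  have e : ∀ ψ : ↥(P : Subgroup G) →* ℂˣ, col P π θ ψ χ * ((ψ w : ℂˣ) : ℂ) =
      c * ((ψ w : ℂˣ) : ℂ) - (if ψ = 1 then c else 0) := by
    intro ψ
    by_cases h : ψ = 1
    · subst h
      rw [col_one, if_pos rfl]
      simp
    · rw [hc ψ h, if_neg h, sub_zero]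
  rw [Finset.sum_congr rfl (fun ψ _ => e ψ), Finset.sum_sub_distrib, ← Finset.mul_sum,
    Cfsg.Agent.Lib.Helper25.CyclicTI.sum_hom_sub (P : Subgroup G) hPab, if_neg hw, mul_zero,
    Finset.sum_ite_eq' Finset.univ (1 : ↥(P : Subgroup G) →* ℂˣ), if_pos (Finset.mem_univ _),
    zero_sub]

include hP in
/-- Second main theorem and conjugacy of roots: the section coefficients of the characters of
`C` outside the orbit of `θ` vanish. -/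
theorem sec_eq_zero_of_not_orb (M : Ideal AlgInt) (hM : IsPModular p M)
    (B : Set (IrrCharacter G)) (hB : IsPBlock M B) (hBP : IsDefectGroup p M B P)
    (b : Set (IrrCharacter ↥𝐂)) (hind : IsInducedBlock M 𝐂 b B)
    (θ : IrrCharacter ↥𝐂) (hθ : θ ∈ b)
    (hθP : ∀ x : ↥𝐂, (x : G) ∈ (P : Subgroup G) → (θ : ↥𝐂 → ℂ) x = (θ : ↥𝐂 → ℂ) 1)
    (χ : IrrCharacter G) (hχ : χ ∈ B) (ξ : IrrCharacter ↥𝐂)
    (hξP : ∀ x : ↥𝐂, (x : G) ∈ (P : Subgroup G) → (ξ : ↥𝐂 → ℂ) x = (ξ : ↥𝐂 → ℂ) 1)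
    (hξ : ¬ ∃ n : ↥𝐍, conjTh P (θ : ↥𝐂 → ℂ) n = (ξ : ↥𝐂 → ℂ))
    {u : G} (hu : u ∈ (P : Subgroup G)) (hu1 : u ≠ 1) :
    sec P (ξ : ↥𝐂 → ℂ) (χ : G → ℂ) u = 0 := by
  have hMp := Cfsg.Agent.Lib.Helper77.LocalRing.isPrime_of_isPModular hM
  apply sec_eq_zero P hP M hM χ ξ _ hu hu1
  intro hcon
  apply hξ
  have hBχ : B = blockOf M (χ : G → ℂ) := DefectZeroBlock.eq_blockOf_of_mem hMp hB hχ
  have hbθ : b = blockOf M (θ : ↥𝐂 → ℂ) := DefectZeroBlock.eq_blockOf_of_mem hMp hind.1 hθ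
  rw [← hBχ] at hcon
  rw [hbθ] at hind
  obtain ⟨n, hn, h⟩ := Cfsg.Agent.Lib.Helper16.RootConj.root_conj p M hM P hP B hBP θ ξ hθP hξP
    hind hcon
  refine ⟨⟨n, hn⟩, ?_⟩
  funext c
  exact (h c (cjC P ⟨n, hn⟩ c) rfl).symm

open Classical in
include hP hπP hπreg in
/-- Values on `P` of a character of `B` with constant column, in terms of the orbit of `θ`. -/
theorem value_of_const_orb [Fintype (IrrCharacter ↥𝐂)] [Fintype (↥(P : Subgroup G) →* ℂˣ)]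
    (M : Ideal AlgInt) (hM : IsPModular p M)
    (B : Set (IrrCharacter G)) (hB : IsPBlock M B) (hBP : IsDefectGroup p M B P)
    (b : Set (IrrCharacter ↥𝐂)) (hind : IsInducedBlock M 𝐂 b B)
    (θ : IrrCharacter ↥𝐂) (hθ : θ ∈ b)
    (hθP : ∀ x : ↥𝐂, (x : G) ∈ (P : Subgroup G) → (θ : ↥𝐂 → ℂ) x = (θ : ↥𝐂 → ℂ) 1)
    (χ : IrrCharacter G) (hχ : χ ∈ B) (c : ℂ)
    (hc : ∀ ψ : ↥(P : Subgroup G) →* ℂˣ, ψ ≠ 1 →
      col P π (θ : ↥𝐂 → ℂ) ψ (χ : G → ℂ) = c)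
    (u : G) (hu : u ∈ (P : Subgroup G)) (hu1 : u ≠ 1)
    (hexp : (χ : G → ℂ) u = ∑ ξ : IrrCharacter ↥𝐂,
      (if (∀ x : ↥𝐂, (x : G) ∈ (P : Subgroup G) → (ξ : ↥𝐂 → ℂ) x = (ξ : ↥𝐂 → ℂ) 1)
      then (p : ℂ) * sec P (ξ : ↥𝐂 → ℂ) (χ : G → ℂ) u * (ξ : ↥𝐂 → ℂ) 1 else 0)) :
    (χ : G → ℂ) u = - c * (θ : ↥𝐂 → ℂ) 1 *
      (Nat.card {ξ : IrrCharacter ↥𝐂 //
        ∃ n : ↥𝐍, conjTh P (θ : ↥𝐂 → ℂ) n = (ξ : ↥𝐂 → ℂ)} : ℂ) := by
  rw [hexp]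
  have key : ∀ ξ : IrrCharacter ↥𝐂,
      (if (∀ x : ↥𝐂, (x : G) ∈ (P : Subgroup G) → (ξ : ↥𝐂 → ℂ) x = (ξ : ↥𝐂 → ℂ) 1)
      then (p : ℂ) * sec P (ξ : ↥𝐂 → ℂ) (χ : G → ℂ) u * (ξ : ↥𝐂 → ℂ) 1 else 0) =
      (if (∃ n : ↥𝐍, conjTh P (θ : ↥𝐂 → ℂ) n = (ξ : ↥𝐂 → ℂ))
        then - c * (θ : ↥𝐂 → ℂ) 1 else 0) := by
    intro ξ
    by_cases hO : ∃ n : ↥𝐍, conjTh P (θ : ↥𝐂 → ℂ) n = (ξ : ↥𝐂 → ℂ)
    · rw [if_pos hO]
      obtain ⟨n, hn⟩ := hO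
      have hξP : ∀ x : ↥𝐂, (x : G) ∈ (P : Subgroup G) →
          (ξ : ↥𝐂 → ℂ) x = (ξ : ↥𝐂 → ℂ) 1 := by
        rw [← hn]
        exact conjTh_triv P hθP n
      rw [if_pos hξP, ← hn, sec_conjTh P _ (Orth.irr_isClassFunction χ) n u]
      have hw : (cj (P : Subgroup G) (n : G) n.2 ⟨u, hu⟩) ≠ 1 := by
        intro h
        apply hu1
        have h' := congrArg Subtype.val h
        rw [cj_coe, Subgroup.coe_one] at h'
        simpa using h'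
      have h1 := sec_of_const P hP π hπP hπreg (isCharacter_of_irr θ.2) hθP (χ : G → ℂ) c hc
        (cj (P : Subgroup G) (n : G) n.2 ⟨u, hu⟩) hw
      have h2 : (p : ℂ) * sec P (θ : ↥𝐂 → ℂ) (χ : G → ℂ) ((n : G) * u * (n : G)⁻¹) = - c := h1
      rw [h2]
      show -c * (θ : ↥𝐂 → ℂ) (cjC P n 1) = -c * (θ : ↥𝐂 → ℂ) 1
      rw [map_one]
    · rw [if_neg hO]
      by_cases hξP : ∀ x : ↥𝐂, (x : G) ∈ (P : Subgroup G) →
          (ξ : ↥𝐂 → ℂ) x = (ξ : ↥𝐂 → ℂ) 1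
      · rw [if_pos hξP, sec_eq_zero_of_not_orb P hP M hM B hB hBP b hind θ hθ hθP χ hχ ξ hξP hO
          hu hu1]
        ring
      · rw [if_neg hξP]
  rw [Finset.sum_congr rfl (fun ξ _ => key ξ), Finset.sum_ite, Finset.sum_const_zero, add_zero,
    Finset.sum_const, nsmul_eq_mul, Nat.card_eq_fintype_card, Fintype.card_subtype]
  ring

/-- The orbit of `θ` under the normalizer. -/
theorem card_orb (θ : IrrCharacter ↥𝐂) :
    Nat.card ↥𝐍 = Nat.card {ξ : IrrCharacter ↥𝐂 //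
        ∃ n : ↥𝐍, conjTh P (θ : ↥𝐂 → ℂ) n = (ξ : ↥𝐂 → ℂ)} *
      Nat.card {n : ↥𝐍 // conjTh P (θ : ↥𝐂 → ℂ) n = (θ : ↥𝐂 → ℂ)} := by
  have := finite_irrCharacter ↥𝐂
  let F : ↥𝐍 → {ξ : IrrCharacter ↥𝐂 //
      ∃ n : ↥𝐍, conjTh P (θ : ↥𝐂 → ℂ) n = (ξ : ↥𝐂 → ℂ)} := fun n =>
    ⟨⟨conjTh P (θ : ↥𝐂 → ℂ) n, conjTh_irr P θ.2 n⟩, ⟨n, rfl⟩⟩
  have hfib : ∀ b, Nat.card {x // F x = b} =
      Nat.card {n : ↥𝐍 // conjTh P (θ : ↥𝐂 → ℂ) n = (θ : ↥𝐂 → ℂ)} := by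
    intro b
    obtain ⟨n₀, hn₀⟩ := b.2
    refine Nat.card_congr
      { toFun := fun x => ⟨x.1 * n₀⁻¹, ?_⟩
        invFun := fun m => ⟨m.1 * n₀, ?_⟩
        left_inv := fun x => Subtype.ext (by simp)
        right_inv := fun m => Subtype.ext (by simp) }
    · have hx : conjTh P (θ : ↥𝐂 → ℂ) x.1 = (b.1 : ↥𝐂 → ℂ) :=
        congrArg (fun t => ((t.1 : IrrCharacter ↥𝐂) : ↥𝐂 → ℂ)) x.2
      rw [conjTh_mul, hx, ← hn₀, ← conjTh_mul, mul_inv_cancel, conjTh_one]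
    · apply Subtype.ext
      apply Subtype.ext
      show conjTh P (θ : ↥𝐂 → ℂ) (m.1 * n₀) = (b.1 : ↥𝐂 → ℂ)
      rw [conjTh_mul, m.2, hn₀]
  exact Cfsg.Agent.Lib.Helper75.SelfCent.card_eq_mul_of_fiber F _ hfib

/-- The orbit of `θ` has `|N : C| / |T : C|` elements. -/
theorem card_orb_eq (θ : IrrCharacter ↥𝐂) (T : Subgroup G)
    (hT : ∀ g : G, g ∈ T ↔ (g ∈ 𝐍 ∧ ∀ c c' : ↥𝐂, (c' : G) = g * c * g⁻¹ →
      (θ : ↥𝐂 → ℂ) c' = (θ : ↥𝐂 → ℂ) c)) :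
    Nat.card {ξ : IrrCharacter ↥𝐂 //
        ∃ n : ↥𝐍, conjTh P (θ : ↥𝐂 → ℂ) n = (ξ : ↥𝐂 → ℂ)} =
      (Subgroup.centralizer ((P : Subgroup G) : Set G)).relIndex
          (Subgroup.normalizer ((P : Subgroup G) : Set G)) /
        (Subgroup.centralizer ((P : Subgroup G) : Set G)).relIndex T := by
  have hcl : IsClassFunction ↥𝐂 (θ : ↥𝐂 → ℂ) := Orth.irr_isClassFunction θ
  have hCT := centralizer_le_stab P hcl T hT
  have hCN : 𝐂 ≤ 𝐍 := Subgroup.centralizer_le_normalizer _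
  have h1 := card_orb P θ
  have hTc := Cfsg.Agent.Lib.Helper76.PSolv.card_eq_card_mul_relIndex hCT
  rw [card_stab P (θ : ↥𝐂 → ℂ) T hT, Cfsg.Agent.Lib.Helper76.PSolv.card_eq_card_mul_relIndex hCN,
    hTc] at h1
  have hCpos : 0 < Nat.card ↥𝐂 := Nat.card_pos
  have he : 0 < (Subgroup.centralizer ((P : Subgroup G) : Set G)).relIndex T := by
    apply Nat.pos_of_ne_zero
    intro h
    rw [h, mul_zero] at hTc
    exact Nat.card_pos.ne' hTc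
  have h2 : (Subgroup.centralizer ((P : Subgroup G) : Set G)).relIndex
      (Subgroup.normalizer ((P : Subgroup G) : Set G)) =
      Nat.card {ξ : IrrCharacter ↥𝐂 //
        ∃ n : ↥𝐍, conjTh P (θ : ↥𝐂 → ℂ) n = (ξ : ↥𝐂 → ℂ)} *
        (Subgroup.centralizer ((P : Subgroup G) : Set G)).relIndex T := by
    apply Nat.eq_of_mul_eq_mul_left hCpos
    rw [h1]
    ring
  rw [h2, Nat.mul_div_cancel _ he]

end Cfsg.Agent.Lib.Helper80.DefOneRow
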