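import Mathlib
import Cfsg.Agent.Lib.Helper80.DefOneRow
import Cfsg.Agent.Lib.Helper93.DefOneComb
import Cfsg.Agent.Lib.Helper17.BrFin
import Cfsg.Agent.Lib.Helper16.Defect
import Cfsg.Agent.Lib.Helper74.DefOneRow1

/-!
# Blocks of defect one: the structure theorem from the lower bound

Assembly of the character-theoretic side of the theory of blocks with a defect group of prime
order: from the lower bound `e + (p - 1) / e ≤ |B|` the structure of `B` (non-exceptional and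
exceptional characters, degree congruences) follows.
-/

set_option autoImplicit false
set_option linter.unusedSectionVars false
set_option linter.style.haveILetI false
set_option maxHeartbeats 4000000

namespace Cfsg.Agent.Lib.Helper80.DefOneMain

open Cfsg Cfsg.Agent.Lib.CT Cfsg.Agent.Lib.CT.Wedderburn Cfsg.Agent.Lib.Helper17.BrGrp
  Cfsg.Agent.Lib.Helper80.DefOneLoc Cfsg.Agent.Lib.Helper80.DefOneCol
  Cfsg.Agent.Lib.Helper80.DefOneGram Cfsg.Agent.Lib.Helper80.DefOneRow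
  Cfsg.Agent.Lib.Helper80.AbSylowCh
open scoped ComplexConjugate

universe u

theorem sum_ite_mem_const {ι : Type*} [Fintype ι] {R : Type*} [Semiring R] (S : Set ι)
    [DecidablePred (· ∈ S)] (a : R) :
    ∑ i : ι, (if i ∈ S then a else 0) = (Nat.card S : R) * a := by
  rw [Finset.sum_ite, Finset.sum_const_zero, add_zero, Finset.sum_const, nsmul_eq_mul,
    Nat.card_eq_fintype_card, Fintype.card_subtype]

variable {G : Type u} [Group G] {p : ℕ} [Fact p.Prime]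

/-- The characters of a block whose defect group is a Sylow subgroup of order `p` have degree
prime to `p`. -/
theorem not_dvd_degree [Finite G] (M : Ideal AlgInt) (hM : IsPModular p M) (P : Sylow p G)
    (hP : Nat.card P = p) (B : Set (IrrCharacter G)) (hB : IsPBlock M B)
    (hBP : IsDefectGroup p M B P) (χ : IrrCharacter G) (hχ : χ ∈ B) :
    ¬ p ∣ charDegree (χ : G → ℂ) := by
  intro hdvd
  have hp : p.Prime := Fact.out
  have hMp := Cfsg.Agent.Lib.Helper77.LocalRing.isPrime_of_isPModular hM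
  have h1 := Cfsg.Agent.Lib.Helper16.Defect.card_defectGroup p hM B hB (P : Subgroup G) hBP
  have hP' : Nat.card ↥(P : Subgroup G) = p := hP
  rw [hP'] at h1
  have hd : blockDefect p B = 1 := by
    have : p ^ 1 = p ^ blockDefect p B := by rw [pow_one]; exact h1
    exact (Nat.pow_right_injective hp.two_le this).symm
  have hG : (Nat.card G).factorization p = 1 := by
    have h2 := P.card_eq_multiplicity
    rw [hP'] at h2
    have : p ^ 1 = p ^ (Nat.card G).factorization p := by rw [pow_one]; exact h2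
    exact (Nat.pow_right_injective hp.two_le this).symm
  have hχ1 : (charDegree (χ : G → ℂ)).factorization p = (Nat.card G).factorization p := by
    have hpos : charDegree (χ : G → ℂ) ≠ 0 := (irr_charDegree_pos χ.2).ne'
    have hle := DefectZeroBlock.factorization_charDegree_le p χ
    have hge : 1 ≤ (charDegree (χ : G → ℂ)).factorization p :=
      (hp.dvd_iff_one_le_factorization hpos).mp hdvd
    omega
  have hs := DefectZeroBlock.blockOf_eq_singleton_of_defect_zero hM χ hχ1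
  have hBχ : B = {χ} := by rw [DefectZeroBlock.eq_blockOf_of_mem hMp hB hχ, hs]
  have h0 : blockDefect p B = 0 := by
    rw [DefectZeroBlock.blockDefect_eq_zero_iff p B ⟨χ, hχ⟩]
    intro χ' hχ'
    rw [hBχ] at hχ'
    rw [Set.mem_singleton_iff.mp hχ']
    exact hχ1
  omega

/-- `|N_G(P) : C_G(P)| ≤ p - 1` for a Sylow subgroup of order `p`. -/
theorem relIndex_le [Finite G] (P : Sylow p G) (hP : Nat.card P = p) :
    (Subgroup.centralizer ((P : Subgroup G) : Set G)).relIndex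
      (Subgroup.normalizer ((P : Subgroup G) : Set G)) ≤ p - 1 := by
  classical
  have hp : p.Prime := Fact.out
  have hPab : ∀ a ∈ (P : Subgroup G), ∀ b ∈ (P : Subgroup G), a * b = b * a :=
    fun a ha b hb => comm_of_mem P hP ha hb
  have := finite_hom (P : Subgroup G) hPab
  let _ : Fintype (↥(P : Subgroup G) →* ℂˣ) := Fintype.ofFinite _
  have hcardΨ : Fintype.card (↥(P : Subgroup G) →* ℂˣ) = p := by
    rw [← Nat.card_eq_fintype_card, Cfsg.Agent.S1507.card_hom_sub (P : Subgroup G) hPab]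
    exact hP
  obtain ⟨ψ₀, hψ₀⟩ : ∃ ψ₀ : ↥(P : Subgroup G) →* ℂˣ, ψ₀ ≠ 1 := by
    have : Nontrivial (↥(P : Subgroup G) →* ℂˣ) :=
      Fintype.one_lt_card_iff_nontrivial.mp (by rw [hcardΨ]; exact hp.one_lt)
    exact exists_ne 1
  rw [← AbSylowCh.card_class p P (isMulCommutative P hP) (hfrob P hP) ψ₀ hψ₀]
  have hRne : ∀ ψ' : ↥(P : Subgroup G) →* ℂˣ, Rel (P : Subgroup G) ψ₀ ψ' → ψ' ≠ 1 := by
    rintro ψ' ⟨n, hn, h⟩ rfl
    apply hψ₀
    refine MonoidHom.ext fun w => ?_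
    have := h w ⟨n * w * n⁻¹, (Subgroup.mem_normalizer_iff.mp hn _).mp w.2⟩ rfl
    rw [← this]
    rfl
  have h1 : Nat.card {ψ' : ↥(P : Subgroup G) →* ℂˣ // Rel (P : Subgroup G) ψ₀ ψ'} ≤
      Nat.card {ψ' : ↥(P : Subgroup G) →* ℂˣ // ψ' ≠ 1} :=
    Nat.card_le_card_of_injective (fun x => ⟨x.1, hRne x.1 x.2⟩)
      (fun x y h => Subtype.ext (congrArg (fun t => t.1) h))
  have h2 : Nat.card {ψ' : ↥(P : Subgroup G) →* ℂˣ // ψ' ≠ 1} = p - 1 := by
    rw [Nat.card_eq_fintype_card, Fintype.card_subtype, Finset.filter_ne',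
      Finset.card_erase_of_mem (Finset.mem_univ _), Finset.card_univ, hcardΨ]
  omega

section Aux

variable [Fintype G] (P : Sylow p G) (hP : Nat.card P = p)

local notation "𝐂" => Subgroup.centralizer ((P : Subgroup G) : Set G)
local notation "𝐍" => Subgroup.normalizer ((P : Subgroup G) : Set G)

open Classical in
include hP in
/-- The structure theorem, with all finiteness instances and the projection explicit, and the
expansion of the values on `P` as a hypothesis. -/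
theorem structure_aux (M : Ideal AlgInt) (hM : IsPModular p M)
    [Fintype ↥𝐂] [Fintype ↥(P : Subgroup G)] [Fintype ↥𝐍] [Fintype (IrrCharacter G)]
    [Fintype (IrrCharacter ↥𝐂)] [Fintype (↥(P : Subgroup G) →* ℂˣ)]
    (π : ↥𝐂 →* ↥(P : Subgroup G))
    (hπP : ∀ c : ↥𝐂, (c : G) ∈ (P : Subgroup G) → ((π c : ↥(P : Subgroup G)) : G) = (c : G))
    (hπreg : ∀ c : ↥𝐂, π c = 1 ↔ ¬ p ∣ orderOf c)
    (B : Set (IrrCharacter G)) (hB : IsPBlock M B) (hBP : IsDefectGroup p M B P)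
    (b : Set (IrrCharacter ↥𝐂)) (hind : IsInducedBlock M 𝐂 b B)
    (θ : IrrCharacter ↥𝐂) (hθ : θ ∈ b)
    (hθP : ∀ x : ↥𝐂, (x : G) ∈ (P : Subgroup G) → (θ : ↥𝐂 → ℂ) x = (θ : ↥𝐂 → ℂ) 1)
    (T : Subgroup G)
    (hT : ∀ g : G, g ∈ T ↔ (g ∈ 𝐍 ∧ ∀ c c' : ↥𝐂, (c' : G) = g * c * g⁻¹ →
      (θ : ↥𝐂 → ℂ) c' = (θ : ↥𝐂 → ℂ) c))
    (e f : ℕ) (he : (Subgroup.centralizer ((P : Subgroup G) : Set G)).relIndex T = e)
    (hf : (Subgroup.centralizer ((P : Subgroup G) : Set G)).relIndex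
      (Subgroup.normalizer ((P : Subgroup G) : Set G)) = f)
    (hlow : e + (p - 1) / e ≤ Nat.card B)
    (hexp : ∀ (χ : IrrCharacter G) (u : G), u ∈ (P : Subgroup G) →
      (χ : G → ℂ) u = ∑ ξ : IrrCharacter ↥𝐂,
        (if (∀ x : ↥𝐂, (x : G) ∈ (P : Subgroup G) → (ξ : ↥𝐂 → ℂ) x = (ξ : ↥𝐂 → ℂ) 1)
        then (p : ℂ) * sec P (ξ : ↥𝐂 → ℂ) (χ : G → ℂ) u * (ξ : ↥𝐂 → ℂ) 1 else 0)) :
    e ∣ p - 1 ∧ Nat.card B = e + (p - 1) / e ∧ ∃ X Y : Set (IrrCharacter G),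
      B = X ∪ Y ∧ Disjoint X Y ∧ Nat.card X = e ∧ Nat.card Y = (p - 1) / e ∧
      (∀ χ ∈ X, (charDegree (χ : G → ℂ) : ℤ) ≡
          ((f / e * charDegree (θ : ↥𝐂 → ℂ) : ℕ) : ℤ) [ZMOD p] ∨
        (charDegree (χ : G → ℂ) : ℤ) ≡
          -((f / e * charDegree (θ : ↥𝐂 → ℂ) : ℕ) : ℤ) [ZMOD p]) ∧
      (∃ ε : ℤ, (ε = 1 ∨ ε = -1) ∧ ∀ ψ ∈ Y, (charDegree (ψ : G → ℂ) : ℤ) ≡
        ε * ((f * charDegree (θ : ↥𝐂 → ℂ) : ℕ) : ℤ) [ZMOD p]) ∧
      ∀ ψ ∈ Y, ∀ ψ' ∈ Y, ∀ g : G, ¬ p ∣ orderOf g → (ψ : G → ℂ) g = (ψ' : G → ℂ) g := by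
  have hp : p.Prime := Fact.out
  have hMp := Cfsg.Agent.Lib.Helper77.LocalRing.isPrime_of_isPModular hM
  have hPab : ∀ a ∈ (P : Subgroup G), ∀ b ∈ (P : Subgroup G), a * b = b * a :=
    fun a ha b hb => comm_of_mem P hP ha hb
  generalize hq : f / e = q
  generalize ht : (p - 1) / e = t at hlow ⊢
  -- the integer columns
  have hD : ∀ (ψ : ↥(P : Subgroup G) →* ℂˣ) (χ : IrrCharacter G),
      ∃ D : ℤ, col P π (θ : ↥𝐂 → ℂ) ψ (χ : G → ℂ) = D :=
    fun ψ χ => col_int P π θ.2 ψ (isCharacter_of_irr χ.2)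
  choose D hD using hD
  have hv0 : ∀ (ψ : ↥(P : Subgroup G) →* ℂˣ) (χ : IrrCharacter G), χ ∉ B → D ψ χ = 0 := by
    intro ψ χ hχ
    have h := col_eq_zero_of_not_mem P hP π hπP hπreg M hM B b hind θ hθ hθP ψ χ hχ
    rw [hD] at h
    exact_mod_cast h
  have hG : ∀ ψ ψ' : ↥(P : Subgroup G) →* ℂˣ, ψ ≠ 1 → ψ' ≠ 1 →
      ((∑ χ, D ψ χ * D ψ' χ : ℤ) : ℂ) =
        (e : ℂ) + (if RelS P (θ : ↥𝐂 → ℂ) ψ ψ' then 1 else 0) := by
    intro ψ ψ' hψ hψ'
    have h := gram_T P hP π hπP hπreg θ.2 hθP T hT ψ ψ' hψ hψ'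
    rw [he] at h
    rw [← h]
    push_cast
    refine Finset.sum_congr rfl fun χ _ => ?_
    rw [hD, hD]
  have hG1 : ∀ ψ ψ' : ↥(P : Subgroup G) →* ℂˣ, ψ ≠ 1 → ψ' ≠ 1 →
      RelS P (θ : ↥𝐂 → ℂ) ψ ψ' → ∑ χ, D ψ χ * D ψ' χ = (e : ℤ) + 1 := by
    intro ψ ψ' hψ hψ' hR
    have h := hG ψ ψ' hψ hψ'
    rw [if_pos hR] at h
    exact_mod_cast h
  have hG0 : ∀ ψ ψ' : ↥(P : Subgroup G) →* ℂˣ, ψ ≠ 1 → ψ' ≠ 1 →
      ¬ RelS P (θ : ↥𝐂 → ℂ) ψ ψ' → ∑ χ, D ψ χ * D ψ' χ = (e : ℤ) := by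
    intro ψ ψ' hψ hψ' hR
    have h := hG ψ ψ' hψ hψ'
    rw [if_neg hR, add_zero] at h
    exact_mod_cast h
  have hVR : ∀ (ψ : ↥(P : Subgroup G) →* ℂˣ) (g : G), ¬ p ∣ orderOf g →
      ∑ χ : IrrCharacter G, (D ψ χ : ℂ) * (χ : G → ℂ) g = 0 := by
    intro ψ g hg
    rw [← sum_col_mul_reg P π hπreg θ.2 ψ g hg]
    refine Finset.sum_congr rfl fun χ _ => ?_
    rw [hD]
  have hone : ¬ p ∣ orderOf (1 : G) := by
    rw [orderOf_one]
    exact fun h => hp.one_lt.ne' (Nat.dvd_one.mp h)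
  have hwt : ∀ ψ : ↥(P : Subgroup G) →* ℂˣ,
      ∑ χ : IrrCharacter G, (charDegree (χ : G → ℂ) : ℤ) * D ψ χ = 0 := by
    intro ψ
    have h := hVR ψ 1 hone
    have h' : ((∑ χ : IrrCharacter G, (charDegree (χ : G → ℂ) : ℤ) * D ψ χ : ℤ) : ℂ) = 0 := by
      rw [← h]
      push_cast
      refine Finset.sum_congr rfl fun χ _ => ?_
      rw [char_natCast_charDegree (isCharacter_of_irr χ.2)]
      ring
    exact_mod_cast h'
  -- values on `P` for constant columns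
  have hfe : Nat.card {ξ : IrrCharacter ↥𝐂 //
      ∃ n : ↥𝐍, conjTh P (θ : ↥𝐂 → ℂ) n = (ξ : ↥𝐂 → ℂ)} = f / e := by
    rw [card_orb_eq P θ T hT, he, hf]
  rw [hq] at hfe
  have hval : ∀ χ ∈ B, ∀ c : ℤ,
      (∀ ψ : ↥(P : Subgroup G) →* ℂˣ, ψ ≠ 1 → D ψ χ = c) →
      ∀ w ∈ (P : Subgroup G), w ≠ 1 → (χ : G → ℂ) w =
        ((-(c * (q : ℤ) * (charDegree (θ : ↥𝐂 → ℂ) : ℤ)) : ℤ) : ℂ) := by
    intro χ hχ c hc w hw hw1
    have h := value_of_const_orb P hP π hπP hπreg M hM B hB hBP b hind θ hθ hθP χ hχ (c : ℂ)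
      (fun ψ hψ => by rw [hD, hc ψ hψ]) w hw hw1 (hexp χ w hw)
    rw [h, hfe, ← char_natCast_charDegree (isCharacter_of_irr θ.2)]
    simp only [Int.cast_neg, Int.cast_mul, Int.cast_natCast]
    ring
  have hdeg : ∀ χ ∈ B, ∀ c : ℤ,
      (∀ ψ : ↥(P : Subgroup G) →* ℂˣ, ψ ≠ 1 → D ψ χ = c) →
      (charDegree (χ : G → ℂ) : ℤ) ≡
        -(c * (q : ℤ) * (charDegree (θ : ↥𝐂 → ℂ) : ℤ)) [ZMOD p] :=
    fun χ hχ c hc => Cfsg.Agent.Lib.Helper17.BrFin.degree_modEq P hP (isCharacter_of_irr χ.2) _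
      (hval χ hχ c hc)
  have hnv : ∀ χ ∈ B, ∃ ψ : ↥(P : Subgroup G) →* ℂˣ, ψ ≠ 1 ∧ D ψ χ ≠ 0 := by
    intro χ hχ
    by_contra hcon
    have hc : ∀ ψ : ↥(P : Subgroup G) →* ℂˣ, ψ ≠ 1 → D ψ χ = 0 := by
      intro ψ hψ
      by_contra h
      exact hcon ⟨ψ, hψ, h⟩
    have h := hdeg χ hχ 0 hc
    rw [zero_mul, zero_mul, neg_zero] at h
    have hdvd : (p : ℤ) ∣ (charDegree (χ : G → ℂ) : ℤ) := Int.modEq_zero_iff_dvd.mp h
    exact not_dvd_degree M hM P hP B hB hBP χ hχ (by exact_mod_cast hdvd)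
  have hcardΨ : Fintype.card (↥(P : Subgroup G) →* ℂˣ) = p := by
    rw [← Nat.card_eq_fintype_card, Cfsg.Agent.S1507.card_hom_sub (P : Subgroup G) hPab]
    exact hP
  have hclass : ∀ ψ : ↥(P : Subgroup G) →* ℂˣ, ψ ≠ 1 →
      Nat.card {ψ' : ↥(P : Subgroup G) →* ℂˣ // RelS P (θ : ↥𝐂 → ℂ) ψ ψ'} = e := by
    intro ψ hψ
    rw [card_class_T P hP θ.2 T hT ψ hψ, he]
  have hw : ∀ χ : IrrCharacter G, (0 : ℤ) < (charDegree (χ : G → ℂ) : ℤ) := fun χ => by
    exact_mod_cast irr_charDegree_pos χ.2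
  obtain ⟨hdvd, hcardB, X, Y, Γ, hBXY, hdisj, hX, hY, hXΓ, hcase⟩ :=
    Cfsg.Agent.Lib.Helper93.DefOneComb.comb (1 : ↥(P : Subgroup G) →* ℂˣ) p e hp.two_le hcardΨ B
      (fun χ : IrrCharacter G => (charDegree (χ : G → ℂ) : ℤ)) hw D (RelS P (θ : ↥𝐂 → ℂ))
      hv0 hG1 hG0 (relS_refl P (θ : ↥𝐂 → ℂ)) (fun ψ ψ' hψ hR => relS_ne P hψ hR) hclass
      (fun ψ _ => hwt ψ) hnv (by rw [ht]; exact hlow)
  rw [ht] at hcardB hY hcase
  -- the indices
  have hcl : IsClassFunction ↥𝐂 (θ : ↥𝐂 → ℂ) := Orth.irr_isClassFunction θ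
  have hCT := centralizer_le_stab P hcl T hT
  have hTN : T ≤ 𝐍 := fun g hg => ((hT g).mp hg).1
  have hef : e ∣ f := by
    have h := Subgroup.relIndex_mul_relIndex _ _ _ hCT hTN
    rw [he, hf] at h
    exact Dvd.intro _ h
  have he_pos : 0 < e := by
    have hTc := Cfsg.Agent.Lib.Helper76.PSolv.card_eq_card_mul_relIndex hCT
    rw [he] at hTc
    apply Nat.pos_of_ne_zero
    intro h
    rw [h, mul_zero] at hTc
    exact Nat.card_pos.ne' hTc
  have hZ : ∀ a b : ℤ, a ≡ b [ZMOD p] ↔ ((a : ZMod p) = (b : ZMod p)) :=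
    fun a b => (ZMod.intCast_eq_intCast_iff a b p).symm
  have hYsub : Y ⊆ B := by
    rw [hBXY]
    exact Set.subset_union_right
  have hXsub : X ⊆ B := by
    rw [hBXY]
    exact Set.subset_union_left
  have hXY : ∀ χ, χ ∈ X → χ ∉ Y := fun χ hx hy => Set.disjoint_left.mp hdisj hx hy
  have hXdeg : ∀ χ ∈ X, (charDegree (χ : G → ℂ) : ℤ) ≡
        ((q * charDegree (θ : ↥𝐂 → ℂ) : ℕ) : ℤ) [ZMOD p] ∨
      (charDegree (χ : G → ℂ) : ℤ) ≡
        -((q * charDegree (θ : ↥𝐂 → ℂ) : ℕ) : ℤ) [ZMOD p] := by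
    intro χ hχ
    obtain ⟨hΓ, hconst⟩ := hXΓ χ hχ
    have h := hdeg χ (hXsub hχ) (Γ χ) hconst
    rcases hΓ with h1 | h1
    · right
      rw [h1] at h
      rw [hZ] at h ⊢
      rw [h]
      push_cast
      ring
    · left
      rw [h1] at h
      rw [hZ] at h ⊢
      rw [h]
      push_cast
      ring
  rcases hcase with ⟨δ, γ, ζ, hδ, hε, hζY, hYζ, hform⟩ | ⟨he1, η₀, hYη, hΓη, hconstη⟩
  · -- two or more classes
    have hagree : ∀ η ∈ Y, ∀ η' ∈ Y, ∀ g : G, ¬ p ∣ orderOf g →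
        (η : G → ℂ) g = (η' : G → ℂ) g := by
      intro η hη η' hη' g hg
      obtain ⟨ψ, hψ, rfl⟩ := hYζ η hη
      obtain ⟨ψ', hψ', rfl⟩ := hYζ η' hη'
      have h1 := hVR ψ g hg
      have h2 := hVR ψ' g hg
      have h3 : ∑ χ : IrrCharacter G, ((D ψ χ : ℂ) - (D ψ' χ : ℂ)) * (χ : G → ℂ) g = 0 := by
        simp_rw [sub_mul]
        rw [Finset.sum_sub_distrib, h1, h2, sub_zero]
      have h4 : ∀ χ : IrrCharacter G, ((D ψ χ : ℂ) - (D ψ' χ : ℂ)) * (χ : G → ℂ) g =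
          (δ : ℂ) * ((if χ = ζ ψ then (χ : G → ℂ) g else 0) -
            (if χ = ζ ψ' then (χ : G → ℂ) g else 0)) := by
        intro χ
        rw [hform ψ hψ χ, hform ψ' hψ' χ]
        push_cast
        split_ifs <;> ring
      rw [Finset.sum_congr rfl (fun χ _ => h4 χ), ← Finset.mul_sum, Finset.sum_sub_distrib,
        Finset.sum_ite_eq' Finset.univ (ζ ψ), Finset.sum_ite_eq' Finset.univ (ζ ψ'),
        if_pos (Finset.mem_univ _), if_pos (Finset.mem_univ _)] at h3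
      have hδ0 : (δ : ℂ) ≠ 0 := by
        rcases hδ with h | h <;> rw [h] <;> norm_num
      exact sub_eq_zero.mp ((mul_eq_zero.mp h3).resolve_left hδ0)
    refine ⟨hdvd, hcardB, X, Y, hBXY, hdisj, hX, hY, hXdeg, ?_, hagree⟩
    obtain ⟨ψ₀, hψ₀⟩ : ∃ ψ₀ : ↥(P : Subgroup G) →* ℂˣ, ψ₀ ≠ 1 := by
      have : Nontrivial (↥(P : Subgroup G) →* ℂˣ) :=
        Fintype.one_lt_card_iff_nontrivial.mp (by rw [hcardΨ]; exact hp.one_lt)
      exact exists_ne 1
    obtain ⟨y, hy⟩ : ∃ y : ℕ, charDegree ((ζ ψ₀ : IrrCharacter G) : G → ℂ) = y := ⟨_, rfl⟩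
    have hydeg : ∀ η ∈ Y, charDegree (η : G → ℂ) = y := by
      intro η hη
      have h := hagree η hη (ζ ψ₀) (hζY ψ₀ hψ₀) 1 hone
      rw [← hy]
      unfold charDegree
      rw [h]
    have hF1 : ∀ χ ∈ X, ((charDegree (χ : G → ℂ) : ℤ) : ZMod p) * ((Γ χ : ℤ) : ZMod p) =
        -((q : ℤ) : ZMod p) * ((charDegree (θ : ↥𝐂 → ℂ) : ℤ) : ZMod p) := by
      intro χ hχ
      obtain ⟨hΓ, hconst⟩ := hXΓ χ hχ
      have h := (hZ _ _).mp (hdeg χ (hXsub hχ) (Γ χ) hconst)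
      rw [h]
      rcases hΓ with h1 | h1 <;> rw [h1] <;> push_cast <;> ring
    have hterm : ∀ χ : IrrCharacter G,
        (((charDegree (χ : G → ℂ) : ℤ) * D ψ₀ χ : ℤ) : ZMod p) =
        (if χ ∈ X then -((q : ℤ) : ZMod p) *
          ((charDegree (θ : ↥𝐂 → ℂ) : ℤ) : ZMod p) else 0) +
        (if χ ∈ Y then ((y : ℤ) : ZMod p) * ((γ : ℤ) : ZMod p) else 0) +
        ((δ : ℤ) : ZMod p) * (if χ = ζ ψ₀ then ((y : ℤ) : ZMod p) else 0) := by
      intro χ
      rw [hform ψ₀ hψ₀ χ]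
      by_cases hx : χ ∈ X
      · have hy' : χ ∉ Y := hXY χ hx
        have hne : χ ≠ ζ ψ₀ := fun h => hy' (h ▸ hζY ψ₀ hψ₀)
        rw [Set.indicator_of_mem hx, Set.indicator_of_notMem hy', if_pos hx, if_neg hy',
          if_neg hne, if_neg hne]
        have h1 := hF1 χ hx
        push_cast at h1 ⊢
        linear_combination h1
      · by_cases hy' : χ ∈ Y
        · rw [Set.indicator_of_notMem hx, Set.indicator_of_mem hy', if_neg hx, if_pos hy',
            hydeg χ hy']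
          by_cases hz : χ = ζ ψ₀
          · rw [if_pos hz, if_pos hz]
            push_cast
            ring
          · rw [if_neg hz, if_neg hz]
            push_cast
            ring
        · have hne : χ ≠ ζ ψ₀ := fun h => hy' (h ▸ hζY ψ₀ hψ₀)
          rw [Set.indicator_of_notMem hx, Set.indicator_of_notMem hy', if_neg hx, if_neg hy',
            if_neg hne, if_neg hne]
          push_cast
          ring
    have hsumZ : (∑ χ : IrrCharacter G,
        (((charDegree (χ : G → ℂ) : ℤ) * D ψ₀ χ : ℤ) : ZMod p)) = 0 := by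
      rw [← Int.cast_sum, hwt ψ₀, Int.cast_zero]
    rw [Finset.sum_congr rfl (fun χ _ => hterm χ), Finset.sum_add_distrib,
      Finset.sum_add_distrib, ← Finset.mul_sum, Finset.sum_ite_eq' Finset.univ (ζ ψ₀),
      if_pos (Finset.mem_univ _), sum_ite_mem_const X, sum_ite_mem_const Y, hX, hY] at hsumZ
    have hfe' : (e : ZMod p) * (q : ZMod p) = (f : ZMod p) := by
      rw [← Nat.cast_mul, ← hq, Nat.mul_div_cancel' hef]
    refine ⟨(t : ℤ) * γ + δ, hε, ?_⟩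
    intro η hη
    rw [hZ, hydeg η hη]
    have hε2 : (((t : ℤ) * γ + δ : ℤ) : ZMod p) * (((t : ℤ) * γ + δ : ℤ) : ZMod p) = 1 := by
      rw [← Int.cast_mul]
      rcases hε with h | h <;> rw [h] <;> norm_num
    push_cast at hsumZ hε2 ⊢
    linear_combination (-(y : ZMod p)) * hε2 +
      ((t : ZMod p) * (γ : ZMod p) + (δ : ZMod p)) *
        (hsumZ + (charDegree (θ : ↥𝐂 → ℂ) : ZMod p) * hfe')
  · -- one class
    have hagree : ∀ η ∈ Y, ∀ η' ∈ Y, ∀ g : G, ¬ p ∣ orderOf g →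
        (η : G → ℂ) g = (η' : G → ℂ) g := by
      intro η hη η' hη' g _
      rw [hYη] at hη hη'
      rw [Set.mem_singleton_iff.mp hη, Set.mem_singleton_iff.mp hη']
    refine ⟨hdvd, hcardB, X, Y, hBXY, hdisj, hX, hY, hXdeg, ⟨Γ η₀, hΓη, ?_⟩, hagree⟩
    intro η hη
    rw [hYη] at hη
    rw [Set.mem_singleton_iff.mp hη]
    have hη₀B : η₀ ∈ B := hYsub (by rw [hYη]; exact Set.mem_singleton _)
    have h := hdeg η₀ hη₀B (Γ η₀) hconstη
    have hfle : f ≤ p - 1 := by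
      rw [← hf]
      exact relIndex_le P hP
    have hf_pos : 0 < f := by
      have hCN : 𝐂 ≤ 𝐍 := Subgroup.centralizer_le_normalizer _
      have hNc := Cfsg.Agent.Lib.Helper76.PSolv.card_eq_card_mul_relIndex hCN
      rw [hf] at hNc
      apply Nat.pos_of_ne_zero
      intro h0
      rw [h0, mul_zero] at hNc
      exact Nat.card_pos.ne' hNc
    have hfe1 : f = e := le_antisymm (by rw [he1]; exact hfle) (Nat.le_of_dvd hf_pos hef)
    have hdiv : q = 1 := by rw [← hq, hfe1, Nat.div_self he_pos]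
    rw [hdiv] at h
    rw [hZ] at h ⊢
    rw [h]
    have hp1 : ((p - 1 : ℕ) : ZMod p) = -1 := by
      rw [Nat.cast_sub hp.one_lt.le, ZMod.natCast_self, Nat.cast_one, zero_sub]
    have hfZ : (f : ZMod p) = -1 := by rw [hfe1, he1, hp1]
    push_cast
    rw [hfZ]
    ring

end Aux

/-- **Blocks of defect one**: the structure of a block whose defect group is a Sylow subgroup
of order `p`, from the lower bound `e + (p - 1) / e ≤ |B|`. -/
theorem structure_of_lower [Finite G] (p : ℕ) [Fact p.Prime] (M : Ideal AlgInt)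
    (hM : IsPModular p M) (hodd : p ≠ 2) (P : Sylow p G) (hP : Nat.card P = p)
    (B : Set (IrrCharacter G)) (hB : IsPBlock M B) (hBP : IsDefectGroup p M B P)
    (b : Set (IrrCharacter (Subgroup.centralizer ((P : Subgroup G) : Set G))))
    (hind : IsInducedBlock M (Subgroup.centralizer ((P : Subgroup G) : Set G)) b B)
    (θ : IrrCharacter (Subgroup.centralizer ((P : Subgroup G) : Set G))) (hθ : θ ∈ b)
    (hθP : ∀ x : Subgroup.centralizer ((P : Subgroup G) : Set G), (x : G) ∈ (P : Subgroup G) →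
      (θ : Subgroup.centralizer ((P : Subgroup G) : Set G) → ℂ) x =
        (θ : Subgroup.centralizer ((P : Subgroup G) : Set G) → ℂ) 1)
    (T : Subgroup G)
    (hT : ∀ g : G, g ∈ T ↔ (g ∈ Subgroup.normalizer ((P : Subgroup G) : Set G) ∧
      ∀ c c' : Subgroup.centralizer ((P : Subgroup G) : Set G), (c' : G) = g * c * g⁻¹ →
        (θ : Subgroup.centralizer ((P : Subgroup G) : Set G) → ℂ) c' =
          (θ : Subgroup.centralizer ((P : Subgroup G) : Set G) → ℂ) c))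
    (e f : ℕ) (he : (Subgroup.centralizer ((P : Subgroup G) : Set G)).relIndex T = e)
    (hf : (Subgroup.centralizer ((P : Subgroup G) : Set G)).relIndex
      (Subgroup.normalizer ((P : Subgroup G) : Set G)) = f)
    (hlow : e + (p - 1) / e ≤ Nat.card B) :
    e ∣ p - 1 ∧ Nat.card B = e + (p - 1) / e ∧ ∃ X Y : Set (IrrCharacter G),
      B = X ∪ Y ∧ Disjoint X Y ∧ Nat.card X = e ∧ Nat.card Y = (p - 1) / e ∧
      (∀ χ ∈ X, (charDegree (χ : G → ℂ) : ℤ) ≡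
          ((f / e * charDegree
            (θ : Subgroup.centralizer ((P : Subgroup G) : Set G) → ℂ) : ℕ) : ℤ) [ZMOD p] ∨
        (charDegree (χ : G → ℂ) : ℤ) ≡
          -((f / e * charDegree
            (θ : Subgroup.centralizer ((P : Subgroup G) : Set G) → ℂ) : ℕ) : ℤ) [ZMOD p]) ∧
      (∃ ε : ℤ, (ε = 1 ∨ ε = -1) ∧ ∀ ψ ∈ Y, (charDegree (ψ : G → ℂ) : ℤ) ≡
        ε * ((f * charDegree
          (θ : Subgroup.centralizer ((P : Subgroup G) : Set G) → ℂ) : ℕ) : ℤ) [ZMOD p]) ∧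
      ∀ ψ ∈ Y, ∀ ψ' ∈ Y, ∀ g : G, ¬ p ∣ orderOf g → (ψ : G → ℂ) g = (ψ' : G → ℂ) g := by
  classical
  haveI : Fintype G := Fintype.ofFinite G
  have := finite_irrCharacter G
  haveI : Fintype (IrrCharacter G) := Fintype.ofFinite _
  have := finite_irrCharacter ↥(Subgroup.centralizer ((P : Subgroup G) : Set G))
  haveI : Fintype (IrrCharacter ↥(Subgroup.centralizer ((P : Subgroup G) : Set G))) :=
    Fintype.ofFinite _
  have hPab : ∀ a ∈ (P : Subgroup G), ∀ b ∈ (P : Subgroup G), a * b = b * a :=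
    fun a ha b hb => comm_of_mem P hP ha hb
  have := finite_hom (P : Subgroup G) hPab
  haveI : Fintype (↥(P : Subgroup G) →* ℂˣ) := Fintype.ofFinite _
  haveI : Fintype ↥(Subgroup.centralizer ((P : Subgroup G) : Set G)) := Fintype.ofFinite _
  haveI : Fintype ↥(P : Subgroup G) := Fintype.ofFinite _
  haveI : Fintype ↥(Subgroup.normalizer ((P : Subgroup G) : Set G)) := Fintype.ofFinite _
  obtain ⟨π, hπP, hπreg⟩ := exists_proj P hP
  exact structure_aux P hP M hM π hπP hπreg B hB hBP b hind θ hθ hθP T hT e f he hf hlow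
    (fun χ u hu => Cfsg.Agent.Lib.Helper74.DefOneRow1.value_eq_sum P hP π hπP hπreg
      (χ : G → ℂ) (Orth.irr_isClassFunction χ) u hu)

end Cfsg.Agent.Lib.Helper80.DefOneMain
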