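import Mathlib
import Cfsg.Agent.Lib.Helper80.DefOneMain

/-!
# Blocks of defect one: the full column structure

The integer columns of a block `B` whose defect group is a Sylow subgroup of order `p`, their
coherent shape (output of the combinatorial lemma), the signs and the relation on the
`p`-regular elements, in one statement.
-/

set_option autoImplicit false
set_option linter.unusedSectionVars false
set_option linter.style.haveILetI false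
set_option maxHeartbeats 4000000

namespace Cfsg.Agent.Lib.Helper80.DefOneFull

open Cfsg Cfsg.Agent.Lib.CT Cfsg.Agent.Lib.CT.Wedderburn Cfsg.Agent.Lib.Helper17.BrGrp
  Cfsg.Agent.Lib.Helper80.DefOneLoc Cfsg.Agent.Lib.Helper80.DefOneCol
  Cfsg.Agent.Lib.Helper80.DefOneGram Cfsg.Agent.Lib.Helper80.DefOneRow
  Cfsg.Agent.Lib.Helper80.DefOneMain Cfsg.Agent.Lib.Helper80.AbSylowCh
open scoped ComplexConjugate

universe u
variable {G : Type u} [Group G] {p : ℕ} [Fact p.Prime] [Fintype G] (P : Sylow p G)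
  (hP : Nat.card P = p)

local notation "𝐂" => Subgroup.centralizer ((P : Subgroup G) : Set G)
local notation "𝐍" => Subgroup.normalizer ((P : Subgroup G) : Set G)

open Classical in
include hP in
/-- The full structure of the columns of a block of defect one. -/
theorem structure_full (M : Ideal AlgInt) (hM : IsPModular p M)
    [Fintype ↥𝐂] [Fintype ↥(P : Subgroup G)] [Fintype ↥𝐍] [Fintype (IrrCharacter G)]
    [Fintype (IrrCharacter ↥𝐂)] [Fintype (↥(P : Subgroup G) →* ℂˣ)]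
    (π : ↥𝐂 →* ↥(P : Subgroup G))
    (hπP : ∀ c : ↥𝐂, (c : G) ∈ (P : Subgroup G) → ((π c : ↥(P : Subgroup G)) : G) = (c : G))
    (hπreg : ∀ c : ↥𝐂, π c = 1 ↔ ¬ p ∣ orderOf c)
    (B : Set (IrrCharacter G)) (hB : IsPBlock M B) (hBP : IsDefectGroup p M B P)
    (b : Set (IrrCharacter ↥𝐂)) (hind : IsInducedBlock M 𝐂 b B)
    (θ : IrrCharacter ↥𝐂) (hθ : θ ∈ b)
    (hθP : ∀ x : ↥𝐂, (x : G) ∈ (P : Subgroup G) → (θ : ↥𝐂 → ℂ) x = (θ : ↥𝐂 → ℂ) 1)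
    (T : Subgroup G)
    (hT : ∀ g : G, g ∈ T ↔ (g ∈ 𝐍 ∧ ∀ c c' : ↥𝐂, (c' : G) = g * c * g⁻¹ →
      (θ : ↥𝐂 → ℂ) c' = (θ : ↥𝐂 → ℂ) c))
    (e : ℕ) (he : (Subgroup.centralizer ((P : Subgroup G) : Set G)).relIndex T = e)
    (hlow : e + (p - 1) / e ≤ Nat.card B)
    (hexp : ∀ (χ : IrrCharacter G) (u : G), u ∈ (P : Subgroup G) →
      (χ : G → ℂ) u = ∑ ξ : IrrCharacter ↥𝐂,
        (if (∀ x : ↥𝐂, (x : G) ∈ (P : Subgroup G) → (ξ : ↥𝐂 → ℂ) x = (ξ : ↥𝐂 → ℂ) 1)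
        then (p : ℂ) * sec P (ξ : ↥𝐂 → ℂ) (χ : G → ℂ) u * (ξ : ↥𝐂 → ℂ) 1 else 0)) :
    ∃ (D : (↥(P : Subgroup G) →* ℂˣ) → IrrCharacter G → ℤ) (X Y : Set (IrrCharacter G))
      (Γ δs : IrrCharacter G → ℤ),
      (∀ (ψ : ↥(P : Subgroup G) →* ℂˣ) (χ : IrrCharacter G),
        col P π (θ : ↥𝐂 → ℂ) ψ (χ : G → ℂ) = D ψ χ) ∧
      (∀ (ψ : ↥(P : Subgroup G) →* ℂˣ) (χ : IrrCharacter G), χ ∉ B → D ψ χ = 0) ∧
      (∀ χ ∈ B, ∃ ψ : ↥(P : Subgroup G) →* ℂˣ, ψ ≠ 1 ∧ D ψ χ ≠ 0) ∧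
      e ∣ p - 1 ∧ Nat.card B = e + (p - 1) / e ∧ B = X ∪ Y ∧ Disjoint X Y ∧
      Nat.card X = e ∧ Nat.card Y = (p - 1) / e ∧
      (∀ χ ∈ X, (Γ χ = 1 ∨ Γ χ = -1) ∧
        ∀ ψ : ↥(P : Subgroup G) →* ℂˣ, ψ ≠ 1 → D ψ χ = Γ χ) ∧
      ((∃ (δ γ : ℤ) (ζ : (↥(P : Subgroup G) →* ℂˣ) → IrrCharacter G), (δ = 1 ∨ δ = -1) ∧
          ((((p - 1) / e : ℕ) : ℤ) * γ + δ = 1 ∨ (((p - 1) / e : ℕ) : ℤ) * γ + δ = -1) ∧
          (∀ ψ, ψ ≠ 1 → ζ ψ ∈ Y) ∧ (∀ η ∈ Y, ∃ ψ, ψ ≠ 1 ∧ ζ ψ = η) ∧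
          (∀ ψ, ψ ≠ 1 → ∀ χ, D ψ χ = Set.indicator X Γ χ + Set.indicator Y (fun _ => γ) χ +
            δ * (if χ = ζ ψ then 1 else 0))) ∨
       (e = p - 1 ∧ ∃ η₀ : IrrCharacter G, Y = {η₀} ∧ (Γ η₀ = 1 ∨ Γ η₀ = -1) ∧
          ∀ ψ : ↥(P : Subgroup G) →* ℂˣ, ψ ≠ 1 → D ψ η₀ = Γ η₀)) ∧
      (∀ χ ∈ B, δs χ = 1 ∨ δs χ = -1) ∧
      (∀ x : G, ¬ p ∣ orderOf x → ∀ η ∈ Y,
        (∑ᶠ χ ∈ X, (δs χ : ℂ) * (χ : G → ℂ) x) + (δs η : ℂ) * (η : G → ℂ) x = 0) ∧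
      (∀ η ∈ Y, ∀ η' ∈ Y, ∀ g : G, ¬ p ∣ orderOf g → (η : G → ℂ) g = (η' : G → ℂ) g) := by
  have hp : p.Prime := Fact.out
  have hMp := Cfsg.Agent.Lib.Helper77.LocalRing.isPrime_of_isPModular hM
  have hPab : ∀ a ∈ (P : Subgroup G), ∀ b ∈ (P : Subgroup G), a * b = b * a :=
    fun a ha b hb => comm_of_mem P hP ha hb
  obtain ⟨q, hq⟩ : ∃ q : ℕ, (Subgroup.centralizer ((P : Subgroup G) : Set G)).relIndex
      (Subgroup.normalizer ((P : Subgroup G) : Set G)) /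
        (Subgroup.centralizer ((P : Subgroup G) : Set G)).relIndex T = q := ⟨_, rfl⟩
  rw [he] at hq
  -- the integer columns
  have hD : ∀ (ψ : ↥(P : Subgroup G) →* ℂˣ) (χ : IrrCharacter G),
      ∃ D : ℤ, col P π (θ : ↥𝐂 → ℂ) ψ (χ : G → ℂ) = D :=
    fun ψ χ => col_int P π θ.2 ψ (isCharacter_of_irr χ.2)
  choose D hD using hD
  have hv0 : ∀ (ψ : ↥(P : Subgroup G) →* ℂˣ) (χ : IrrCharacter G), χ ∉ B → D ψ χ = 0 := by
    intro ψ χ hχ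
    have h := col_eq_zero_of_not_mem P hP π hπP hπreg M hM B b hind θ hθ hθP ψ χ hχ
    rw [hD] at h
    exact_mod_cast h
  have hG : ∀ ψ ψ' : ↥(P : Subgroup G) →* ℂˣ, ψ ≠ 1 → ψ' ≠ 1 →
      ((∑ χ, D ψ χ * D ψ' χ : ℤ) : ℂ) =
        (e : ℂ) + (if RelS P (θ : ↥𝐂 → ℂ) ψ ψ' then 1 else 0) := by
    intro ψ ψ' hψ hψ'
    have h := gram_T P hP π hπP hπreg θ.2 hθP T hT ψ ψ' hψ hψ'
    rw [he] at h
    rw [← h]
    push_cast
    refine Finset.sum_congr rfl fun χ _ => ?_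
    rw [hD, hD]
  have hG1 : ∀ ψ ψ' : ↥(P : Subgroup G) →* ℂˣ, ψ ≠ 1 → ψ' ≠ 1 →
      RelS P (θ : ↥𝐂 → ℂ) ψ ψ' → ∑ χ, D ψ χ * D ψ' χ = (e : ℤ) + 1 := by
    intro ψ ψ' hψ hψ' hR
    have h := hG ψ ψ' hψ hψ'
    rw [if_pos hR] at h
    exact_mod_cast h
  have hG0 : ∀ ψ ψ' : ↥(P : Subgroup G) →* ℂˣ, ψ ≠ 1 → ψ' ≠ 1 →
      ¬ RelS P (θ : ↥𝐂 → ℂ) ψ ψ' → ∑ χ, D ψ χ * D ψ' χ = (e : ℤ) := by
    intro ψ ψ' hψ hψ' hR
    have h := hG ψ ψ' hψ hψ'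
    rw [if_neg hR, add_zero] at h
    exact_mod_cast h
  have hVR : ∀ (ψ : ↥(P : Subgroup G) →* ℂˣ) (g : G), ¬ p ∣ orderOf g →
      ∑ χ : IrrCharacter G, (D ψ χ : ℂ) * (χ : G → ℂ) g = 0 := by
    intro ψ g hg
    rw [← sum_col_mul_reg P π hπreg θ.2 ψ g hg]
    refine Finset.sum_congr rfl fun χ _ => ?_
    rw [hD]
  have hone : ¬ p ∣ orderOf (1 : G) := by
    rw [orderOf_one]
    exact fun h => hp.one_lt.ne' (Nat.dvd_one.mp h)
  have hwt : ∀ ψ : ↥(P : Subgroup G) →* ℂˣ,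
      ∑ χ : IrrCharacter G, (charDegree (χ : G → ℂ) : ℤ) * D ψ χ = 0 := by
    intro ψ
    have h := hVR ψ 1 hone
    have h' : ((∑ χ : IrrCharacter G, (charDegree (χ : G → ℂ) : ℤ) * D ψ χ : ℤ) : ℂ) = 0 := by
      rw [← h]
      push_cast
      refine Finset.sum_congr rfl fun χ _ => ?_
      rw [char_natCast_charDegree (isCharacter_of_irr χ.2)]
      ring
    exact_mod_cast h'
  -- values on `P` for constant columns
  have hfe : Nat.card {ξ : IrrCharacter ↥𝐂 //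
      ∃ n : ↥𝐍, conjTh P (θ : ↥𝐂 → ℂ) n = (ξ : ↥𝐂 → ℂ)} = q := by
    rw [card_orb_eq P θ T hT, he]
    exact hq
  have hval : ∀ χ ∈ B, ∀ c : ℤ,
      (∀ ψ : ↥(P : Subgroup G) →* ℂˣ, ψ ≠ 1 → D ψ χ = c) →
      ∀ w ∈ (P : Subgroup G), w ≠ 1 → (χ : G → ℂ) w =
        ((-(c * (q : ℤ) * (charDegree (θ : ↥𝐂 → ℂ) : ℤ)) : ℤ) : ℂ) := by
    intro χ hχ c hc w hw hw1
    have h := value_of_const_orb P hP π hπP hπreg M hM B hB hBP b hind θ hθ hθP χ hχ (c : ℂ)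
      (fun ψ hψ => by rw [hD, hc ψ hψ]) w hw hw1 (hexp χ w hw)
    rw [h, hfe, ← char_natCast_charDegree (isCharacter_of_irr θ.2)]
    simp only [Int.cast_neg, Int.cast_mul, Int.cast_natCast]
    ring
  have hdeg : ∀ χ ∈ B, ∀ c : ℤ,
      (∀ ψ : ↥(P : Subgroup G) →* ℂˣ, ψ ≠ 1 → D ψ χ = c) →
      (charDegree (χ : G → ℂ) : ℤ) ≡
        -(c * (q : ℤ) * (charDegree (θ : ↥𝐂 → ℂ) : ℤ)) [ZMOD p] :=
    fun χ hχ c hc => Cfsg.Agent.Lib.Helper17.BrFin.degree_modEq P hP (isCharacter_of_irr χ.2) _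
      (hval χ hχ c hc)
  have hnv : ∀ χ ∈ B, ∃ ψ : ↥(P : Subgroup G) →* ℂˣ, ψ ≠ 1 ∧ D ψ χ ≠ 0 := by
    intro χ hχ
    by_contra hcon
    have hc : ∀ ψ : ↥(P : Subgroup G) →* ℂˣ, ψ ≠ 1 → D ψ χ = 0 := by
      intro ψ hψ
      by_contra h
      exact hcon ⟨ψ, hψ, h⟩
    have h := hdeg χ hχ 0 hc
    rw [zero_mul, zero_mul, neg_zero] at h
    have hdvd : (p : ℤ) ∣ (charDegree (χ : G → ℂ) : ℤ) := Int.modEq_zero_iff_dvd.mp h
    exact not_dvd_degree M hM P hP B hB hBP χ hχ (by exact_mod_cast hdvd)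
  have hcardΨ : Fintype.card (↥(P : Subgroup G) →* ℂˣ) = p := by
    rw [← Nat.card_eq_fintype_card, Cfsg.Agent.S1507.card_hom_sub (P : Subgroup G) hPab]
    exact hP
  have hclass : ∀ ψ : ↥(P : Subgroup G) →* ℂˣ, ψ ≠ 1 →
      Nat.card {ψ' : ↥(P : Subgroup G) →* ℂˣ // RelS P (θ : ↥𝐂 → ℂ) ψ ψ'} = e := by
    intro ψ hψ
    rw [card_class_T P hP θ.2 T hT ψ hψ, he]
  have hw : ∀ χ : IrrCharacter G, (0 : ℤ) < (charDegree (χ : G → ℂ) : ℤ) := fun χ => by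
    exact_mod_cast irr_charDegree_pos χ.2
  obtain ⟨hdvd, hcardB, X, Y, Γ, hBXY, hdisj, hX, hY, hXΓ, hcase⟩ :=
    Cfsg.Agent.Lib.Helper93.DefOneComb.comb (1 : ↥(P : Subgroup G) →* ℂˣ) p e hp.two_le hcardΨ B
      (fun χ : IrrCharacter G => (charDegree (χ : G → ℂ) : ℤ)) hw D (RelS P (θ : ↥𝐂 → ℂ))
      hv0 hG1 hG0 (relS_refl P (θ : ↥𝐂 → ℂ)) (fun ψ ψ' hψ hR => relS_ne P hψ hR) hclass
      (fun ψ _ => hwt ψ) hnv hlow
  have hYsub : Y ⊆ B := by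
    rw [hBXY]
    exact Set.subset_union_right
  have hXY : ∀ χ, χ ∈ X → χ ∉ Y := fun χ hx hy => Set.disjoint_left.mp hdisj hx hy
  obtain ⟨ψ₀, hψ₀⟩ : ∃ ψ₀ : ↥(P : Subgroup G) →* ℂˣ, ψ₀ ≠ 1 := by
    have : Nontrivial (↥(P : Subgroup G) →* ℂˣ) :=
      Fintype.one_lt_card_iff_nontrivial.mp (by rw [hcardΨ]; exact hp.one_lt)
    exact exists_ne 1
  rcases hcase with ⟨δ, γ, ζ, hδ, hε, hζY, hYζ, hform⟩ | ⟨he1, η₀, hYη, hΓη, hconstη⟩
  · -- two or more classes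
    have hagree : ∀ η ∈ Y, ∀ η' ∈ Y, ∀ g : G, ¬ p ∣ orderOf g →
        (η : G → ℂ) g = (η' : G → ℂ) g := by
      intro η hη η' hη' g hg
      obtain ⟨ψ, hψ, rfl⟩ := hYζ η hη
      obtain ⟨ψ', hψ', rfl⟩ := hYζ η' hη'
      have h1 := hVR ψ g hg
      have h2 := hVR ψ' g hg
      have h3 : ∑ χ : IrrCharacter G, ((D ψ χ : ℂ) - (D ψ' χ : ℂ)) * (χ : G → ℂ) g = 0 := by
        simp_rw [sub_mul]
        rw [Finset.sum_sub_distrib, h1, h2, sub_zero]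
      have h4 : ∀ χ : IrrCharacter G, ((D ψ χ : ℂ) - (D ψ' χ : ℂ)) * (χ : G → ℂ) g =
          (δ : ℂ) * ((if χ = ζ ψ then (χ : G → ℂ) g else 0) -
            (if χ = ζ ψ' then (χ : G → ℂ) g else 0)) := by
        intro χ
        rw [hform ψ hψ χ, hform ψ' hψ' χ]
        push_cast
        split_ifs <;> ring
      rw [Finset.sum_congr rfl (fun χ _ => h4 χ), ← Finset.mul_sum, Finset.sum_sub_distrib,
        Finset.sum_ite_eq' Finset.univ (ζ ψ), Finset.sum_ite_eq' Finset.univ (ζ ψ'),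
        if_pos (Finset.mem_univ _), if_pos (Finset.mem_univ _)] at h3
      have hδ0 : (δ : ℂ) ≠ 0 := by
        rcases hδ with h | h <;> rw [h] <;> norm_num
      exact sub_eq_zero.mp ((mul_eq_zero.mp h3).resolve_left hδ0)
    obtain ⟨δs, hδs⟩ : ∃ δs : IrrCharacter G → ℤ, ∀ χ, δs χ =
        if χ ∈ X then Γ χ else (((p - 1) / e : ℕ) : ℤ) * γ + δ :=
      ⟨fun χ => if χ ∈ X then Γ χ else (((p - 1) / e : ℕ) : ℤ) * γ + δ, fun _ => rfl⟩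
    refine ⟨D, X, Y, Γ, δs, hD, hv0, hnv, hdvd, hcardB, hBXY, hdisj, hX, hY, hXΓ,
      Or.inl ⟨δ, γ, ζ, hδ, hε, hζY, hYζ, hform⟩, ?_, ?_, hagree⟩
    · intro χ _
      by_cases hx : χ ∈ X
      · rw [hδs, if_pos hx]
        exact (hXΓ χ hx).1
      · rw [hδs, if_neg hx]
        exact hε
    · intro x hx η hη
      have h1 := hVR ψ₀ x hx
      have hterm : ∀ χ : IrrCharacter G, (D ψ₀ χ : ℂ) * (χ : G → ℂ) x =
          (if χ ∈ X then (δs χ : ℂ) * (χ : G → ℂ) x else 0) +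
          (if χ ∈ Y then (γ : ℂ) * (η : G → ℂ) x else 0) +
          (δ : ℂ) * (if χ = ζ ψ₀ then (η : G → ℂ) x else 0) := by
        intro χ
        rw [hform ψ₀ hψ₀ χ]
        by_cases hxX : χ ∈ X
        · have hy' : χ ∉ Y := hXY χ hxX
          have hne : χ ≠ ζ ψ₀ := fun h => hy' (h ▸ hζY ψ₀ hψ₀)
          rw [Set.indicator_of_mem hxX, Set.indicator_of_notMem hy', if_pos hxX, if_neg hy',
            if_neg hne, if_neg hne, hδs, if_pos hxX]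
          push_cast
          ring
        · by_cases hy' : χ ∈ Y
          · rw [Set.indicator_of_notMem hxX, Set.indicator_of_mem hy', if_neg hxX, if_pos hy',
              hagree χ hy' η hη x hx]
            by_cases hz : χ = ζ ψ₀
            · rw [if_pos hz, if_pos hz]
              push_cast
              ring
            · rw [if_neg hz, if_neg hz]
              push_cast
              ring
          · have hne : χ ≠ ζ ψ₀ := fun h => hy' (h ▸ hζY ψ₀ hψ₀)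
            rw [Set.indicator_of_notMem hxX, Set.indicator_of_notMem hy', if_neg hxX,
              if_neg hy', if_neg hne, if_neg hne]
            push_cast
            ring
      rw [Finset.sum_congr rfl (fun χ _ => hterm χ), Finset.sum_add_distrib,
        Finset.sum_add_distrib, ← Finset.mul_sum, Finset.sum_ite_eq' Finset.univ (ζ ψ₀),
        if_pos (Finset.mem_univ _), sum_ite_mem_const Y, hY,
        ← ColumnId.finsum_mem_eq_sum X (fun χ => (δs χ : ℂ) * (χ : G → ℂ) x)] at h1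
      rw [hδs η, if_neg (fun h => hXY η h hη)]
      simp only [Int.cast_add, Int.cast_mul, Int.cast_natCast]
      linear_combination h1
  · -- one class
    have hagree : ∀ η ∈ Y, ∀ η' ∈ Y, ∀ g : G, ¬ p ∣ orderOf g →
        (η : G → ℂ) g = (η' : G → ℂ) g := by
      intro η hη η' hη' g _
      rw [hYη] at hη hη'
      rw [Set.mem_singleton_iff.mp hη, Set.mem_singleton_iff.mp hη']
    refine ⟨D, X, Y, Γ, Γ, hD, hv0, hnv, hdvd, hcardB, hBXY, hdisj, hX, hY, hXΓ,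
      Or.inr ⟨he1, η₀, hYη, hΓη, hconstη⟩, ?_, ?_, hagree⟩
    · intro χ hχ
      rw [hBXY] at hχ
      rcases hχ with hx | hy
      · exact (hXΓ χ hx).1
      · rw [hYη] at hy
        rw [Set.mem_singleton_iff.mp hy]
        exact hΓη
    · intro x hx η hη
      rw [hYη] at hη
      rw [Set.mem_singleton_iff.mp hη]
      have h1 := hVR ψ₀ x hx
      have hη₀X : η₀ ∉ X := fun h => hXY η₀ h (by rw [hYη]; exact Set.mem_singleton _)
      have hterm : ∀ χ : IrrCharacter G, (D ψ₀ χ : ℂ) * (χ : G → ℂ) x =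
          (if χ ∈ X then (Γ χ : ℂ) * (χ : G → ℂ) x else 0) +
          (if χ = η₀ then (Γ η₀ : ℂ) * (η₀ : G → ℂ) x else 0) := by
        intro χ
        by_cases hxX : χ ∈ X
        · have hne : χ ≠ η₀ := fun h => hη₀X (h ▸ hxX)
          rw [if_pos hxX, if_neg hne, (hXΓ χ hxX).2 ψ₀ hψ₀, add_zero]
        · by_cases hz : χ = η₀
          · rw [hz, if_neg hη₀X, if_pos rfl, hconstη ψ₀ hψ₀, zero_add]
          · have hχB : χ ∉ B := by
              rw [hBXY, hYη]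
              rintro (h | h)
              · exact hxX h
              · exact hz (Set.mem_singleton_iff.mp h)
            rw [if_neg hxX, if_neg hz, hv0 ψ₀ χ hχB, Int.cast_zero, zero_mul, add_zero]
      rw [Finset.sum_congr rfl (fun χ _ => hterm χ), Finset.sum_add_distrib,
        Finset.sum_ite_eq' Finset.univ η₀, if_pos (Finset.mem_univ _),
        ← ColumnId.finsum_mem_eq_sum X (fun χ => (Γ χ : ℂ) * (χ : G → ℂ) x)] at h1
      exact h1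

end Cfsg.Agent.Lib.Helper80.DefOneFull
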