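import Mathlib
import Cfsg.Agent.Lib.Helper80.DefOneRow
import Cfsg.Agent.Lib.CT.SectionOrth

/-!
# Blocks of defect one: values at `p`-singular elements of characters with constant column

`P` a Sylow `p`-subgroup of order `p`, `C = C_G(P)`, `N = N_G(P)`, `B` a block with defect group
`P`, `θ` an irreducible character of `C` with `P` in its kernel whose block induces `B`.
If `χ ∈ B` has constant column `c`, then `χ (u k) = - c ∑ ξ(k)` (sum over the `N`-orbit of `θ`)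
for `u ∈ P`, `u ≠ 1` and `k ∈ C`.  Every `p`-singular element is conjugate to such a product
with `k` a `p`-regular element.
-/

set_option autoImplicit false
set_option linter.unusedSectionVars false
set_option linter.style.haveILetI false
set_option maxHeartbeats 1000000

namespace Cfsg.Agent.Lib.Helper80.DefOneRat

open Cfsg Cfsg.Agent.Lib.CT Cfsg.Agent.Lib.CT.Wedderburn Cfsg.Agent.Lib.Helper17.BrGrp
  Cfsg.Agent.Lib.Helper80.DefOneLoc Cfsg.Agent.Lib.Helper80.DefOneCol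
  Cfsg.Agent.Lib.Helper80.DefOneGram Cfsg.Agent.Lib.Helper80.DefOneRow
  Cfsg.Agent.Lib.Helper80.AbSylowCh
open scoped ComplexConjugate

universe u
variable {G : Type u} [Group G] {p : ℕ} [Fact p.Prime]

/-- Every `p`-singular element is conjugate to `u * k` with `1 ≠ u ∈ P` and `k` a `p`-regular
element of the centralizer of `P`. -/
theorem exists_conj_mul [Finite G] (P : Sylow p G) (hP : Nat.card P = p) (g : G)
    (hg : p ∣ orderOf g) :
    ∃ (x u : G) (k : ↥(Subgroup.centralizer ((P : Subgroup G) : Set G))),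
      u ∈ (P : Subgroup G) ∧ u ≠ 1 ∧ ¬ p ∣ orderOf k ∧ x * g * x⁻¹ = u * (k : G) := by
  have hp : p.Prime := Fact.out
  obtain ⟨z, y, hzy, hcomm, ⟨j, hj⟩, hy⟩ := Cfsg.Agent.Lib.CT.SectionOrth.exists_isPPart p hp g
  have hz1 : z ≠ 1 := by
    rintro rfl
    rw [one_mul] at hzy
    rw [hzy] at hy
    exact hy hg
  -- the cyclic group generated by `z` is a `p`-group
  have hZ : IsPGroup p (Subgroup.zpowers z) := by
    apply IsPGroup.of_card (n := j)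
    rw [Nat.card_zpowers, hj]
  obtain ⟨Q, hQ⟩ := hZ.exists_le_sylow
  obtain ⟨x, hx⟩ := MulAction.exists_smul_eq G Q P
  have hzQ : z ∈ (Q : Subgroup G) := hQ (Subgroup.mem_zpowers z)
  have huP : x * z * x⁻¹ ∈ (P : Subgroup G) := by
    rw [← hx]
    exact Subgroup.smul_mem_pointwise_smul z (MulAut.conj x) (Q : Subgroup G) hzQ
  have hu1 : x * z * x⁻¹ ≠ 1 := by
    intro h
    apply hz1
    have : z = x⁻¹ * (x * z * x⁻¹) * x := by group
    rw [this, h]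
    group
  have hkC : x * y * x⁻¹ ∈ Subgroup.centralizer ((P : Subgroup G) : Set G) := by
    rw [Subgroup.mem_centralizer_iff]
    intro w hw
    -- `P` is generated by `u`
    have hgen : Subgroup.zpowers (⟨x * z * x⁻¹, huP⟩ : ↥(P : Subgroup G)) = ⊤ := by
      apply zpowers_eq_top_of_prime_card (p := p) hP
      intro h
      exact hu1 (congrArg Subtype.val h)
    have hwm : (⟨w, hw⟩ : ↥(P : Subgroup G)) ∈
        Subgroup.zpowers (⟨x * z * x⁻¹, huP⟩ : ↥(P : Subgroup G)) := by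
      rw [hgen]
      exact Subgroup.mem_top _
    obtain ⟨i, hi⟩ := Subgroup.mem_zpowers_iff.mp hwm
    have hi' : (x * z * x⁻¹) ^ i = w := by
      have := congrArg Subtype.val hi
      simpa using this
    have hc : Commute (x * z * x⁻¹) (x * y * x⁻¹) := by
      show x * z * x⁻¹ * (x * y * x⁻¹) = x * y * x⁻¹ * (x * z * x⁻¹)
      have e1 : x * z * x⁻¹ * (x * y * x⁻¹) = x * (z * y) * x⁻¹ := by group
      have e2 : x * y * x⁻¹ * (x * z * x⁻¹) = x * (y * z) * x⁻¹ := by group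
      rw [e1, e2, hcomm.eq]
    rw [← hi']
    exact ((hc.zpow_left i).eq)
  refine ⟨x, x * z * x⁻¹, ⟨x * y * x⁻¹, hkC⟩, huP, hu1, ?_, ?_⟩
  · have h1 : orderOf (⟨x * y * x⁻¹, hkC⟩ :
        ↥(Subgroup.centralizer ((P : Subgroup G) : Set G))) = orderOf (x * y * x⁻¹) :=
      (Subgroup.orderOf_coe _).symm
    have h2 : orderOf (x * y * x⁻¹) = orderOf y :=
      (SemiconjBy.orderOf_eq x (show SemiconjBy x y (x * y * x⁻¹) by
        show x * y = x * y * x⁻¹ * x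
        group)).symm
    rw [h1, h2]
    exact hy
  · show x * g * x⁻¹ = x * z * x⁻¹ * (x * y * x⁻¹)
    rw [← hzy]
    group

variable [Fintype G] (P : Sylow p G) (hP : Nat.card P = p)

local notation "𝐂" => Subgroup.centralizer ((P : Subgroup G) : Set G)
local notation "𝐍" => Subgroup.normalizer ((P : Subgroup G) : Set G)

variable [Fintype ↥(Subgroup.centralizer ((P : Subgroup G) : Set G))] [Fintype ↥(P : Subgroup G)]
  (π : ↥(Subgroup.centralizer ((P : Subgroup G) : Set G)) →* ↥(P : Subgroup G))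
  (hπP : ∀ c : ↥(Subgroup.centralizer ((P : Subgroup G) : Set G)),
    (c : G) ∈ (P : Subgroup G) → ((π c : ↥(P : Subgroup G)) : G) = (c : G))
  (hπreg : ∀ c : ↥(Subgroup.centralizer ((P : Subgroup G) : Set G)), π c = 1 ↔ ¬ p ∣ orderOf c)

open Classical in
include hP hπP hπreg in
/-- Values at `u * k` of a character of `B` with constant column, in terms of the orbit of
`θ`. -/
theorem const_col_value [Fintype (IrrCharacter ↥𝐂)] [Fintype (↥(P : Subgroup G) →* ℂˣ)]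
    (M : Ideal AlgInt) (hM : IsPModular p M)
    (B : Set (IrrCharacter G)) (hB : IsPBlock M B) (hBP : IsDefectGroup p M B P)
    (b : Set (IrrCharacter ↥𝐂)) (hind : IsInducedBlock M 𝐂 b B)
    (θ : IrrCharacter ↥𝐂) (hθ : θ ∈ b)
    (hθP : ∀ x : ↥𝐂, (x : G) ∈ (P : Subgroup G) → (θ : ↥𝐂 → ℂ) x = (θ : ↥𝐂 → ℂ) 1)
    (χ : IrrCharacter G) (hχ : χ ∈ B) (c : ℂ)
    (hc : ∀ ψ : ↥(P : Subgroup G) →* ℂˣ, ψ ≠ 1 →
      col P π (θ : ↥𝐂 → ℂ) ψ (χ : G → ℂ) = c)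
    (u : G) (hu : u ∈ (P : Subgroup G)) (hu1 : u ≠ 1) (k : ↥𝐂)
    (hexp : (χ : G → ℂ) (u * (k : G)) = ∑ ξ : IrrCharacter ↥𝐂,
      (if (∀ x : ↥𝐂, (x : G) ∈ (P : Subgroup G) → (ξ : ↥𝐂 → ℂ) x = (ξ : ↥𝐂 → ℂ) 1)
      then (p : ℂ) * sec P (ξ : ↥𝐂 → ℂ) (χ : G → ℂ) u * (ξ : ↥𝐂 → ℂ) k else 0)) :
    (χ : G → ℂ) (u * (k : G)) = - c * ∑ ξ : IrrCharacter ↥𝐂,
      (if (∃ n : ↥𝐍, conjTh P (θ : ↥𝐂 → ℂ) n = (ξ : ↥𝐂 → ℂ)) then (ξ : ↥𝐂 → ℂ) k else 0) := by
  rw [hexp, Finset.mul_sum]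
  refine Finset.sum_congr rfl fun ξ _ => ?_
  by_cases hO : ∃ n : ↥𝐍, conjTh P (θ : ↥𝐂 → ℂ) n = (ξ : ↥𝐂 → ℂ)
  · rw [if_pos hO]
    obtain ⟨n, hn⟩ := hO
    have hξP : ∀ x : ↥𝐂, (x : G) ∈ (P : Subgroup G) →
        (ξ : ↥𝐂 → ℂ) x = (ξ : ↥𝐂 → ℂ) 1 := by
      rw [← hn]
      exact conjTh_triv P hθP n
    rw [if_pos hξP]
    have hsec : (p : ℂ) * sec P (ξ : ↥𝐂 → ℂ) (χ : G → ℂ) u = - c := by
      rw [← hn, sec_conjTh P _ (Orth.irr_isClassFunction χ) n u]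
      have hw : (cj (P : Subgroup G) (n : G) n.2 ⟨u, hu⟩) ≠ 1 := by
        intro h
        apply hu1
        have h' := congrArg Subtype.val h
        rw [cj_coe, Subgroup.coe_one] at h'
        simpa using h'
      exact sec_of_const P hP π hπP hπreg (isCharacter_of_irr θ.2) hθP (χ : G → ℂ) c hc
        (cj (P : Subgroup G) (n : G) n.2 ⟨u, hu⟩) hw
    rw [hsec]
  · rw [if_neg hO, mul_zero]
    by_cases hξP : ∀ x : ↥𝐂, (x : G) ∈ (P : Subgroup G) →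
        (ξ : ↥𝐂 → ℂ) x = (ξ : ↥𝐂 → ℂ) 1
    · rw [if_pos hξP, sec_eq_zero_of_not_orb P hP M hM B hB hBP b hind θ hθ hθP χ hχ ξ hξP hO
        hu hu1]
      ring
    · rw [if_neg hξP]

open Classical in
include hP hπP hπreg in
/-- A ring automorphism of `ℂ` fixing the values at `k` of the irreducible characters of `C`
fixes the value at `u * k` of a character of `B` with constant integer column. -/
theorem const_col_fixed [Fintype (IrrCharacter ↥𝐂)] [Fintype (↥(P : Subgroup G) →* ℂˣ)]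
    (M : Ideal AlgInt) (hM : IsPModular p M)
    (B : Set (IrrCharacter G)) (hB : IsPBlock M B) (hBP : IsDefectGroup p M B P)
    (b : Set (IrrCharacter ↥𝐂)) (hind : IsInducedBlock M 𝐂 b B)
    (θ : IrrCharacter ↥𝐂) (hθ : θ ∈ b)
    (hθP : ∀ x : ↥𝐂, (x : G) ∈ (P : Subgroup G) → (θ : ↥𝐂 → ℂ) x = (θ : ↥𝐂 → ℂ) 1)
    (χ : IrrCharacter G) (hχ : χ ∈ B) (c : ℤ)
    (hc : ∀ ψ : ↥(P : Subgroup G) →* ℂˣ, ψ ≠ 1 →
      col P π (θ : ↥𝐂 → ℂ) ψ (χ : G → ℂ) = (c : ℂ))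
    (u : G) (hu : u ∈ (P : Subgroup G)) (hu1 : u ≠ 1) (k : ↥𝐂)
    (hexp : (χ : G → ℂ) (u * (k : G)) = ∑ ξ : IrrCharacter ↥𝐂,
      (if (∀ x : ↥𝐂, (x : G) ∈ (P : Subgroup G) → (ξ : ↥𝐂 → ℂ) x = (ξ : ↥𝐂 → ℂ) 1)
      then (p : ℂ) * sec P (ξ : ↥𝐂 → ℂ) (χ : G → ℂ) u * (ξ : ↥𝐂 → ℂ) k else 0))
    (σ : ℂ ≃+* ℂ) (hσ : ∀ ξ : IrrCharacter ↥𝐂, σ ((ξ : ↥𝐂 → ℂ) k) = (ξ : ↥𝐂 → ℂ) k) :
    σ ((χ : G → ℂ) (u * (k : G))) = (χ : G → ℂ) (u * (k : G)) := by
  rw [const_col_value P hP π hπP hπreg M hM B hB hBP b hind θ hθ hθP χ hχ (c : ℂ) hc u hu hu1 k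
    hexp, map_mul, map_neg, map_intCast, map_sum]
  congr 1
  refine Finset.sum_congr rfl fun ξ _ => ?_
  split_ifs
  · exact hσ ξ
  · exact map_zero σ

end Cfsg.Agent.Lib.Helper80.DefOneRat
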