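import Mathlib
import Cfsg.Agent.Lib.Helper80.DefOneFull
import Cfsg.Agent.Lib.Helper80.DefOneRat
import Cfsg.Agent.Lib.Helper17.BqTop2
import Cfsg.Agent.Lib.Helper79.McKayCD
import Cfsg.Agent.Lib.Helper74.McKayAB
import Cfsg.Agent.Lib.Helper74.DefOneRow1
import Cfsg.Agent.Lib.CT.Knorr
import Cfsg.Agent.S1507
import Cfsg.Agent.Lib.Helper67.BrL1
import Cfsg.Agent.Lib.Helper67.BrL24

/-!
# Characters of small degree and a Sylow subgroup of prime order (piece T1core of S4503)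

`P` a Sylow `p`-subgroup of order `p`, `C = C_G(P)`, `N = N_G(P)`, `ξ` an irreducible character
of `G` with `2 ξ(1) + 1 < p`.  Either `ξ` is constant on `P`, or `ξ|_C` has an irreducible
constituent `φ₀` lying over a non-principal linear character `ψ₀` of `P` and
`ξ(1) ≤ |N : C| φ₀(1)`.
-/

set_option autoImplicit false
set_option linter.unusedSectionVars false
set_option linter.style.haveILetI false
set_option maxHeartbeats 4000000

namespace Cfsg.Agent.Lib.Helper80.BrT1core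

open Cfsg Cfsg.Agent.Lib.CT Cfsg.Agent.Lib.CT.Wedderburn
  Cfsg.Agent.Lib.Helper80.DefOneLoc Cfsg.Agent.Lib.Helper80.DefOneCol
  Cfsg.Agent.Lib.Helper80.DefOneGram Cfsg.Agent.Lib.Helper80.DefOneRow
  Cfsg.Agent.Lib.Helper80.AbSylowCh
open scoped ComplexConjugate

universe u

/-- A non-principal linear character sums to zero. -/
theorem sum_elt_ne {W : Type*} [Group W] [Fintype W] (ψ : W →* ℂˣ) (hψ : ψ ≠ 1) :
    ∑ w : W, ((ψ w : ℂˣ) : ℂ) = 0 := by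
  have hne : (Units.coeHom ℂ).comp ψ ≠ 1 := by
    intro h
    apply hψ
    ext w
    have := DFunLike.congr_fun h w
    simpa using this
  have h := sum_hom_units_eq_zero ((Units.coeHom ℂ).comp ψ) hne
  simpa using h

variable {G : Type u} [Group G]

section Core

variable {p : ℕ} [Fact p.Prime] [Fintype G] (P : Sylow p G) (hP : Nat.card P = p)

local notation "𝐂" => Subgroup.centralizer ((P : Subgroup G) : Set G)
local notation "𝐍" => Subgroup.normalizer ((P : Subgroup G) : Set G)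

variable [Fintype ↥(Subgroup.centralizer ((P : Subgroup G) : Set G))] [Fintype ↥(P : Subgroup G)]
  (π : ↥(Subgroup.centralizer ((P : Subgroup G) : Set G)) →* ↥(P : Subgroup G))
  (hπP : ∀ c : ↥(Subgroup.centralizer ((P : Subgroup G) : Set G)),
    (c : G) ∈ (P : Subgroup G) → ((π c : ↥(P : Subgroup G)) : G) = (c : G))
  (hπreg : ∀ c : ↥(Subgroup.centralizer ((P : Subgroup G) : Set G)), π c = 1 ↔ ¬ p ∣ orderOf c)

/-- Conjugation by an element of the normalizer is a bijection of `P`. -/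
theorem cj_bijective (n : ↥𝐍) : Function.Bijective (cj (P : Subgroup G) (n : G) n.2) := by
  have hinj : Function.Injective (cj (P : Subgroup G) (n : G) n.2) := by
    intro a b h
    have h' := congrArg Subtype.val h
    rw [cj_coe, cj_coe] at h'
    apply Subtype.ext
    have h2 : (n : G)⁻¹ * ((n : G) * (a : G) * (n : G)⁻¹) * (n : G) =
        (n : G)⁻¹ * ((n : G) * (b : G) * (n : G)⁻¹) * (n : G) := by rw [h']
    simpa [mul_assoc] using h2
  exact (Finite.injective_iff_bijective).mp hinj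

open Classical in
include hP hπP hπreg in
/-- The sum of the values of a character of `B` over `P \ {1}`, from its column. -/
theorem sum_ne_one [Fintype (IrrCharacter ↥𝐂)] [Fintype (↥(P : Subgroup G) →* ℂˣ)]
    (M : Ideal AlgInt) (hM : IsPModular p M)
    (B : Set (IrrCharacter G)) (hB : IsPBlock M B) (hBP : IsDefectGroup p M B P)
    (b : Set (IrrCharacter ↥𝐂)) (hind : IsInducedBlock M 𝐂 b B)
    (θ : IrrCharacter ↥𝐂) (hθ : θ ∈ b)
    (hθP : ∀ x : ↥𝐂, (x : G) ∈ (P : Subgroup G) → (θ : ↥𝐂 → ℂ) x = (θ : ↥𝐂 → ℂ) 1)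
    (χ : IrrCharacter G) (hχ : χ ∈ B) :
    ∑ w : ↥(P : Subgroup G), (if w = 1 then 0 else (χ : G → ℂ) (w : G)) =
      - ((θ : ↥𝐂 → ℂ) 1 *
        (Nat.card {ξ : IrrCharacter ↥𝐂 //
          ∃ n : ↥𝐍, conjTh P (θ : ↥𝐂 → ℂ) n = (ξ : ↥𝐂 → ℂ)} : ℂ) *
        ∑ ψ : ↥(P : Subgroup G) →* ℂˣ,
          (if ψ = 1 then 0 else col P π (θ : ↥𝐂 → ℂ) ψ (χ : G → ℂ))) := by
  have hp : p.Prime := Fact.out
  have hcardP : (Fintype.card ↥(P : Subgroup G) : ℂ) = (p : ℂ) := by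
    rw [← Nat.card_eq_fintype_card]
    have : Nat.card ↥(P : Subgroup G) = p := hP
    rw [this]
  obtain ⟨S0, hS0⟩ : ∃ S0 : ℂ, S0 = ∑ w : ↥(P : Subgroup G),
      (if w = 1 then 0 else (p : ℂ) * sec P (θ : ↥𝐂 → ℂ) (χ : G → ℂ) (w : G)) := ⟨_, rfl⟩
  have hS0' : S0 = - ∑ ψ : ↥(P : Subgroup G) →* ℂˣ,
      (if ψ = 1 then 0 else col P π (θ : ↥𝐂 → ℂ) ψ (χ : G → ℂ)) := by
    have e1 : ∀ w : ↥(P : Subgroup G),
        (if w = 1 then (0 : ℂ) else (p : ℂ) * sec P (θ : ↥𝐂 → ℂ) (χ : G → ℂ) (w : G)) =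
        ∑ ψ : ↥(P : Subgroup G) →* ℂˣ, col P π (θ : ↥𝐂 → ℂ) ψ (χ : G → ℂ) *
          (if w = 1 then 0 else ((ψ w : ℂˣ) : ℂ)) := by
      intro w
      by_cases hw : w = 1
      · simp [hw]
      · rw [if_neg hw, ← sum_col_mul_hom P hP π hπP hπreg (isCharacter_of_irr θ.2) hθP
          (χ : G → ℂ) w hw]
        refine Finset.sum_congr rfl fun ψ _ => ?_
        rw [if_neg hw]
    have e2 : ∀ ψ : ↥(P : Subgroup G) →* ℂˣ,
        ∑ w : ↥(P : Subgroup G), (if w = 1 then (0 : ℂ) else ((ψ w : ℂˣ) : ℂ)) =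
          (if ψ = 1 then (p : ℂ) - 1 else -1) := by
      intro ψ
      have h1 : ∀ w : ↥(P : Subgroup G), (if w = 1 then (0 : ℂ) else ((ψ w : ℂˣ) : ℂ)) =
          ((ψ w : ℂˣ) : ℂ) - (if w = 1 then 1 else 0) := by
        intro w
        by_cases hw : w = 1
        · simp [hw]
        · simp [hw]
      rw [Finset.sum_congr rfl (fun w _ => h1 w), Finset.sum_sub_distrib,
        Finset.sum_ite_eq' Finset.univ (1 : ↥(P : Subgroup G)), if_pos (Finset.mem_univ _)]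
      by_cases hψ : ψ = 1
      · rw [if_pos hψ, hψ]
        simp [hcardP]
      · rw [if_neg hψ, sum_elt_ne ψ hψ, zero_sub]
    rw [hS0, Finset.sum_congr rfl (fun w _ => e1 w), Finset.sum_comm, ← Finset.sum_neg_distrib]
    refine Finset.sum_congr rfl fun ψ _ => ?_
    rw [← Finset.mul_sum, e2 ψ]
    by_cases hψ : ψ = 1
    · rw [if_pos hψ, if_pos hψ, hψ, col_one]
      ring
    · rw [if_neg hψ, if_neg hψ]
      ring
  -- the terms of the expansion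
  have key : ∀ (w : ↥(P : Subgroup G)), w ≠ 1 → ∀ φ : IrrCharacter ↥𝐂,
      (if (∀ x : ↥𝐂, (x : G) ∈ (P : Subgroup G) → (φ : ↥𝐂 → ℂ) x = (φ : ↥𝐂 → ℂ) 1)
      then (p : ℂ) * sec P (φ : ↥𝐂 → ℂ) (χ : G → ℂ) (w : G) * (φ : ↥𝐂 → ℂ) 1 else 0) =
      (if (∃ n : ↥𝐍, conjTh P (θ : ↥𝐂 → ℂ) n = (φ : ↥𝐂 → ℂ))
        then (p : ℂ) * sec P (φ : ↥𝐂 → ℂ) (χ : G → ℂ) (w : G) * (θ : ↥𝐂 → ℂ) 1 else 0) := by
    intro w hw φ
    have hw1 : (w : G) ≠ 1 := fun h => hw (Subtype.ext h)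
    by_cases hO : ∃ n : ↥𝐍, conjTh P (θ : ↥𝐂 → ℂ) n = (φ : ↥𝐂 → ℂ)
    · rw [if_pos hO]
      obtain ⟨n, hn⟩ := hO
      have hφP : ∀ x : ↥𝐂, (x : G) ∈ (P : Subgroup G) →
          (φ : ↥𝐂 → ℂ) x = (φ : ↥𝐂 → ℂ) 1 := by
        rw [← hn]
        exact conjTh_triv P hθP n
      rw [if_pos hφP]
      have h1 : (φ : ↥𝐂 → ℂ) 1 = (θ : ↥𝐂 → ℂ) 1 := by
        rw [← hn]
        show (θ : ↥𝐂 → ℂ) (cjC P n 1) = (θ : ↥𝐂 → ℂ) 1
        rw [map_one]
      rw [h1]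
    · rw [if_neg hO]
      by_cases hφP : ∀ x : ↥𝐂, (x : G) ∈ (P : Subgroup G) →
          (φ : ↥𝐂 → ℂ) x = (φ : ↥𝐂 → ℂ) 1
      · rw [if_pos hφP, sec_eq_zero_of_not_orb P hP M hM B hB hBP b hind θ hθ hθP χ hχ φ hφP hO
          w.2 hw1]
        ring
      · rw [if_neg hφP]
  have horb : ∀ φ : IrrCharacter ↥𝐂, (∃ n : ↥𝐍, conjTh P (θ : ↥𝐂 → ℂ) n = (φ : ↥𝐂 → ℂ)) →
      ∑ w : ↥(P : Subgroup G),
        (if w = 1 then 0 else (p : ℂ) * sec P (φ : ↥𝐂 → ℂ) (χ : G → ℂ) (w : G)) = S0 := by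
    rintro φ ⟨n, hn⟩
    rw [hS0]
    refine Fintype.sum_bijective (cj (P : Subgroup G) (n : G) n.2) (cj_bijective P n) _ _
      fun w => ?_
    have hiff : cj (P : Subgroup G) (n : G) n.2 w = 1 ↔ w = 1 := by
      constructor
      · intro h
        apply (cj_bijective P n).1
        rw [h, map_one]
      · intro h
        rw [h, map_one]
    by_cases hw : w = 1
    · rw [if_pos hw, if_pos (hiff.mpr hw)]
    · rw [if_neg hw, if_neg (fun h => hw (hiff.mp h)), ← hn,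
        sec_conjTh P _ (Orth.irr_isClassFunction χ) n (w : G), cj_coe]
  have hval : ∀ w : ↥(P : Subgroup G), (if w = 1 then 0 else (χ : G → ℂ) (w : G)) =
      ∑ φ : IrrCharacter ↥𝐂, (if (∃ n : ↥𝐍, conjTh P (θ : ↥𝐂 → ℂ) n = (φ : ↥𝐂 → ℂ))
        then (if w = 1 then 0 else (p : ℂ) * sec P (φ : ↥𝐂 → ℂ) (χ : G → ℂ) (w : G)) *
          (θ : ↥𝐂 → ℂ) 1 else 0) := by
    intro w
    by_cases hw : w = 1
    · rw [if_pos hw]
      simp [hw]
    · rw [if_neg hw, Cfsg.Agent.Lib.Helper74.DefOneRow1.value_eq_sum P hP π hπP hπreg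
        (χ : G → ℂ) (Orth.irr_isClassFunction χ) (w : G) w.2]
      refine Finset.sum_congr rfl fun φ _ => ?_
      rw [key w hw φ, if_neg hw]
  rw [Finset.sum_congr rfl (fun w _ => hval w), Finset.sum_comm]
  have hφ : ∀ φ : IrrCharacter ↥𝐂, ∑ w : ↥(P : Subgroup G),
      (if (∃ n : ↥𝐍, conjTh P (θ : ↥𝐂 → ℂ) n = (φ : ↥𝐂 → ℂ))
        then (if w = 1 then 0 else (p : ℂ) * sec P (φ : ↥𝐂 → ℂ) (χ : G → ℂ) (w : G)) *
          (θ : ↥𝐂 → ℂ) 1 else 0) =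
      (if (∃ n : ↥𝐍, conjTh P (θ : ↥𝐂 → ℂ) n = (φ : ↥𝐂 → ℂ))
        then S0 * (θ : ↥𝐂 → ℂ) 1 else 0) := by
    intro φ
    by_cases hO : ∃ n : ↥𝐍, conjTh P (θ : ↥𝐂 → ℂ) n = (φ : ↥𝐂 → ℂ)
    · simp only [if_pos hO]
      rw [← Finset.sum_mul, horb φ hO]
    · simp only [if_neg hO]
      exact Finset.sum_const_zero
  rw [Finset.sum_congr rfl (fun φ _ => hφ φ), Finset.sum_ite, Finset.sum_const_zero, add_zero,
    Finset.sum_const, nsmul_eq_mul, Nat.card_eq_fintype_card, Fintype.card_subtype, hS0']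
  ring

open Classical in
include hP hπP hπreg in
/-- The core statement, from the structure of the block of `ξ`; `hL1` and `hL4` are the two
elementary facts about characters used (pieces L1 and L4). -/
theorem core_aux [Fintype (IrrCharacter G)] [Fintype (IrrCharacter ↥𝐂)]
    [Fintype (↥(P : Subgroup G) →* ℂˣ)] [Fintype ↥𝐍]
    (M : Ideal AlgInt) (hM : IsPModular p M)
    (B : Set (IrrCharacter G)) (hB : IsPBlock M B) (hBP : IsDefectGroup p M B P)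
    (b : Set (IrrCharacter ↥𝐂)) (hind : IsInducedBlock M 𝐂 b B)
    (θ : IrrCharacter ↥𝐂) (hθ : θ ∈ b)
    (hθP : ∀ x : ↥𝐂, (x : G) ∈ (P : Subgroup G) → (θ : ↥𝐂 → ℂ) x = (θ : ↥𝐂 → ℂ) 1)
    (T : Subgroup G)
    (hT : ∀ g : G, g ∈ T ↔ (g ∈ 𝐍 ∧ ∀ c c' : ↥𝐂, (c' : G) = g * c * g⁻¹ →
      (θ : ↥𝐂 → ℂ) c' = (θ : ↥𝐂 → ℂ) c))
    (e : ℕ) (he : (Subgroup.centralizer ((P : Subgroup G) : Set G)).relIndex T = e)
    (hlow : e + (p - 1) / e ≤ Nat.card B)
    (ξ : IrrCharacter G) (hξB : ξ ∈ B)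
    (hdeg : 2 * charDegree (ξ : G → ℂ) + 1 < p)
    (hL1 : ∀ c : ℂ, (∀ u : G, u ∈ (P : Subgroup G) → u ≠ 1 → (ξ : G → ℂ) u = c) →
      ∀ u : G, u ∈ (P : Subgroup G) → (ξ : G → ℂ) u = (ξ : G → ℂ) 1)
    (hL4 : ∀ S : Finset (IrrCharacter ↥𝐂),
      ∑ φ ∈ S, (classInner (fun c : ↥𝐂 => (ξ : G → ℂ) (c : G)) (φ : ↥𝐂 → ℂ)).re ≤
        (charDegree (ξ : G → ℂ) : ℝ)) :
    (∀ x : G, x ∈ (P : Subgroup G) → (ξ : G → ℂ) x = (ξ : G → ℂ) 1) ∨
    ∃ (φ₀ : IrrCharacter ↥𝐂) (ψ₀ : ↥(P : Subgroup G) →* ℂˣ), ψ₀ ≠ 1 ∧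
      (∀ (u : ↥(P : Subgroup G)) (c : ↥𝐂), (c : G) = (u : G) →
        (φ₀ : ↥𝐂 → ℂ) c = (φ₀ : ↥𝐂 → ℂ) 1 * ((ψ₀ u : ℂˣ) : ℂ)) ∧
      classInner (fun c : ↥𝐂 => (ξ : G → ℂ) (c : G)) (φ₀ : ↥𝐂 → ℂ) ≠ 0 ∧
      charDegree (ξ : G → ℂ) ≤
        (Subgroup.centralizer ((P : Subgroup G) : Set G)).relIndex
          (Subgroup.normalizer ((P : Subgroup G) : Set G)) * charDegree (φ₀ : ↥𝐂 → ℂ) := by
  have hp : p.Prime := Fact.out
  have hPab : ∀ a ∈ (P : Subgroup G), ∀ b ∈ (P : Subgroup G), a * b = b * a :=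
    fun a ha b hb => comm_of_mem P hP ha hb
  have hcardΨ : Fintype.card (↥(P : Subgroup G) →* ℂˣ) = p := by
    rw [← Nat.card_eq_fintype_card, Cfsg.Agent.S1507.card_hom_sub (P : Subgroup G) hPab]
    exact hP
  obtain ⟨D, X, Y, Γ, δs, hD, hv0, hnv, hdvd, hcardB, hBXY, hdisj, hX, hY, hXΓ, hcase, -, -, -⟩ :=
    Cfsg.Agent.Lib.Helper80.DefOneFull.structure_full P hP M hM π hπP hπreg B hB hBP b hind θ hθ
      hθP T hT e he hlow
      (fun χ u hu => Cfsg.Agent.Lib.Helper74.DefOneRow1.value_eq_sum P hP π hπP hπreg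
        (χ : G → ℂ) (Orth.irr_isClassFunction χ) u hu)
  -- constant column
  have hconst : ∀ c : ℤ, (∀ ψ : ↥(P : Subgroup G) →* ℂˣ, ψ ≠ 1 → D ψ ξ = c) →
      ∀ x : G, x ∈ (P : Subgroup G) → (ξ : G → ℂ) x = (ξ : G → ℂ) 1 := by
    intro c hc
    refine hL1 (-(c : ℂ) * (θ : ↥𝐂 → ℂ) 1 * (Nat.card {ξ' : IrrCharacter ↥𝐂 //
        ∃ n : ↥𝐍, conjTh P (θ : ↥𝐂 → ℂ) n = (ξ' : ↥𝐂 → ℂ)} : ℂ)) (fun u hu hu1 => ?_)
    exact value_of_const_orb P hP π hπP hπreg M hM B hB hBP b hind θ hθ hθP ξ hξB (c : ℂ)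
      (fun ψ hψ => by rw [hD, hc ψ hψ]) u hu hu1
      (Cfsg.Agent.Lib.Helper74.DefOneRow1.value_eq_sum P hP π hπP hπreg (ξ : G → ℂ)
        (Orth.irr_isClassFunction ξ) u hu)
  by_cases hx : ξ ∈ X
  · exact Or.inl (hconst (Γ ξ) (hXΓ ξ hx).2)
  have hy : ξ ∈ Y := by
    rw [hBXY] at hξB
    exact hξB.resolve_left hx
  rcases hcase with ⟨δ, γ, ζ, hδ, hε, hζY, hYζ, hform⟩ | ⟨-, η₀, hYη, -, hconstη⟩
  swap
  · rw [hYη] at hy
    have hξη : ξ = η₀ := hy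
    rw [hξη]
    rw [hξη] at hconst
    exact Or.inl (hconst (Γ η₀) hconstη)
  have hDξ : ∀ ψ : ↥(P : Subgroup G) →* ℂˣ, ψ ≠ 1 →
      D ψ ξ = γ + δ * (if ξ = ζ ψ then 1 else 0) := by
    intro ψ hψ
    rw [hform ψ hψ ξ, Set.indicator_of_notMem hx, Set.indicator_of_mem hy, zero_add]
  by_cases hall : ∀ ψ : ↥(P : Subgroup G) →* ℂˣ, ψ ≠ 1 → ζ ψ = ξ
  · refine Or.inl (hconst (γ + δ) (fun ψ hψ => ?_))
    rw [hDξ ψ hψ, if_pos (hall ψ hψ).symm, mul_one]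
  right
  push Not at hall
  obtain ⟨ψ₁, hψ₁, hζ₁⟩ := hall
  obtain ⟨ψ₀, hψ₀, hζ₀⟩ := hYζ ξ hy
  -- multiplicities
  have hres : IsCharacter ↥𝐂 (fun c : ↥𝐂 => (ξ : G → ℂ) (c : G)) :=
    Ops.isCharacter_restrict _ (isCharacter_of_irr ξ.2)
  have hirr : ∀ ψ : ↥(P : Subgroup G) →* ℂˣ,
      IsIrrCharacter ↥𝐂 ((fun c : ↥𝐂 => ((ψ (π c) : ℂˣ) : ℂ)) * (θ : ↥𝐂 → ℂ)) := fun ψ =>
    LinChar.isIrrCharacter_linear_mul (LinChar.isCharacter_of_hom (ψ.comp π)) (by simp) θ.2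
  have hm : ∀ ψ : ↥(P : Subgroup G) →* ℂˣ, ∃ m : ℕ,
      classInner (fun c : ↥𝐂 => (ξ : G → ℂ) (c : G))
        ((fun c : ↥𝐂 => ((ψ (π c) : ℂˣ) : ℂ)) * (θ : ↥𝐂 → ℂ)) = m := fun ψ =>
    Clifford.classInner_char_nat hres (isCharacter_of_irr (hirr ψ))
  choose m hm using hm
  have hone : (fun c : ↥𝐂 => (((1 : ↥(P : Subgroup G) →* ℂˣ) (π c) : ℂˣ) : ℂ)) *
      (θ : ↥𝐂 → ℂ) = (θ : ↥𝐂 → ℂ) := by
    funext c
    simp
  have hcolm : ∀ ψ : ↥(P : Subgroup G) →* ℂˣ, D ψ ξ = (m ψ : ℤ) - (m 1 : ℤ) := by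
    intro ψ
    have e1 : col P π (θ : ↥𝐂 → ℂ) ψ (ξ : G → ℂ) =
        classInner (fun c : ↥𝐂 => (ξ : G → ℂ) (c : G))
          ((fun c : ↥𝐂 => ((ψ (π c) : ℂˣ) : ℂ)) * (θ : ↥𝐂 → ℂ)) -
          classInner (fun c : ↥𝐂 => (ξ : G → ℂ) (c : G)) (θ : ↥𝐂 → ℂ) := by
      unfold col Cfsg.Agent.Lib.Helper80.DefOneCol.alpha classInner
      rw [← mul_sub, ← Finset.sum_sub_distrib]
      congr 1
      refine Finset.sum_congr rfl fun c _ => ?_
      rw [Pi.mul_apply, map_sub]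
      ring
    have e2 := hm 1
    rw [hone] at e2
    rw [hD, hm ψ, e2] at e1
    exact_mod_cast e1
  -- the fibres of `ζ`
  have hgram : ∀ ψ ψ' : ↥(P : Subgroup G) →* ℂˣ, ψ ≠ 1 → ψ' ≠ 1 →
      ∑ χ : IrrCharacter G, D ψ χ * D ψ' χ =
        (e : ℤ) + (if RelS P (θ : ↥𝐂 → ℂ) ψ ψ' then 1 else 0) := by
    intro ψ ψ' hψ hψ'
    have h := gram_T P hP π hπP hπreg θ.2 hθP T hT ψ ψ' hψ hψ'
    rw [he] at h
    simp_rw [hD] at h
    by_cases hR : RelS P (θ : ↥𝐂 → ℂ) ψ ψ'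
    · rw [if_pos hR] at h ⊢
      exact_mod_cast h
    · rw [if_neg hR] at h ⊢
      exact_mod_cast h
  have hδ2 : δ * δ = 1 := by
    rcases hδ with h | h <;> rw [h] <;> norm_num
  have hrel : ∀ ψ ψ' : ↥(P : Subgroup G) →* ℂˣ, ψ ≠ 1 → ψ' ≠ 1 →
      (RelS P (θ : ↥𝐂 → ℂ) ψ ψ' ↔ ζ ψ' = ζ ψ) := by
    intro ψ ψ' hψ hψ'
    have h1 := hgram ψ ψ' hψ hψ'
    have h2 := hgram ψ ψ hψ hψ
    rw [if_pos (relS_refl P _ ψ)] at h2
    have h3 : ∀ χ : IrrCharacter G, D ψ χ * D ψ' χ = D ψ χ * D ψ χ +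
        δ * (if χ = ζ ψ' then D ψ χ else 0) - δ * (if χ = ζ ψ then D ψ χ else 0) := by
      intro χ
      have hdiff : D ψ' χ = D ψ χ +
          δ * ((if χ = ζ ψ' then 1 else 0) - (if χ = ζ ψ then 1 else 0)) := by
        rw [hform ψ' hψ' χ, hform ψ hψ χ]
        ring
      have e1 : (if χ = ζ ψ' then D ψ χ else 0) = D ψ χ * (if χ = ζ ψ' then 1 else 0) := by
        rw [mul_ite, mul_one, mul_zero]
      have e2 : (if χ = ζ ψ then D ψ χ else 0) = D ψ χ * (if χ = ζ ψ then 1 else 0) := by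
        rw [mul_ite, mul_one, mul_zero]
      rw [e1, e2, hdiff]
      ring
    have h4 : ∑ χ : IrrCharacter G, D ψ χ * D ψ' χ =
        (e : ℤ) + 1 + δ * D ψ (ζ ψ') - δ * D ψ (ζ ψ) := by
      rw [Finset.sum_congr rfl (fun χ _ => h3 χ), Finset.sum_sub_distrib, Finset.sum_add_distrib,
        h2, ← Finset.mul_sum, ← Finset.mul_sum, Finset.sum_ite_eq' Finset.univ (ζ ψ'),
        Finset.sum_ite_eq' Finset.univ (ζ ψ), if_pos (Finset.mem_univ _),
        if_pos (Finset.mem_univ _)]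
    have h5 : D ψ (ζ ψ') = γ + δ * (if ζ ψ' = ζ ψ then 1 else 0) := by
      have hY' := hζY ψ' hψ'
      have hX' : ζ ψ' ∉ X := fun h => Set.disjoint_left.mp hdisj h hY'
      rw [hform ψ hψ, Set.indicator_of_notMem hX', Set.indicator_of_mem hY', zero_add]
    have h6 : D ψ (ζ ψ) = γ + δ := by
      have hY' := hζY ψ hψ
      have hX' : ζ ψ ∉ X := fun h => Set.disjoint_left.mp hdisj h hY'
      rw [hform ψ hψ, Set.indicator_of_notMem hX', Set.indicator_of_mem hY', zero_add,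
        if_pos rfl, mul_one]
    rw [h4, h5, h6] at h1
    by_cases hR : RelS P (θ : ↥𝐂 → ℂ) ψ ψ'
    · rw [if_pos hR] at h1
      refine ⟨fun _ => ?_, fun _ => hR⟩
      by_contra hne
      rw [if_neg hne] at h1
      have h7 : δ * δ = 0 := by linear_combination -h1
      rw [hδ2] at h7
      exact one_ne_zero h7
    · rw [if_neg hR] at h1
      refine ⟨fun h => absurd h hR, fun hz => ?_⟩
      rw [if_pos hz] at h1
      exfalso
      have h7 : (1 : ℤ) = 0 := by linear_combination h1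
      exact one_ne_zero h7
  have hZcard : (Finset.univ.filter
      (fun ψ : ↥(P : Subgroup G) →* ℂˣ => ψ ≠ 1 ∧ ζ ψ = ξ)).card = e := by
    have h1 := card_class_T P hP θ.2 T hT ψ₀ hψ₀
    rw [he, Nat.card_eq_fintype_card, Fintype.card_subtype] at h1
    rw [← h1]
    congr 1
    ext ψ
    simp only [Finset.mem_filter, Finset.mem_univ, true_and]
    constructor
    · rintro ⟨hψ, hz⟩
      exact (hrel ψ₀ ψ hψ₀ hψ).mpr (by rw [hz, hζ₀])
    · intro hR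
      have hψ := relS_ne P hψ₀ hR
      exact ⟨hψ, by rw [(hrel ψ₀ ψ hψ₀ hψ).mp hR, hζ₀]⟩
  have hepos : 0 < e := by
    rw [← hZcard]
    exact Finset.card_pos.mpr ⟨ψ₀, Finset.mem_filter.mpr ⟨Finset.mem_univ _, hψ₀, hζ₀⟩⟩
  have he2 : 2 * e ≤ p - 1 := by
    have hlt : e < p - 1 := by
      rw [← hZcard]
      have hsub : Finset.univ.filter (fun ψ : ↥(P : Subgroup G) →* ℂˣ => ψ ≠ 1 ∧ ζ ψ = ξ) ⊆
          (Finset.univ.erase 1).erase ψ₁ := by
        intro ψ hψ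
        rw [Finset.mem_filter] at hψ
        refine Finset.mem_erase.mpr ⟨?_, Finset.mem_erase.mpr ⟨hψ.2.1, Finset.mem_univ _⟩⟩
        rintro rfl
        exact hζ₁ hψ.2.2
      have h := Finset.card_le_card hsub
      rw [Finset.card_erase_of_mem (Finset.mem_erase.mpr ⟨hψ₁, Finset.mem_univ _⟩),
        Finset.card_erase_of_mem (Finset.mem_univ _), Finset.card_univ, hcardΨ] at h
      have := hp.two_le
      omega
    obtain ⟨k, hk⟩ := hdvd
    rcases k with _ | _ | k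
    · rw [hk] at hlt
      omega
    · rw [hk] at hlt
      omega
    · rw [hk]
      have : e * (k + 1 + 1) = e * k + 2 * e := by ring
      omega
  -- the irreducible characters `(ψ ∘ π) θ`
  obtain ⟨φψ, hφψ⟩ : ∃ φψ : (↥(P : Subgroup G) →* ℂˣ) → IrrCharacter ↥𝐂, ∀ ψ,
      ((φψ ψ : IrrCharacter ↥𝐂) : ↥𝐂 → ℂ) =
        (fun c : ↥𝐂 => ((ψ (π c) : ℂˣ) : ℂ)) * (θ : ↥𝐂 → ℂ) :=
    ⟨fun ψ => ⟨_, hirr ψ⟩, fun ψ => rfl⟩
  have hθ1 : (θ : ↥𝐂 → ℂ) 1 ≠ 0 := by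
    rw [← char_natCast_charDegree (isCharacter_of_irr θ.2)]
    exact Nat.cast_ne_zero.mpr (irr_charDegree_pos θ.2).ne'
  have hinj : Function.Injective φψ := by
    intro ψ ψ' h
    refine MonoidHom.ext fun z => Units.ext ?_
    have h1 := congrFun (congrArg (fun φ : IrrCharacter ↥𝐂 => (φ : ↥𝐂 → ℂ)) h) (inc P hP z)
    simp only [hφψ, Pi.mul_apply] at h1
    rw [proj_inc P hP π hπP z] at h1
    exact mul_right_cancel₀ (by
      rw [hθP (inc P hP z) z.2]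
      exact hθ1) h1
  have hsum : ∑ ψ : ↥(P : Subgroup G) →* ℂˣ, m ψ ≤ charDegree (ξ : G → ℂ) := by
    have h := hL4 (Finset.univ.image φψ)
    rw [Finset.sum_image (fun a _ b _ hab => hinj hab)] at h
    have h2 : ∀ ψ : ↥(P : Subgroup G) →* ℂˣ,
        (classInner (fun c : ↥𝐂 => (ξ : G → ℂ) (c : G))
          ((φψ ψ : IrrCharacter ↥𝐂) : ↥𝐂 → ℂ)).re = (m ψ : ℝ) := by
      intro ψ
      rw [hφψ, hm ψ]
      simp
    rw [Finset.sum_congr rfl (fun ψ _ => h2 ψ)] at h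
    exact_mod_cast h
  -- the values of `m`
  have hmV : ∀ ψ : ↥(P : Subgroup G) →* ℂˣ, ψ ≠ 1 → ζ ψ ≠ ξ →
      (m ψ : ℤ) = (m 1 : ℤ) + γ := by
    intro ψ hψ hz
    have h := hcolm ψ
    rw [hDξ ψ hψ, if_neg (fun h => hz h.symm), mul_zero, add_zero] at h
    linarith
  have hmZ : ∀ ψ : ↥(P : Subgroup G) →* ℂˣ, ψ ≠ 1 → ζ ψ = ξ →
      (m ψ : ℤ) = (m 1 : ℤ) + γ + δ := by
    intro ψ hψ hz
    have h := hcolm ψ
    rw [hDξ ψ hψ, if_pos hz.symm, mul_one] at h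
    linarith
  have hVcard : (Finset.univ.filter
      (fun ψ : ↥(P : Subgroup G) →* ℂˣ => ψ ≠ 1 ∧ ζ ψ ≠ ξ)).card = p - 1 - e := by
    have h1 : (Finset.univ.erase (1 : ↥(P : Subgroup G) →* ℂˣ)).card = p - 1 := by
      rw [Finset.card_erase_of_mem (Finset.mem_univ _), Finset.card_univ, hcardΨ]
    have h2 : Finset.univ.erase (1 : ↥(P : Subgroup G) →* ℂˣ) =
        (Finset.univ.filter (fun ψ : ↥(P : Subgroup G) →* ℂˣ => ψ ≠ 1 ∧ ζ ψ = ξ)) ∪
        (Finset.univ.filter (fun ψ : ↥(P : Subgroup G) →* ℂˣ => ψ ≠ 1 ∧ ζ ψ ≠ ξ)) := by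
      ext ψ
      simp only [Finset.mem_erase, Finset.mem_univ, and_true, Finset.mem_union,
        Finset.mem_filter, true_and]
      tauto
    have h3 : Disjoint
        (Finset.univ.filter (fun ψ : ↥(P : Subgroup G) →* ℂˣ => ψ ≠ 1 ∧ ζ ψ = ξ))
        (Finset.univ.filter (fun ψ : ↥(P : Subgroup G) →* ℂˣ => ψ ≠ 1 ∧ ζ ψ ≠ ξ)) := by
      rw [Finset.disjoint_left]
      intro ψ h h'
      rw [Finset.mem_filter] at h h'
      exact h'.2.2 h.2.2
    rw [h2, Finset.card_union_of_disjoint h3, hZcard] at h1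
    omega
  have hv0' : (m 1 : ℤ) + γ = 0 := by
    by_contra hne
    have hpos : ∀ ψ ∈ Finset.univ.filter
        (fun ψ : ↥(P : Subgroup G) →* ℂˣ => ψ ≠ 1 ∧ ζ ψ ≠ ξ), 1 ≤ m ψ := by
      intro ψ hψ
      rw [Finset.mem_filter] at hψ
      have h1 := hmV ψ hψ.2.1 hψ.2.2
      have h2 := hmV ψ₁ hψ₁ hζ₁
      omega
    have h3 : (Finset.univ.filter
        (fun ψ : ↥(P : Subgroup G) →* ℂˣ => ψ ≠ 1 ∧ ζ ψ ≠ ξ)).card ≤
        ∑ ψ ∈ Finset.univ.filter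
          (fun ψ : ↥(P : Subgroup G) →* ℂˣ => ψ ≠ 1 ∧ ζ ψ ≠ ξ), m ψ := by
      have := Finset.card_nsmul_le_sum _ m 1 hpos
      simpa using this
    have h4 : ∑ ψ ∈ Finset.univ.filter
        (fun ψ : ↥(P : Subgroup G) →* ℂˣ => ψ ≠ 1 ∧ ζ ψ ≠ ξ), m ψ ≤
        ∑ ψ : ↥(P : Subgroup G) →* ℂˣ, m ψ :=
      Finset.sum_le_sum_of_subset (Finset.filter_subset _ _)
    rw [hVcard] at h3
    omega
  have hδ1 : δ = 1 := by
    rcases hδ with h | h
    · exact h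
    · exfalso
      have h1 := hmZ ψ₀ hψ₀ hζ₀
      rw [h] at h1
      omega
  have hmψ₀ : m ψ₀ = 1 := by
    have h1 := hmZ ψ₀ hψ₀ hζ₀
    rw [hδ1] at h1
    omega
  have ht2 : 2 ≤ (p - 1) / e := (Nat.le_div_iff_mul_le hepos).mpr he2
  have hγ0 : γ = 0 := by
    rw [hδ1] at hε
    rcases hε with h | h
    · have h' : (((p - 1) / e : ℕ) : ℤ) * γ = 0 := by linarith
      rcases mul_eq_zero.mp h' with h'' | h''
      · exfalso
        have : (p - 1) / e = 0 := by exact_mod_cast h''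
        omega
      · exact h''
    · exfalso
      have h1 : (((p - 1) / e : ℕ) : ℤ) * γ = -2 := by linarith
      have ht : (2 : ℤ) ≤ (((p - 1) / e : ℕ) : ℤ) := by exact_mod_cast ht2
      have hγneg : γ ≤ -1 := by
        by_contra hc
        have hγ' : γ = 0 := by omega
        rw [hγ', mul_zero] at h1
        omega
      have hγ : γ = -1 := by nlinarith
      have htt : (p - 1) / e = 2 := by
        rw [hγ] at h1
        have : (((p - 1) / e : ℕ) : ℤ) = 2 := by linarith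
        exact_mod_cast this
      have hm1 : m 1 = 1 := by
        rw [hγ] at hv0'
        omega
      have hpe : p - 1 = 2 * e := by
        obtain ⟨k, hk⟩ := hdvd
        rw [hk, Nat.mul_div_cancel_left k hepos] at htt
        rw [hk, htt]
        ring
      have hZsum : ∑ ψ ∈ Finset.univ.filter
          (fun ψ : ↥(P : Subgroup G) →* ℂˣ => ψ ≠ 1 ∧ ζ ψ = ξ), m ψ = e := by
        have h5 : ∀ ψ ∈ Finset.univ.filter
            (fun ψ : ↥(P : Subgroup G) →* ℂˣ => ψ ≠ 1 ∧ ζ ψ = ξ), m ψ = 1 := by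
          intro ψ hψ
          rw [Finset.mem_filter] at hψ
          have h6 := hmZ ψ hψ.2.1 hψ.2.2
          rw [hδ1] at h6
          omega
        rw [Finset.sum_congr rfl h5, Finset.sum_const, hZcard]
        simp
      have h5 : ∑ ψ ∈ insert 1 (Finset.univ.filter
          (fun ψ : ↥(P : Subgroup G) →* ℂˣ => ψ ≠ 1 ∧ ζ ψ = ξ)), m ψ ≤
          ∑ ψ : ↥(P : Subgroup G) →* ℂˣ, m ψ :=
        Finset.sum_le_sum_of_subset (Finset.subset_univ _)
      rw [Finset.sum_insert (by simp), hm1, hZsum] at h5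
      omega
  have hDsum : ∑ ψ : ↥(P : Subgroup G) →* ℂˣ,
      (if ψ = 1 then (0 : ℂ) else col P π (θ : ↥𝐂 → ℂ) ψ (ξ : G → ℂ)) = (e : ℂ) := by
    have h1 : ∀ ψ : ↥(P : Subgroup G) →* ℂˣ,
        (if ψ = 1 then (0 : ℂ) else col P π (θ : ↥𝐂 → ℂ) ψ (ξ : G → ℂ)) =
        (if ψ ≠ 1 ∧ ζ ψ = ξ then 1 else 0) := by
      intro ψ
      by_cases hψ : ψ = 1
      · rw [if_pos hψ, if_neg (fun h => h.1 hψ)]
      · rw [if_neg hψ, hD, hDξ ψ hψ, hγ0, hδ1]
        by_cases hz : ζ ψ = ξ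
        · rw [if_pos hz.symm, if_pos ⟨hψ, hz⟩]
          norm_num
        · rw [if_neg (fun h => hz h.symm), if_neg (fun h => hz h.2)]
          norm_num
    rw [Finset.sum_congr rfl (fun ψ _ => h1 ψ), Finset.sum_boole, hZcard]
  -- the degree
  have hS := sum_ne_one P hP π hπP hπreg M hM B hB hBP b hind θ hθ hθP ξ hξB
  rw [hDsum] at hS
  have hqe : Nat.card {φ : IrrCharacter ↥𝐂 //
      ∃ n : ↥𝐍, conjTh P (θ : ↥𝐂 → ℂ) n = (φ : ↥𝐂 → ℂ)} * e =
      (Subgroup.centralizer ((P : Subgroup G) : Set G)).relIndex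
        (Subgroup.normalizer ((P : Subgroup G) : Set G)) := by
    have hcl : IsClassFunction ↥𝐂 (θ : ↥𝐂 → ℂ) := Orth.irr_isClassFunction θ
    have hCT := centralizer_le_stab P hcl T hT
    have hCN : 𝐂 ≤ 𝐍 := Subgroup.centralizer_le_normalizer _
    have h1 := card_orb P θ
    rw [card_stab P (θ : ↥𝐂 → ℂ) T hT, Cfsg.Agent.Lib.Helper76.PSolv.card_eq_card_mul_relIndex hCN,
      Cfsg.Agent.Lib.Helper76.PSolv.card_eq_card_mul_relIndex hCT, he] at h1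
    have hCpos : 0 < Nat.card ↥𝐂 := Nat.card_pos
    have h2 : Nat.card ↥𝐂 * (Nat.card {φ : IrrCharacter ↥𝐂 //
        ∃ n : ↥𝐍, conjTh P (θ : ↥𝐂 → ℂ) n = (φ : ↥𝐂 → ℂ)} * e) = Nat.card ↥𝐂 *
        (Subgroup.centralizer ((P : Subgroup G) : Set G)).relIndex
          (Subgroup.normalizer ((P : Subgroup G) : Set G)) := by
      rw [h1]
      ring
    exact Nat.eq_of_mul_eq_mul_left hCpos h2
  have htot : ∑ w : ↥(P : Subgroup G), (ξ : G → ℂ) (w : G) =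
      (ξ : G → ℂ) 1 - (θ : ↥𝐂 → ℂ) 1 *
        (((Subgroup.centralizer ((P : Subgroup G) : Set G)).relIndex
          (Subgroup.normalizer ((P : Subgroup G) : Set G)) : ℕ) : ℂ) := by
    have h1 : ∀ w : ↥(P : Subgroup G), (ξ : G → ℂ) (w : G) =
        (if w = 1 then 0 else (ξ : G → ℂ) (w : G)) +
          (if w = 1 then (ξ : G → ℂ) 1 else 0) := by
      intro w
      by_cases hw : w = 1
      · rw [if_pos hw, if_pos hw, hw, Subgroup.coe_one, zero_add]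
      · rw [if_neg hw, if_neg hw, add_zero]
    rw [Finset.sum_congr rfl (fun w _ => h1 w), Finset.sum_add_distrib, hS,
      Finset.sum_ite_eq' Finset.univ (1 : ↥(P : Subgroup G)), if_pos (Finset.mem_univ _), ← hqe]
    push_cast
    ring
  obtain ⟨a, ha⟩ : ∃ a : ℕ, ∑ w : ↥(P : Subgroup G), (ξ : G → ℂ) (w : G) = (p : ℂ) * a := by
    obtain ⟨a, ha⟩ := Clifford.classInner_char_nat
      (Ops.isCharacter_restrict (P : Subgroup G) (isCharacter_of_irr ξ.2))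
      (isCharacter_of_irr (Ops.isIrrCharacter_one (G := ↥(P : Subgroup G))))
    refine ⟨a, ?_⟩
    unfold classInner at ha
    have hP' : (Nat.card ↥(P : Subgroup G) : ℂ) = (p : ℂ) := by
      have : Nat.card ↥(P : Subgroup G) = p := hP
      rw [this]
    have hp0 : (p : ℂ) ≠ 0 := Nat.cast_ne_zero.mpr hp.ne_zero
    rw [hP'] at ha
    simp only [map_one, mul_one] at ha
    rw [← ha]
    field_simp
  have hdegeq : charDegree (ξ : G → ℂ) =
      (Subgroup.centralizer ((P : Subgroup G) : Set G)).relIndex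
        (Subgroup.normalizer ((P : Subgroup G) : Set G)) * charDegree (θ : ↥𝐂 → ℂ) := by
    rw [ha, ← char_natCast_charDegree (isCharacter_of_irr ξ.2),
      ← char_natCast_charDegree (isCharacter_of_irr θ.2)] at htot
    obtain ⟨K, hK⟩ : ∃ K : ℕ, K = charDegree (θ : ↥𝐂 → ℂ) *
        (Subgroup.centralizer ((P : Subgroup G) : Set G)).relIndex
          (Subgroup.normalizer ((P : Subgroup G) : Set G)) := ⟨_, rfl⟩
    have h1 : (p : ℤ) * a = (charDegree (ξ : G → ℂ) : ℤ) - (K : ℤ) := by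
      rw [hK]
      exact_mod_cast htot
    have h2 : a = 0 := by
      by_contra h
      have h3 : 1 ≤ a := Nat.one_le_iff_ne_zero.mpr h
      have h4 : (p : ℤ) ≤ p * a := by
        have : (1 : ℤ) ≤ a := by exact_mod_cast h3
        have hp0 : (0 : ℤ) ≤ p := by positivity
        nlinarith
      omega
    rw [h2] at h1
    have h5 : charDegree (ξ : G → ℂ) = K := by
      have : (charDegree (ξ : G → ℂ) : ℤ) = (K : ℤ) := by
        simp only [Nat.cast_zero, mul_zero] at h1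
        linarith
      exact_mod_cast this
    rw [h5, hK, mul_comm]
  refine ⟨φψ ψ₀, ψ₀, hψ₀, ?_, ?_, ?_⟩
  · intro u c hcu
    have hcP : (c : G) ∈ (P : Subgroup G) := by
      rw [hcu]
      exact u.2
    have hπc : π c = u := Subtype.ext (by rw [hπP c hcP, hcu])
    rw [hφψ]
    simp only [Pi.mul_apply, map_one, Units.val_one, one_mul]
    rw [hπc, hθP c hcP]
    ring
  · rw [hφψ, hm ψ₀, hmψ₀]
    norm_num
  · have hd : charDegree ((φψ ψ₀ : IrrCharacter ↥𝐂) : ↥𝐂 → ℂ) = charDegree (θ : ↥𝐂 → ℂ) := by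
      have h1 := char_natCast_charDegree (isCharacter_of_irr (φψ ψ₀).2)
      have h2 := char_natCast_charDegree (isCharacter_of_irr θ.2)
      have h3 : ((φψ ψ₀ : IrrCharacter ↥𝐂) : ↥𝐂 → ℂ) 1 = (θ : ↥𝐂 → ℂ) 1 := by
        rw [hφψ]
        simp
      rw [h3, ← h2] at h1
      exact_mod_cast h1
    rw [hd, hdegeq]

end Core

/-- **Piece T1core of S4503.** An irreducible character `ξ` with `2 ξ(1) + 1 < p` is constant on a
Sylow `p`-subgroup `P` of order `p`, or `ξ|_C` (`C = C_G(P)`) has an irreducible constituent `φ₀`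
lying over a non-principal linear character `ψ₀` of `P`, with `ξ(1) ≤ |N_G(P) : C| φ₀(1)`. -/
theorem small_degree_core [Finite G] (p : ℕ) [Fact p.Prime] (P : Sylow p G) (hP : Nat.card P = p)
    [Fintype ↥(Subgroup.centralizer ((P : Subgroup G) : Set G))] (ξ : IrrCharacter G)
    (hdeg : 2 * charDegree (ξ : G → ℂ) + 1 < p) :
    (∀ x : G, x ∈ (P : Subgroup G) → (ξ : G → ℂ) x = (ξ : G → ℂ) 1) ∨
    ∃ (φ₀ : IrrCharacter ↥(Subgroup.centralizer ((P : Subgroup G) : Set G)))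
      (ψ₀ : ↥(P : Subgroup G) →* ℂˣ), ψ₀ ≠ 1 ∧
      (∀ (u : ↥(P : Subgroup G)) (c : ↥(Subgroup.centralizer ((P : Subgroup G) : Set G))),
        (c : G) = (u : G) →
        (φ₀ : ↥(Subgroup.centralizer ((P : Subgroup G) : Set G)) → ℂ) c =
          (φ₀ : ↥(Subgroup.centralizer ((P : Subgroup G) : Set G)) → ℂ) 1 * ((ψ₀ u : ℂˣ) : ℂ)) ∧
      classInner (fun c : ↥(Subgroup.centralizer ((P : Subgroup G) : Set G)) => (ξ : G → ℂ) (c : G))
        (φ₀ : ↥(Subgroup.centralizer ((P : Subgroup G) : Set G)) → ℂ) ≠ 0 ∧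
      charDegree (ξ : G → ℂ) ≤
        (Subgroup.centralizer ((P : Subgroup G) : Set G)).relIndex
          (Subgroup.normalizer ((P : Subgroup G) : Set G)) *
          charDegree (φ₀ : ↥(Subgroup.centralizer ((P : Subgroup G) : Set G)) → ℂ) := by
  classical
  have hp : p.Prime := Fact.out
  obtain ⟨M, hM⟩ := Cfsg.Agent.Lib.CT.Knorr.exists_isPModular p hp
  have hMp := Cfsg.Agent.Lib.Helper77.LocalRing.isPrime_of_isPModular hM
  have hξpos : 0 < charDegree (ξ : G → ℂ) := irr_charDegree_pos ξ.2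
  have hndvd : ¬ p ∣ charDegree (ξ : G → ℂ) := fun h => by
    have := Nat.le_of_dvd hξpos h
    omega
  have hBP := Cfsg.Agent.Lib.Helper74.McKayAB.isDefectGroup_of_not_dvd p M hM P hP ξ hndvd
  have hB : IsPBlock M (blockOf M (ξ : G → ℂ)) :=
    Cfsg.Agent.Lib.CT.DefectZeroBlock.isPBlock_blockOf ξ
  have hξB : ξ ∈ blockOf M (ξ : G → ℂ) :=
    Cfsg.Agent.Lib.Helper77.DefectClass.self_mem_blockOf hMp ξ
  obtain ⟨θ, hθP, hind⟩ := Cfsg.Agent.Lib.Helper79.McKayCD.exists_root p M hM P hP _ hB hBP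
  have hθb : θ ∈ blockOf M (θ : ↥(Subgroup.centralizer ((P : Subgroup G) : Set G)) → ℂ) :=
    Cfsg.Agent.Lib.Helper77.DefectClass.self_mem_blockOf hMp θ
  have hT : ∀ g : G, g ∈ Cfsg.Agent.Lib.Helper74.McKayDefs.stab (P : Subgroup G)
      (θ : ↥(Subgroup.centralizer ((P : Subgroup G) : Set G)) → ℂ) ↔
      (g ∈ Subgroup.normalizer ((P : Subgroup G) : Set G) ∧
        ∀ c c' : Subgroup.centralizer ((P : Subgroup G) : Set G), (c' : G) = g * c * g⁻¹ →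
          (θ : Subgroup.centralizer ((P : Subgroup G) : Set G) → ℂ) c' =
            (θ : Subgroup.centralizer ((P : Subgroup G) : Set G) → ℂ) c) :=
    fun g => Iff.rfl
  have hlow := Cfsg.Agent.Lib.Helper17.BqTop2.lower_bound' p M hM P hP _ hB _ hind θ hθb hθP _ hT
    _ rfl
  haveI : Fintype G := Fintype.ofFinite G
  have := finite_irrCharacter G
  haveI : Fintype (IrrCharacter G) := Fintype.ofFinite _
  have := finite_irrCharacter ↥(Subgroup.centralizer ((P : Subgroup G) : Set G))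
  haveI : Fintype (IrrCharacter ↥(Subgroup.centralizer ((P : Subgroup G) : Set G))) :=
    Fintype.ofFinite _
  have hPab : ∀ a ∈ (P : Subgroup G), ∀ b ∈ (P : Subgroup G), a * b = b * a :=
    fun a ha b hb => comm_of_mem P hP ha hb
  have := finite_hom (P : Subgroup G) hPab
  haveI : Fintype (↥(P : Subgroup G) →* ℂˣ) := Fintype.ofFinite _
  haveI : Fintype ↥(P : Subgroup G) := Fintype.ofFinite _
  haveI : Fintype ↥(Subgroup.normalizer ((P : Subgroup G) : Set G)) := Fintype.ofFinite _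
  obtain ⟨π, hπP, hπreg⟩ := exists_proj P hP
  have hd : charDegree (fun c : ↥(Subgroup.centralizer ((P : Subgroup G) : Set G)) =>
      (ξ : G → ℂ) (c : G)) = charDegree (ξ : G → ℂ) := by
    have h1 := char_natCast_charDegree (Ops.isCharacter_restrict
      (Subgroup.centralizer ((P : Subgroup G) : Set G)) (isCharacter_of_irr ξ.2))
    have h2 := char_natCast_charDegree (isCharacter_of_irr ξ.2)
    rw [Subgroup.coe_one, ← h2] at h1
    exact_mod_cast h1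
  exact core_aux P hP π hπP hπreg M hM _ hB hBP _ hind θ hθb hθP _ hT _ rfl hlow ξ hξB hdeg
    (fun c hc => Cfsg.Agent.Lib.Helper67.BrL1.trivial_of_const p P hP (ξ : G → ℂ)
      (isCharacter_of_irr ξ.2) hdeg c hc)
    (fun S => by
      have h := Cfsg.Agent.Lib.Helper67.BrL24.sum_inner_le_degree
        (fun c : ↥(Subgroup.centralizer ((P : Subgroup G) : Set G)) => (ξ : G → ℂ) (c : G))
        (Ops.isCharacter_restrict _ (isCharacter_of_irr ξ.2)) S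
      rw [hd] at h
      exact h)

end Cfsg.Agent.Lib.Helper80.BrT1core
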