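import Mathlib
import Cfsg.Agent.Lib.Helper80.BrT1core
import Cfsg.Agent.Lib.Helper80.S4705Stmt
import Cfsg.Agent.Lib.CT.Kernel
import Cfsg.Agent.Lib.CT.KnUtil
import Cfsg.Agent.Lib.Helper25.CyclicTI

/-!
# S4705, piece RES

`P` a Sylow `p`-subgroup of order `p > 5`, not normal, `ξ` a faithful irreducible character of
degree `p - 2`.  From the structure of the block of `ξ` (a block of defect one): the `p`-regular
elements of `C_G(P)` are central and `ξ(x) = -(ψ₀(x) + ψ₁(x))` for `x ∈ P \ 1`, with two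
non-principal linear characters `ψ₀`, `ψ₁` of `P`.
-/

set_option autoImplicit false
set_option linter.unusedSectionVars false
set_option linter.style.haveILetI false
set_option maxHeartbeats 4000000

namespace Cfsg.Agent.Lib.Helper80.FTRES

open Cfsg Cfsg.Agent.Lib.CT Cfsg.Agent.Lib.CT.Wedderburn
  Cfsg.Agent.Lib.Helper80.DefOneLoc Cfsg.Agent.Lib.Helper80.DefOneCol
  Cfsg.Agent.Lib.Helper80.DefOneGram Cfsg.Agent.Lib.Helper80.DefOneRow
  Cfsg.Agent.Lib.Helper80.AbSylowCh Cfsg.Agent.Lib.Helper80.BrT1core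
open scoped ComplexConjugate

universe u

theorem mge {a b : ℤ} (ha : 1 ≤ a) (hb : 0 ≤ b) : b ≤ a * b := by
  have := mul_le_mul_of_nonneg_right ha hb
  linarith

theorem tge {a b : ℤ} (ha : 2 ≤ a) (hb : 0 ≤ b) : 2 * b ≤ a * b :=
  mul_le_mul_of_nonneg_right ha hb

theorem arith_const (p θ1 wo f a M1 : ℕ) (c : ℤ) (hp5 : 5 < p) (hc : c = 1 ∨ c = -1)
    (hθ1 : 1 ≤ θ1) (hwo1 : 1 ≤ wo) (hwo : wo ∣ f) (hf : f ∣ p - 1)
    (G1 : (θ1 : ℤ) * (p * M1 + (p - 1) * c) ≤ p - 2)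
    (G2 : (p : ℤ) * a = p - 2 - θ1 * wo * ((p - 1) * c))
    (G3 : a ≤ p - 2) (G5 : 0 ≤ (M1 : ℤ) + c) : θ1 = p - 2 ∧ M1 = 1 := by
  have hpZ : (5 : ℤ) < p := by exact_mod_cast hp5
  have hp0 : (0 : ℤ) ≤ p := by linarith
  have hθZ : (1 : ℤ) ≤ θ1 := by exact_mod_cast hθ1
  have hwZ : (1 : ℤ) ≤ wo := by exact_mod_cast hwo1
  have hM0 : (0 : ℤ) ≤ M1 := by positivity
  have ha0 : (0 : ℤ) ≤ a := by positivity
  have haZ : (a : ℤ) ≤ p - 2 := by
    have : a + 2 ≤ p := by omega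
    have h : ((a + 2 : ℕ) : ℤ) ≤ p := by exact_mod_cast this
    push_cast at h
    linarith
  rcases hc with rfl | rfl
  · exfalso
    have h1 : (0 : ℤ) ≤ (p : ℤ) * M1 := by positivity
    have h2 := mge hθZ (show (0 : ℤ) ≤ (p : ℤ) * M1 + (p - 1) * 1 by linarith)
    linarith
  · have hM1 : (1 : ℤ) ≤ M1 := by linarith
    have hM1' : (M1 : ℤ) = 1 := by
      by_contra hne
      have h2 : (2 : ℤ) ≤ M1 := by omega
      have h3 : (p : ℤ) * 2 ≤ p * M1 := mul_le_mul_of_nonneg_left h2 hp0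
      have h4 := mge hθZ (show (0 : ℤ) ≤ (p : ℤ) * M1 + (p - 1) * (-1) by linarith)
      linarith
    have hM1'' : M1 = 1 := by exact_mod_cast hM1'
    refine ⟨?_, hM1''⟩
    have hq1 : (1 : ℤ) ≤ (θ1 : ℤ) * wo := one_le_mul_of_one_le_of_one_le hθZ hwZ
    have hG2 : (p : ℤ) * a = p - 2 + (θ1 : ℤ) * wo * (p - 1) := by linarith
    have hqle : (θ1 : ℤ) * wo ≤ p - 2 := by
      by_contra hcon
      have h5 : (p : ℤ) - 1 ≤ (θ1 : ℤ) * wo := by omega
      have h6 : ((p : ℤ) - 1) * (p - 1) ≤ (θ1 : ℤ) * wo * (p - 1) :=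
        mul_le_mul_of_nonneg_right h5 (by linarith)
      have h7 : (p : ℤ) * a ≤ p * (p - 2) := mul_le_mul_of_nonneg_left haZ hp0
      linarith
    have hdv : (p : ℤ) ∣ (θ1 : ℤ) * wo + 2 := by
      refine ⟨1 + (θ1 : ℤ) * wo - a, ?_⟩
      linarith
    have hqeq : (θ1 : ℤ) * wo + 2 = p := by
      obtain ⟨k, hk⟩ := hdv
      have hk1 : 0 < k := by
        by_contra hcon
        have h8 : k ≤ 0 := by omega
        have h9 : (p : ℤ) * k ≤ 0 := mul_nonpos_of_nonneg_of_nonpos hp0 h8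
        linarith
      have hk2 : k < 2 := by
        by_contra hcon
        have h8 : 2 ≤ k := by omega
        have h9 : (p : ℤ) * 2 ≤ p * k := mul_le_mul_of_nonneg_left h8 hp0
        linarith
      have h10 : k = 1 := by omega
      rw [h10, mul_one] at hk
      exact hk
    have hqN : θ1 * wo + 2 = p := by exact_mod_cast hqeq
    have hwo2 : wo ∣ p - 2 := ⟨θ1, by rw [mul_comm]; omega⟩
    have hwo3 : wo ∣ p - 1 := dvd_trans hwo hf
    have hwo4 : wo ∣ (p - 1) - (p - 2) := Nat.dvd_sub hwo3 hwo2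
    have h1 : (p - 1) - (p - 2) = 1 := by omega
    rw [h1] at hwo4
    have hwo5 : wo = 1 := Nat.dvd_one.mp hwo4
    rw [hwo5, mul_one] at hqN
    omega

set_option maxHeartbeats 1000000 in
theorem arith_main (p e wo f θ1 a M1 : ℕ) (γ δ : ℤ) (hp5 : 5 < p)
    (he : e ∣ p - 1) (he2 : 2 * e ≤ p - 1) (hepos : 0 < e)
    (hδ : δ = 1 ∨ δ = -1)
    (hε : (((p - 1) / e : ℕ) : ℤ) * γ + δ = 1 ∨ (((p - 1) / e : ℕ) : ℤ) * γ + δ = -1)
    (hfe : wo * e = f) (hf : f ∣ p - 1) (hθ1 : 1 ≤ θ1)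
    (G1 : (θ1 : ℤ) * (p * M1 + ((p - 1) * γ + δ * e)) ≤ p - 2)
    (G2 : (p : ℤ) * a = p - 2 - θ1 * wo * ((p - 1) * γ + δ * e))
    (G5a : 0 ≤ (M1 : ℤ) + γ) (G5b : 0 ≤ (M1 : ℤ) + γ + δ) :
    (γ = 0 ∧ δ = 1 ∧ θ1 = p - 2 ∧ M1 = 0) ∨
      (γ = 0 ∧ δ = -1 ∧ θ1 = 1 ∧ e = 2 ∧ wo = 1 ∧ M1 = 1) := by
  obtain ⟨t, ht⟩ := he
  have htdiv : (p - 1) / e = t := by
    rw [ht]
    exact Nat.mul_div_cancel_left t hepos
  rw [htdiv] at hε
  have ht2 : 2 ≤ t := by
    by_contra h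
    have h1 : t ≤ 1 := by omega
    have h2 : e * t ≤ e * 1 := Nat.mul_le_mul_left e h1
    omega
  have hpN : p = e * t + 1 := by omega
  have hpZ : (p : ℤ) = e * t + 1 := by exact_mod_cast hpN
  have hp5Z : (5 : ℤ) < p := by exact_mod_cast hp5
  have hp0 : (0 : ℤ) ≤ p := by linarith
  have heZ : (1 : ℤ) ≤ e := by exact_mod_cast hepos
  have htZ : (2 : ℤ) ≤ t := by exact_mod_cast ht2
  have ht0 : (0 : ℤ) ≤ t := by linarith
  have hθZ : (1 : ℤ) ≤ θ1 := by exact_mod_cast hθ1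
  have hM0 : (0 : ℤ) ≤ M1 := by positivity
  have ha0 : (0 : ℤ) ≤ a := by positivity
  have hwo0 : (0 : ℤ) ≤ wo := by positivity
  have hfpos : 0 < f := by
    rcases Nat.eq_zero_or_pos f with h | h
    · rw [h] at hf
      have := Nat.eq_zero_of_zero_dvd hf
      omega
    · exact h
  have hfle : f ≤ p - 1 := Nat.le_of_dvd (by omega) hf
  have hfZ : (f : ℤ) = wo * e := by exact_mod_cast hfe.symm
  have hfleZ : (f : ℤ) ≤ p - 1 := by
    have : f + 1 ≤ p := by omega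
    have h : ((f + 1 : ℕ) : ℤ) ≤ p := by exact_mod_cast this
    push_cast at h
    linarith
  have hf1Z : (1 : ℤ) ≤ f := by exact_mod_cast hfpos
  have he2Z : 2 * (e : ℤ) ≤ p - 1 := by
    have : 2 * e + 1 ≤ p := by omega
    have h : ((2 * e + 1 : ℕ) : ℤ) ≤ p := by exact_mod_cast this
    push_cast at h
    linarith
  have hwopos : (1 : ℤ) ≤ wo := by
    by_contra hne
    have h0 : (wo : ℤ) = 0 := by omega
    rw [hfZ, h0, zero_mul] at hf1Z
    linarith
  -- the possible values of γ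
  have hγ : γ = 0 ∨ (t = 2 ∧ γ = -δ) := by
    rcases hδ with rfl | rfl
    · rcases hε with h | h
      · left
        have h' : (t : ℤ) * γ = 0 := by linarith
        rcases mul_eq_zero.mp h' with h'' | h''
        · omega
        · exact h''
      · right
        have h' : (t : ℤ) * γ = -2 := by linarith
        have hγneg : γ ≤ -1 := by
          by_contra hc
          have h1 : 0 ≤ γ := by omega
          have h2 := mul_nonneg ht0 h1
          linarith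
        have hγ1 : γ = -1 := by
          by_contra hc
          have h1 : γ ≤ -2 := by omega
          have h2 : (t : ℤ) * γ ≤ t * (-2) := mul_le_mul_of_nonneg_left h1 ht0
          linarith
        refine ⟨?_, by rw [hγ1]⟩
        rw [hγ1] at h'
        have : (t : ℤ) = 2 := by linarith
        exact_mod_cast this
    · rcases hε with h | h
      · right
        have h' : (t : ℤ) * γ = 2 := by linarith
        have hγpos : 1 ≤ γ := by
          by_contra hc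
          have h1 : γ ≤ 0 := by omega
          have h2 := mul_nonpos_of_nonneg_of_nonpos ht0 h1
          linarith
        have hγ1 : γ = 1 := by
          by_contra hc
          have h1 : 2 ≤ γ := by omega
          have h2 : (t : ℤ) * 2 ≤ t * γ := mul_le_mul_of_nonneg_left h1 ht0
          linarith
        refine ⟨?_, by rw [hγ1]; norm_num⟩
        rw [hγ1] at h'
        have : (t : ℤ) = 2 := by linarith
        exact_mod_cast this
      · left
        have h' : (t : ℤ) * γ = 0 := by linarith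
        rcases mul_eq_zero.mp h' with h'' | h''
        · omega
        · exact h''
  rcases hγ with hγ0 | ⟨ht2', hγδ⟩
  · subst hγ0
    simp only [mul_zero, zero_add, add_zero] at G1 G2 G5a G5b
    rcases hδ with rfl | rfl
    · -- case A
      left
      have hM1 : (M1 : ℤ) = 0 := by
        by_contra hne
        have h2 : (1 : ℤ) ≤ M1 := by omega
        have h3 : (p : ℤ) * 1 ≤ p * M1 := mul_le_mul_of_nonneg_left h2 hp0
        have h4 := mge hθZ (show (0 : ℤ) ≤ (p : ℤ) * M1 + 1 * e by linarith)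
        linarith
      have hM1' : M1 = 0 := by exact_mod_cast hM1
      have hG2 : (p : ℤ) * a = p - 2 - (θ1 : ℤ) * f := by
        rw [hfZ]
        linarith
      have hθf : (1 : ℤ) ≤ (θ1 : ℤ) * f := one_le_mul_of_one_le_of_one_le hθZ hf1Z
      have ha : (a : ℤ) = 0 := by
        by_contra hne
        have h2 : (1 : ℤ) ≤ a := by omega
        have h3 : (p : ℤ) * 1 ≤ p * a := mul_le_mul_of_nonneg_left h2 hp0
        linarith
      rw [ha, mul_zero] at hG2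
      have hθfN : θ1 * f + 2 = p := by
        have : ((θ1 * f + 2 : ℕ) : ℤ) = p := by
          push_cast
          linarith
        exact_mod_cast this
      have hf2 : f ∣ p - 2 := ⟨θ1, by rw [mul_comm]; omega⟩
      have hf3 : f ∣ (p - 1) - (p - 2) := Nat.dvd_sub hf hf2
      have h1 : (p - 1) - (p - 2) = 1 := by omega
      rw [h1] at hf3
      have hf1 : f = 1 := Nat.dvd_one.mp hf3
      rw [hf1, mul_one] at hθfN
      exact ⟨rfl, rfl, by omega, hM1'⟩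
    · -- case B
      right
      have hM1 : (1 : ℤ) ≤ M1 := by linarith
      have hM1' : (M1 : ℤ) = 1 := by
        by_contra hne
        have h2 : (2 : ℤ) ≤ M1 := by omega
        have h3 : (p : ℤ) * 2 ≤ p * M1 := mul_le_mul_of_nonneg_left h2 hp0
        have h4 := mge hθZ (show (0 : ℤ) ≤ (p : ℤ) * M1 + (-1) * e by linarith)
        linarith
      rw [hM1'] at G1
      have hθ1' : (θ1 : ℤ) = 1 := by
        by_contra hne
        have h2 : (2 : ℤ) ≤ θ1 := by omega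
        have h4 := tge h2 (show (0 : ℤ) ≤ (p : ℤ) * 1 + (-1) * e by linarith)
        linarith
      rw [hθ1'] at G1 G2
      have hG2 : (p : ℤ) * a = p - 2 + f := by
        rw [hfZ]
        linarith
      have ha1 : (1 : ℤ) ≤ a := by
        by_contra hne
        have h2 : (a : ℤ) = 0 := by omega
        rw [h2, mul_zero] at hG2
        linarith
      have ha2 : (a : ℤ) = 1 := by
        by_contra hne
        have h2 : (2 : ℤ) ≤ a := by omega
        have h3 : (p : ℤ) * 2 ≤ p * a := mul_le_mul_of_nonneg_left h2 hp0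
        linarith
      rw [ha2] at hG2
      have hf2 : (f : ℤ) = 2 := by linarith
      have he2' : (2 : ℤ) ≤ e := by linarith
      have h3 : (wo : ℤ) * e = 2 := by rw [← hfZ, hf2]
      have hwo1 : (wo : ℤ) = 1 := by
        by_contra hne
        have h4 : (2 : ℤ) ≤ wo := by omega
        have h5 := tge h4 (show (0 : ℤ) ≤ (e : ℤ) by linarith)
        linarith
      have he2'' : (e : ℤ) = 2 := by
        rw [hwo1, one_mul] at h3
        exact h3
      refine ⟨rfl, rfl, ?_, ?_, ?_, ?_⟩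
      · exact_mod_cast hθ1'
      · exact_mod_cast he2''
      · exact_mod_cast hwo1
      · exact_mod_cast hM1'
  · -- case C: t = 2
    exfalso
    subst ht2'
    have hpe : (p : ℤ) = 2 * e + 1 := by
      rw [hpZ]
      push_cast
      ring
    have he3 : (3 : ℤ) ≤ e := by linarith
    have hfe' : (e : ℤ) ≤ f := by
      rw [hfZ]
      exact mge hwopos (by linarith)
    rcases hδ with rfl | rfl
    · -- δ = 1, γ = -1
      subst hγδ
      have hK : ((p : ℤ) - 1) * (-1) + 1 * e = -e := by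
        rw [hpe]
        ring
      rw [hK] at G1 G2
      have hM1 : (1 : ℤ) ≤ M1 := by linarith
      have hM1' : (M1 : ℤ) = 1 := by
        by_contra hne
        have h2 : (2 : ℤ) ≤ M1 := by omega
        have h3 : (p : ℤ) * 2 ≤ p * M1 := mul_le_mul_of_nonneg_left h2 hp0
        have h4 := mge hθZ (show (0 : ℤ) ≤ (p : ℤ) * M1 + (-e) by linarith)
        linarith
      rw [hM1'] at G1
      have hθ1' : (θ1 : ℤ) = 1 := by
        by_contra hne
        have h2 : (2 : ℤ) ≤ θ1 := by omega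
        have h4 := tge h2 (show (0 : ℤ) ≤ (p : ℤ) * 1 + (-e) by linarith)
        linarith
      rw [hθ1'] at G2
      have hG2 : (p : ℤ) * a = p - 2 + f := by
        rw [hfZ]
        linarith
      have ha1 : (1 : ℤ) ≤ a := by
        by_contra hne
        have h2 : (a : ℤ) = 0 := by omega
        rw [h2, mul_zero] at hG2
        linarith
      have ha2 : (a : ℤ) = 1 := by
        by_contra hne
        have h2 : (2 : ℤ) ≤ a := by omega
        have h3 : (p : ℤ) * 2 ≤ p * a := mul_le_mul_of_nonneg_left h2 hp0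
        linarith
      rw [ha2] at hG2
      linarith
    · -- δ = -1, γ = 1
      have hγ1 : γ = 1 := by rw [hγδ]; norm_num
      subst hγ1
      have hK : ((p : ℤ) - 1) * 1 + (-1) * e = e := by
        rw [hpe]
        ring
      rw [hK] at G1 G2
      have hM1 : (M1 : ℤ) = 0 := by
        by_contra hne
        have h2 : (1 : ℤ) ≤ M1 := by omega
        have h3 : (p : ℤ) * 1 ≤ p * M1 := mul_le_mul_of_nonneg_left h2 hp0
        have h4 := mge hθZ (show (0 : ℤ) ≤ (p : ℤ) * M1 + e by linarith)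
        linarith
      rw [hM1] at G1
      have hθ1' : (θ1 : ℤ) = 1 := by
        by_contra hne
        have h2 : (2 : ℤ) ≤ θ1 := by omega
        have h4 := tge h2 (show (0 : ℤ) ≤ (p : ℤ) * 0 + e by linarith)
        linarith
      rw [hθ1'] at G2
      have hG2 : (p : ℤ) * a = p - 2 - f := by
        rw [hfZ]
        linarith
      have ha : (a : ℤ) = 0 := by
        by_contra hne
        have h2 : (1 : ℤ) ≤ a := by omega
        have h3 : (p : ℤ) * 1 ≤ p * a := mul_le_mul_of_nonneg_left h2 hp0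
        linarith
      rw [ha, mul_zero] at hG2
      have hfp : f + 2 = p := by
        have : ((f + 2 : ℕ) : ℤ) = p := by
          push_cast
          linarith
        exact_mod_cast this
      have hf2 : f ∣ p - 2 := ⟨1, by omega⟩
      have hf3 : f ∣ (p - 1) - (p - 2) := Nat.dvd_sub hf hf2
      have h1 : (p - 1) - (p - 2) = 1 := by omega
      rw [h1] at hf3
      have hf1 : f = 1 := Nat.dvd_one.mp hf3
      omega

/-- `|N_G(P) : C_G(P)|` divides `p - 1`. -/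
theorem relIndex_dvd {G : Type u} [Group G] [Finite G] {p : ℕ} [Fact p.Prime] (P : Sylow p G)
    (hP : Nat.card P = p) :
    (Subgroup.centralizer ((P : Subgroup G) : Set G)).relIndex
      (Subgroup.normalizer ((P : Subgroup G) : Set G)) ∣ p - 1 := by
  have hp : p.Prime := Fact.out
  have hP' : Nat.card ↥(P : Subgroup G) = p := hP
  have hcyc : IsCyclic ↥(P : Subgroup G) := isCyclic_of_prime_card hP'
  have h1 : Nat.card (MulAut ↥(P : Subgroup G)) = p - 1 := by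
    rw [IsCyclic.card_mulAut, hP', Nat.totient_prime hp]
  have hker := Subgroup.normalizerMonoidHom_ker (P : Subgroup G)
  rw [Subgroup.relIndex, ← hker, Subgroup.index_ker, ← h1]
  exact Subgroup.card_subgroup_dvd_card _

variable {G : Type u} [Group G]

section Core

variable {p : ℕ} [Fact p.Prime] [Fintype G] (P : Sylow p G) (hP : Nat.card P = p)

local notation "𝐂" => Subgroup.centralizer ((P : Subgroup G) : Set G)
local notation "𝐍" => Subgroup.normalizer ((P : Subgroup G) : Set G)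

variable [Fintype ↥(Subgroup.centralizer ((P : Subgroup G) : Set G))] [Fintype ↥(P : Subgroup G)]
  (π : ↥(Subgroup.centralizer ((P : Subgroup G) : Set G)) →* ↥(P : Subgroup G))
  (hπP : ∀ c : ↥(Subgroup.centralizer ((P : Subgroup G) : Set G)),
    (c : G) ∈ (P : Subgroup G) → ((π c : ↥(P : Subgroup G)) : G) = (c : G))
  (hπreg : ∀ c : ↥(Subgroup.centralizer ((P : Subgroup G) : Set G)), π c = 1 ↔ ¬ p ∣ orderOf c)

open Classical in
include hP hπP hπreg in
/-- The statement, from the structure of the block of `ξ`. -/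
theorem res_aux [Fintype (IrrCharacter G)] [Fintype (IrrCharacter ↥𝐂)]
    [Fintype (↥(P : Subgroup G) →* ℂˣ)] [Fintype ↥𝐍]
    (M : Ideal AlgInt) (hM : IsPModular p M)
    (B : Set (IrrCharacter G)) (hB : IsPBlock M B) (hBP : IsDefectGroup p M B P)
    (b : Set (IrrCharacter ↥𝐂)) (hind : IsInducedBlock M 𝐂 b B)
    (θ : IrrCharacter ↥𝐂) (hθ : θ ∈ b)
    (hθP : ∀ x : ↥𝐂, (x : G) ∈ (P : Subgroup G) → (θ : ↥𝐂 → ℂ) x = (θ : ↥𝐂 → ℂ) 1)
    (T : Subgroup G)
    (hT : ∀ g : G, g ∈ T ↔ (g ∈ 𝐍 ∧ ∀ c c' : ↥𝐂, (c' : G) = g * c * g⁻¹ →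
      (θ : ↥𝐂 → ℂ) c' = (θ : ↥𝐂 → ℂ) c))
    (e : ℕ) (he : (Subgroup.centralizer ((P : Subgroup G) : Set G)).relIndex T = e)
    (hlow : e + (p - 1) / e ≤ Nat.card B)
    (ξ : IrrCharacter G) (hξB : ξ ∈ B)
    (hp5 : 5 < p) (hdeg : charDegree (ξ : G → ℂ) = p - 2)
    (hfaith : ∀ g : G, (ξ : G → ℂ) g = (ξ : G → ℂ) 1 → g = 1)
    (hnn : ¬ (P : Subgroup G).Normal)
    (hfdvd : (Subgroup.centralizer ((P : Subgroup G) : Set G)).relIndex
      (Subgroup.normalizer ((P : Subgroup G) : Set G)) ∣ p - 1) :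
    S4705Stmt.CentReg G p P ∧ S4705Stmt.ValP2 G p P (ξ : G → ℂ) := by
  have hp : p.Prime := Fact.out
  have hp2 : 2 ≤ p := le_trans (by norm_num) hp5.le
  have hPab : ∀ a ∈ (P : Subgroup G), ∀ b ∈ (P : Subgroup G), a * b = b * a :=
    fun a ha b hb => comm_of_mem P hP ha hb
  have hcardΨ : Fintype.card (↥(P : Subgroup G) →* ℂˣ) = p := by
    rw [← Nat.card_eq_fintype_card, Cfsg.Agent.S1507.card_hom_sub (P : Subgroup G) hPab]
    exact hP
  obtain ⟨D, X, Y, Γ, δs, hD, hv0, hnv, hdvd, hcardB, hBXY, hdisj, hX, hY, hXΓ, hcase, -, -, -⟩ :=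
    Cfsg.Agent.Lib.Helper80.DefOneFull.structure_full P hP M hM π hπP hπreg B hB hBP b hind θ hθ
      hθP T hT e he hlow
      (fun χ u hu => Cfsg.Agent.Lib.Helper74.DefOneRow1.value_eq_sum P hP π hπP hπreg
        (χ : G → ℂ) (Orth.irr_isClassFunction χ) u hu)
  -- multiplicities
  have hres : IsCharacter ↥𝐂 (fun c : ↥𝐂 => (ξ : G → ℂ) (c : G)) :=
    Ops.isCharacter_restrict _ (isCharacter_of_irr ξ.2)
  have hirr : ∀ ψ : ↥(P : Subgroup G) →* ℂˣ,
      IsIrrCharacter ↥𝐂 ((fun c : ↥𝐂 => ((ψ (π c) : ℂˣ) : ℂ)) * (θ : ↥𝐂 → ℂ)) := fun ψ =>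
    LinChar.isIrrCharacter_linear_mul (LinChar.isCharacter_of_hom (ψ.comp π)) (by simp) θ.2
  have hm : ∀ ψ : ↥(P : Subgroup G) →* ℂˣ, ∃ m : ℕ,
      classInner (fun c : ↥𝐂 => (ξ : G → ℂ) (c : G))
        ((fun c : ↥𝐂 => ((ψ (π c) : ℂˣ) : ℂ)) * (θ : ↥𝐂 → ℂ)) = m := fun ψ =>
    Clifford.classInner_char_nat hres (isCharacter_of_irr (hirr ψ))
  choose m hm using hm
  have hone : (fun c : ↥𝐂 => (((1 : ↥(P : Subgroup G) →* ℂˣ) (π c) : ℂˣ) : ℂ)) *
      (θ : ↥𝐂 → ℂ) = (θ : ↥𝐂 → ℂ) := by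
    funext c
    simp
  have hcolm : ∀ ψ : ↥(P : Subgroup G) →* ℂˣ, D ψ ξ = (m ψ : ℤ) - (m 1 : ℤ) := by
    intro ψ
    have e1 : col P π (θ : ↥𝐂 → ℂ) ψ (ξ : G → ℂ) =
        classInner (fun c : ↥𝐂 => (ξ : G → ℂ) (c : G))
          ((fun c : ↥𝐂 => ((ψ (π c) : ℂˣ) : ℂ)) * (θ : ↥𝐂 → ℂ)) -
          classInner (fun c : ↥𝐂 => (ξ : G → ℂ) (c : G)) (θ : ↥𝐂 → ℂ) := by
      unfold col Cfsg.Agent.Lib.Helper80.DefOneCol.alpha classInner
      rw [← mul_sub, ← Finset.sum_sub_distrib]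
      congr 1
      refine Finset.sum_congr rfl fun c _ => ?_
      rw [Pi.mul_apply, map_sub]
      ring
    have e2 := hm 1
    rw [hone] at e2
    rw [hD, hm ψ, e2] at e1
    exact_mod_cast e1
  -- the irreducible characters `(ψ ∘ π) θ`
  obtain ⟨φψ, hφψ⟩ : ∃ φψ : (↥(P : Subgroup G) →* ℂˣ) → IrrCharacter ↥𝐂, ∀ ψ,
      ((φψ ψ : IrrCharacter ↥𝐂) : ↥𝐂 → ℂ) =
        (fun c : ↥𝐂 => ((ψ (π c) : ℂˣ) : ℂ)) * (θ : ↥𝐂 → ℂ) :=
    ⟨fun ψ => ⟨_, hirr ψ⟩, fun ψ => rfl⟩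
  have hθ1 : (θ : ↥𝐂 → ℂ) 1 ≠ 0 := by
    rw [← char_natCast_charDegree (isCharacter_of_irr θ.2)]
    exact Nat.cast_ne_zero.mpr (irr_charDegree_pos θ.2).ne'
  have hinj : Function.Injective φψ := by
    intro ψ ψ' h
    refine MonoidHom.ext fun z => Units.ext ?_
    have h1 := congrFun (congrArg (fun φ : IrrCharacter ↥𝐂 => (φ : ↥𝐂 → ℂ)) h) (inc P hP z)
    simp only [hφψ, Pi.mul_apply] at h1
    rw [proj_inc P hP π hπP z] at h1
    exact mul_right_cancel₀ (by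
      rw [hθP (inc P hP z) z.2]
      exact hθ1) h1
  obtain ⟨θ1, hθ1def⟩ : ∃ θ1 : ℕ, θ1 = charDegree (θ : ↥𝐂 → ℂ) := ⟨_, rfl⟩
  have hθ1pos : 1 ≤ θ1 := by
    rw [hθ1def]
    exact irr_charDegree_pos θ.2
  have hdφ : ∀ ψ : ↥(P : Subgroup G) →* ℂˣ,
      charDegree ((φψ ψ : IrrCharacter ↥𝐂) : ↥𝐂 → ℂ) = θ1 := by
    intro ψ
    have h1 := char_natCast_charDegree (isCharacter_of_irr (φψ ψ).2)
    have h2 := char_natCast_charDegree (isCharacter_of_irr θ.2)
    have h3 : ((φψ ψ : IrrCharacter ↥𝐂) : ↥𝐂 → ℂ) 1 = (θ : ↥𝐂 → ℂ) 1 := by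
      rw [hφψ]
      simp
    rw [h3, ← h2] at h1
    rw [hθ1def]
    exact_mod_cast h1
  have hdC : charDegree (fun c : ↥𝐂 => (ξ : G → ℂ) (c : G)) = p - 2 := by
    have h1 := char_natCast_charDegree hres
    have h2 := char_natCast_charDegree (isCharacter_of_irr ξ.2)
    rw [Subgroup.coe_one, ← h2] at h1
    rw [← hdeg]
    exact_mod_cast h1
  -- the degree count
  have hF2 : θ1 * ∑ ψ : ↥(P : Subgroup G) →* ℂˣ, m ψ ≤ p - 2 := by
    have hmm : ∀ φ : IrrCharacter ↥𝐂, ∃ k : ℕ,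
        classInner (fun c : ↥𝐂 => (ξ : G → ℂ) (c : G)) (φ : ↥𝐂 → ℂ) = k := fun φ =>
      Clifford.classInner_char_nat hres (isCharacter_of_irr φ.2)
    choose mm hmm using hmm
    have hde := Cfsg.Agent.Lib.Helper67.BrL24.degree_expand
      (fun c : ↥𝐂 => (ξ : G → ℂ) (c : G)) hres mm hmm
    have hsub : ∑ φ ∈ Finset.univ.image φψ, mm φ * charDegree (φ : ↥𝐂 → ℂ) ≤
        ∑ φ : IrrCharacter ↥𝐂, mm φ * charDegree (φ : ↥𝐂 → ℂ) :=
      Finset.sum_le_sum_of_subset (Finset.subset_univ _)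
    rw [Finset.sum_image (fun a _ b _ hab => hinj hab)] at hsub
    have h2 : ∀ ψ : ↥(P : Subgroup G) →* ℂˣ,
        mm (φψ ψ) * charDegree ((φψ ψ : IrrCharacter ↥𝐂) : ↥𝐂 → ℂ) = θ1 * m ψ := by
      intro ψ
      have h3 : mm (φψ ψ) = m ψ := by
        have h4 := hmm (φψ ψ)
        rw [hφψ, hm ψ] at h4
        exact_mod_cast h4.symm
      rw [h3, hdφ, mul_comm]
    rw [Finset.sum_congr rfl (fun ψ _ => h2 ψ), ← Finset.mul_sum] at hsub
    omega
  obtain ⟨K, hKdef⟩ : ∃ K : ℤ, K = ∑ ψ : ↥(P : Subgroup G) →* ℂˣ,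
      (if ψ = 1 then 0 else D ψ ξ) := ⟨_, rfl⟩
  have hsumm : ((∑ ψ : ↥(P : Subgroup G) →* ℂˣ, m ψ : ℕ) : ℤ) = (p : ℤ) * (m 1 : ℤ) + K := by
    have h1 : ∀ ψ : ↥(P : Subgroup G) →* ℂˣ,
        ((m ψ : ℕ) : ℤ) = (m 1 : ℤ) + (if ψ = 1 then 0 else D ψ ξ) := by
      intro ψ
      by_cases h : ψ = 1
      · rw [if_pos h, h, add_zero]
      · rw [if_neg h, hcolm ψ]
        ring
    rw [Nat.cast_sum, Finset.sum_congr rfl (fun ψ _ => h1 ψ), Finset.sum_add_distrib,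
      Finset.sum_const, Finset.card_univ, hcardΨ, hKdef, nsmul_eq_mul]
  have hG1 : (θ1 : ℤ) * ((p : ℤ) * (m 1 : ℤ) + K) ≤ (p : ℤ) - 2 := by
    have h1 : ((θ1 * ∑ ψ : ↥(P : Subgroup G) →* ℂˣ, m ψ : ℕ) : ℤ) ≤ ((p - 2 : ℕ) : ℤ) := by
      exact_mod_cast hF2
    rw [Nat.cast_mul, hsumm] at h1
    have h2 : ((p - 2 : ℕ) : ℤ) = (p : ℤ) - 2 := by
      rw [Nat.cast_sub hp2]
      norm_num
    rw [h2] at h1
    exact h1
  -- the sum over `P`
  have hS := sum_ne_one P hP π hπP hπreg M hM B hB hBP b hind θ hθ hθP ξ hξB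
  have hKc : ∑ ψ : ↥(P : Subgroup G) →* ℂˣ,
      (if ψ = 1 then (0 : ℂ) else col P π (θ : ↥𝐂 → ℂ) ψ (ξ : G → ℂ)) = ((K : ℤ) : ℂ) := by
    rw [hKdef, Int.cast_sum]
    refine Finset.sum_congr rfl fun ψ _ => ?_
    by_cases h : ψ = 1
    · rw [if_pos h, if_pos h, Int.cast_zero]
    · rw [if_neg h, if_neg h, hD]
  rw [hKc] at hS
  have hqe : Nat.card {φ : IrrCharacter ↥𝐂 //
      ∃ n : ↥𝐍, conjTh P (θ : ↥𝐂 → ℂ) n = (φ : ↥𝐂 → ℂ)} * e =
      (Subgroup.centralizer ((P : Subgroup G) : Set G)).relIndex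
        (Subgroup.normalizer ((P : Subgroup G) : Set G)) := by
    have hcl : IsClassFunction ↥𝐂 (θ : ↥𝐂 → ℂ) := Orth.irr_isClassFunction θ
    have hCT := centralizer_le_stab P hcl T hT
    have hCN : 𝐂 ≤ 𝐍 := Subgroup.centralizer_le_normalizer _
    have h1 := card_orb P θ
    rw [card_stab P (θ : ↥𝐂 → ℂ) T hT, Cfsg.Agent.Lib.Helper76.PSolv.card_eq_card_mul_relIndex hCN,
      Cfsg.Agent.Lib.Helper76.PSolv.card_eq_card_mul_relIndex hCT, he] at h1
    have hCpos : 0 < Nat.card ↥𝐂 := Nat.card_pos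
    have h2 : Nat.card ↥𝐂 * (Nat.card {φ : IrrCharacter ↥𝐂 //
        ∃ n : ↥𝐍, conjTh P (θ : ↥𝐂 → ℂ) n = (φ : ↥𝐂 → ℂ)} * e) = Nat.card ↥𝐂 *
        (Subgroup.centralizer ((P : Subgroup G) : Set G)).relIndex
          (Subgroup.normalizer ((P : Subgroup G) : Set G)) := by
      rw [h1]
      ring
    exact Nat.eq_of_mul_eq_mul_left hCpos h2
  obtain ⟨wo, hwo⟩ : ∃ wo : ℕ, wo = Nat.card {φ : IrrCharacter ↥𝐂 //
      ∃ n : ↥𝐍, conjTh P (θ : ↥𝐂 → ℂ) n = (φ : ↥𝐂 → ℂ)} := ⟨_, rfl⟩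
  rw [← hwo] at hS hqe
  obtain ⟨f, hf⟩ : ∃ f : ℕ, f = (Subgroup.centralizer ((P : Subgroup G) : Set G)).relIndex
      (Subgroup.normalizer ((P : Subgroup G) : Set G)) := ⟨_, rfl⟩
  rw [← hf] at hqe hfdvd
  have hp1pos : 0 < p - 1 := by omega
  have hfpos : 0 < f := by
    rcases Nat.eq_zero_or_pos f with h | h
    · rw [h] at hfdvd
      have := Nat.eq_zero_of_zero_dvd hfdvd
      omega
    · exact h
  have hwo1 : 1 ≤ wo := by
    rcases Nat.eq_zero_or_pos wo with h | h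
    · rw [h, zero_mul] at hqe
      omega
    · exact h
  have htot : ∑ w : ↥(P : Subgroup G), (ξ : G → ℂ) (w : G) =
      (ξ : G → ℂ) 1 - (θ : ↥𝐂 → ℂ) 1 * (wo : ℂ) * ((K : ℤ) : ℂ) := by
    have h1 : ∀ w : ↥(P : Subgroup G), (ξ : G → ℂ) (w : G) =
        (if w = 1 then 0 else (ξ : G → ℂ) (w : G)) +
          (if w = 1 then (ξ : G → ℂ) 1 else 0) := by
      intro w
      by_cases hw : w = 1
      · rw [if_pos hw, if_pos hw, hw, Subgroup.coe_one, zero_add]
      · rw [if_neg hw, if_neg hw, add_zero]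
    rw [Finset.sum_congr rfl (fun w _ => h1 w), Finset.sum_add_distrib, hS,
      Finset.sum_ite_eq' Finset.univ (1 : ↥(P : Subgroup G)), if_pos (Finset.mem_univ _)]
    ring
  obtain ⟨a, ha, hF4⟩ : ∃ a : ℕ, ∑ w : ↥(P : Subgroup G), (ξ : G → ℂ) (w : G) = (p : ℂ) * a ∧
      a ≤ p - 2 := by
    have hresP : IsCharacter ↥(P : Subgroup G) (fun w : ↥(P : Subgroup G) => (ξ : G → ℂ) (w : G)) :=
      Ops.isCharacter_restrict (P : Subgroup G) (isCharacter_of_irr ξ.2)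
    obtain ⟨a, ha⟩ := Clifford.classInner_char_nat hresP
      (isCharacter_of_irr (Ops.isIrrCharacter_one (G := ↥(P : Subgroup G))))
    refine ⟨a, ?_, ?_⟩
    · unfold classInner at ha
      have hP' : (Nat.card ↥(P : Subgroup G) : ℂ) = (p : ℂ) := by
        have : Nat.card ↥(P : Subgroup G) = p := hP
        rw [this]
      have hp0 : (p : ℂ) ≠ 0 := Nat.cast_ne_zero.mpr hp.ne_zero
      rw [hP'] at ha
      simp only [map_one, mul_one] at ha
      rw [← ha]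
      field_simp
    · have hle := Cfsg.Agent.Lib.Helper67.BrL24.sum_inner_le_degree
        (fun w : ↥(P : Subgroup G) => (ξ : G → ℂ) (w : G)) hresP
        {(⟨_, Ops.isIrrCharacter_one (G := ↥(P : Subgroup G))⟩ : IrrCharacter ↥(P : Subgroup G))}
      rw [Finset.sum_singleton, ha] at hle
      have hdP : charDegree (fun w : ↥(P : Subgroup G) => (ξ : G → ℂ) (w : G)) = p - 2 := by
        have h1 := char_natCast_charDegree hresP
        have h2 := char_natCast_charDegree (isCharacter_of_irr ξ.2)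
        rw [Subgroup.coe_one, ← h2] at h1
        rw [← hdeg]
        exact_mod_cast h1
      rw [hdP] at hle
      simp only [Complex.natCast_re] at hle
      exact_mod_cast hle
  have hF3 : (p : ℤ) * (a : ℤ) = (p : ℤ) - 2 - (θ1 : ℤ) * (wo : ℤ) * K := by
    rw [ha, ← char_natCast_charDegree (isCharacter_of_irr ξ.2),
      ← char_natCast_charDegree (isCharacter_of_irr θ.2), hdeg, ← hθ1def] at htot
    have h2 : ((p - 2 : ℕ) : ℂ) = (p : ℂ) - 2 := by
      rw [Nat.cast_sub hp2]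
      norm_num
    rw [h2] at htot
    exact_mod_cast htot
  -- the end of the degenerate cases
  have hend : θ1 = p - 2 → ∀ ψ : ↥(P : Subgroup G) →* ℂˣ, m ψ = 0 := by
    intro hθe ψ'
    by_contra hne
    obtain ⟨hval, -⟩ := Cfsg.Agent.Lib.Helper67.BrL24.eq_sum_of_degree_le
      (fun c : ↥𝐂 => (ξ : G → ℂ) (c : G)) hres {φψ ψ'}
      (by
        intro φ hφ
        rw [Finset.mem_singleton] at hφ
        rw [hφ, hφψ, hm ψ']
        exact_mod_cast hne)
      (by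
        rw [Finset.sum_singleton, hdφ, hdC, hθe])
    apply hnn
    have hcen : ∀ x ∈ (P : Subgroup G), x ∈ Subgroup.center G := by
      intro x hx
      apply Cfsg.Agent.Lib.CT.Kernel.mem_center_of_norm_eq (isCharacter_of_irr ξ.2) hfaith
      have h1 := hval (inc P hP ⟨x, hx⟩)
      rw [Finset.sum_singleton, hφψ] at h1
      simp only [Pi.mul_apply] at h1
      rw [proj_inc P hP π hπP ⟨x, hx⟩, hθP (inc P hP ⟨x, hx⟩) hx] at h1
      have h2 : (ξ : G → ℂ) x = ((ψ' ⟨x, hx⟩ : ℂˣ) : ℂ) * (θ : ↥𝐂 → ℂ) 1 := h1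
      have hn1 : ‖((ψ' ⟨x, hx⟩ : ℂˣ) : ℂ)‖ = 1 :=
        LinChar.linear_norm (LinChar.isCharacter_of_hom ψ') (by simp) ⟨x, hx⟩
      rw [h2, norm_mul, hn1, one_mul, ← char_natCast_charDegree (isCharacter_of_irr θ.2),
        ← char_natCast_charDegree (isCharacter_of_irr ξ.2), ← hθ1def, hθe, hdeg]
      simp
    exact ⟨fun n hn g => by
      have h := Subgroup.mem_center_iff.mp (hcen n hn) g
      rw [h, mul_inv_cancel_right]
      exact hn⟩
  obtain ⟨ψne, hψne⟩ : ∃ ψ : ↥(P : Subgroup G) →* ℂˣ, ψ ≠ 1 :=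
    Fintype.exists_ne_of_one_lt_card (by rw [hcardΨ]; omega) 1
  -- constant columns are impossible
  have hconst : ∀ c : ℤ, (c = 1 ∨ c = -1) →
      (∀ ψ : ↥(P : Subgroup G) →* ℂˣ, ψ ≠ 1 → D ψ ξ = c) → False := by
    intro c hc hcD
    have hK : K = ((p : ℤ) - 1) * c := by
      rw [hKdef]
      have h1 : ∀ ψ : ↥(P : Subgroup G) →* ℂˣ,
          (if ψ = 1 then (0 : ℤ) else D ψ ξ) = c - (if ψ = 1 then c else 0) := by
        intro ψ
        by_cases h : ψ = 1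
        · rw [if_pos h, if_pos h, sub_self]
        · rw [if_neg h, if_neg h, sub_zero, hcD ψ h]
      rw [Finset.sum_congr rfl (fun ψ _ => h1 ψ), Finset.sum_sub_distrib, Finset.sum_const,
        Finset.card_univ, hcardΨ, Finset.sum_ite_eq' Finset.univ (1 : ↥(P : Subgroup G) →* ℂˣ),
        if_pos (Finset.mem_univ _), nsmul_eq_mul]
      ring
    have hG5 : 0 ≤ (m 1 : ℤ) + c := by
      have h1 := hcolm ψne
      rw [hcD ψne hψne] at h1
      have h2 : (0 : ℤ) ≤ (m ψne : ℤ) := by positivity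
      linarith
    rw [hK] at hG1 hF3
    obtain ⟨h1, h2⟩ := arith_const p θ1 wo f a (m 1) c hp5 hc hθ1pos hwo1 ⟨e, hqe.symm⟩ hfdvd
      hG1 hF3 hF4 hG5
    have h3 := hend h1 1
    omega
  by_cases hx : ξ ∈ X
  · exact (hconst (Γ ξ) (hXΓ ξ hx).1 (hXΓ ξ hx).2).elim
  have hy : ξ ∈ Y := by
    rw [hBXY] at hξB
    exact hξB.resolve_left hx
  rcases hcase with ⟨δ, γ, ζ, hδ, hε, hζY, hYζ, hform⟩ | ⟨-, η₀, hYη, hΓη, hconstη⟩
  swap
  · rw [hYη] at hy
    have hξη : ξ = η₀ := hy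
    rw [← hξη] at hΓη hconstη
    exact (hconst (Γ ξ) hΓη hconstη).elim
  have hDξ : ∀ ψ : ↥(P : Subgroup G) →* ℂˣ, ψ ≠ 1 →
      D ψ ξ = γ + δ * (if ξ = ζ ψ then 1 else 0) := by
    intro ψ hψ
    rw [hform ψ hψ ξ, Set.indicator_of_notMem hx, Set.indicator_of_mem hy, zero_add]
  obtain ⟨ψ₀, hψ₀, hζ₀⟩ := hYζ ξ hy
  -- the fibres of `ζ`
  have hgram : ∀ ψ ψ' : ↥(P : Subgroup G) →* ℂˣ, ψ ≠ 1 → ψ' ≠ 1 →
      ∑ χ : IrrCharacter G, D ψ χ * D ψ' χ =
        (e : ℤ) + (if RelS P (θ : ↥𝐂 → ℂ) ψ ψ' then 1 else 0) := by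
    intro ψ ψ' hψ hψ'
    have h := gram_T P hP π hπP hπreg θ.2 hθP T hT ψ ψ' hψ hψ'
    rw [he] at h
    simp_rw [hD] at h
    by_cases hR : RelS P (θ : ↥𝐂 → ℂ) ψ ψ'
    · rw [if_pos hR] at h ⊢
      exact_mod_cast h
    · rw [if_neg hR] at h ⊢
      exact_mod_cast h
  have hδ2 : δ * δ = 1 := by
    rcases hδ with h | h <;> rw [h] <;> norm_num
  have hrel : ∀ ψ ψ' : ↥(P : Subgroup G) →* ℂˣ, ψ ≠ 1 → ψ' ≠ 1 →
      (RelS P (θ : ↥𝐂 → ℂ) ψ ψ' ↔ ζ ψ' = ζ ψ) := by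
    intro ψ ψ' hψ hψ'
    have h1 := hgram ψ ψ' hψ hψ'
    have h2 := hgram ψ ψ hψ hψ
    rw [if_pos (relS_refl P _ ψ)] at h2
    have h3 : ∀ χ : IrrCharacter G, D ψ χ * D ψ' χ = D ψ χ * D ψ χ +
        δ * (if χ = ζ ψ' then D ψ χ else 0) - δ * (if χ = ζ ψ then D ψ χ else 0) := by
      intro χ
      have hdiff : D ψ' χ = D ψ χ +
          δ * ((if χ = ζ ψ' then 1 else 0) - (if χ = ζ ψ then 1 else 0)) := by
        rw [hform ψ' hψ' χ, hform ψ hψ χ]
        ring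
      have e1 : (if χ = ζ ψ' then D ψ χ else 0) = D ψ χ * (if χ = ζ ψ' then 1 else 0) := by
        rw [mul_ite, mul_one, mul_zero]
      have e2 : (if χ = ζ ψ then D ψ χ else 0) = D ψ χ * (if χ = ζ ψ then 1 else 0) := by
        rw [mul_ite, mul_one, mul_zero]
      rw [e1, e2, hdiff]
      ring
    have h4 : ∑ χ : IrrCharacter G, D ψ χ * D ψ' χ =
        (e : ℤ) + 1 + δ * D ψ (ζ ψ') - δ * D ψ (ζ ψ) := by
      rw [Finset.sum_congr rfl (fun χ _ => h3 χ), Finset.sum_sub_distrib, Finset.sum_add_distrib,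
        h2, ← Finset.mul_sum, ← Finset.mul_sum, Finset.sum_ite_eq' Finset.univ (ζ ψ'),
        Finset.sum_ite_eq' Finset.univ (ζ ψ), if_pos (Finset.mem_univ _),
        if_pos (Finset.mem_univ _)]
    have h5 : D ψ (ζ ψ') = γ + δ * (if ζ ψ' = ζ ψ then 1 else 0) := by
      have hY' := hζY ψ' hψ'
      have hX' : ζ ψ' ∉ X := fun h => Set.disjoint_left.mp hdisj h hY'
      rw [hform ψ hψ, Set.indicator_of_notMem hX', Set.indicator_of_mem hY', zero_add]
    have h6 : D ψ (ζ ψ) = γ + δ := by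
      have hY' := hζY ψ hψ
      have hX' : ζ ψ ∉ X := fun h => Set.disjoint_left.mp hdisj h hY'
      rw [hform ψ hψ, Set.indicator_of_notMem hX', Set.indicator_of_mem hY', zero_add,
        if_pos rfl, mul_one]
    rw [h4, h5, h6] at h1
    by_cases hR : RelS P (θ : ↥𝐂 → ℂ) ψ ψ'
    · rw [if_pos hR] at h1
      refine ⟨fun _ => ?_, fun _ => hR⟩
      by_contra hne
      rw [if_neg hne] at h1
      have h7 : δ * δ = 0 := by linear_combination -h1
      rw [hδ2] at h7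
      exact one_ne_zero h7
    · rw [if_neg hR] at h1
      refine ⟨fun h => absurd h hR, fun hz => ?_⟩
      rw [if_pos hz] at h1
      exfalso
      have h7 : (1 : ℤ) = 0 := by linear_combination h1
      exact one_ne_zero h7
  have hZcard : (Finset.univ.filter
      (fun ψ : ↥(P : Subgroup G) →* ℂˣ => ψ ≠ 1 ∧ ζ ψ = ξ)).card = e := by
    have h1 := card_class_T P hP θ.2 T hT ψ₀ hψ₀
    rw [he, Nat.card_eq_fintype_card, Fintype.card_subtype] at h1
    rw [← h1]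
    congr 1
    ext ψ
    simp only [Finset.mem_filter, Finset.mem_univ, true_and]
    constructor
    · rintro ⟨hψ, hz⟩
      exact (hrel ψ₀ ψ hψ₀ hψ).mpr (by rw [hz, hζ₀])
    · intro hR
      have hψ := relS_ne P hψ₀ hR
      exact ⟨hψ, by rw [(hrel ψ₀ ψ hψ₀ hψ).mp hR, hζ₀]⟩
  have hepos : 0 < e := by
    rw [← hZcard]
    exact Finset.card_pos.mpr ⟨ψ₀, Finset.mem_filter.mpr ⟨Finset.mem_univ _, hψ₀, hζ₀⟩⟩
  by_cases hall : ∀ ψ : ↥(P : Subgroup G) →* ℂˣ, ψ ≠ 1 → ζ ψ = ξ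
  · exfalso
    have hep : e = p - 1 := by
      rw [← hZcard]
      have h2 : Finset.univ.filter (fun ψ : ↥(P : Subgroup G) →* ℂˣ => ψ ≠ 1 ∧ ζ ψ = ξ) =
          Finset.univ.erase (1 : ↥(P : Subgroup G) →* ℂˣ) := by
        ext ψ
        simp only [Finset.mem_erase, Finset.mem_univ, and_true, Finset.mem_filter, true_and]
        exact ⟨fun h => h.1, fun h => ⟨h, hall ψ h⟩⟩
      rw [h2, Finset.card_erase_of_mem (Finset.mem_univ _), Finset.card_univ, hcardΨ]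
    have hdiv1 : (p - 1) / e = 1 := by
      rw [hep]
      exact Nat.div_self hp1pos
    rw [hdiv1] at hε
    refine hconst (γ + δ) ?_ (fun ψ hψ => ?_)
    · rcases hε with h | h
      · left
        push_cast at h
        linarith
      · right
        push_cast at h
        linarith
    · rw [hDξ ψ hψ, if_pos (hall ψ hψ).symm, mul_one]
  push Not at hall
  obtain ⟨ψ₁, hψ₁, hζ₁⟩ := hall
  have he2 : 2 * e ≤ p - 1 := by
    have hlt : e < p - 1 := by
      rw [← hZcard]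
      have hsub : Finset.univ.filter (fun ψ : ↥(P : Subgroup G) →* ℂˣ => ψ ≠ 1 ∧ ζ ψ = ξ) ⊆
          (Finset.univ.erase 1).erase ψ₁ := by
        intro ψ hψ
        rw [Finset.mem_filter] at hψ
        refine Finset.mem_erase.mpr ⟨?_, Finset.mem_erase.mpr ⟨hψ.2.1, Finset.mem_univ _⟩⟩
        rintro rfl
        exact hζ₁ hψ.2.2
      have h := Finset.card_le_card hsub
      rw [Finset.card_erase_of_mem (Finset.mem_erase.mpr ⟨hψ₁, Finset.mem_univ _⟩),
        Finset.card_erase_of_mem (Finset.mem_univ _), Finset.card_univ, hcardΨ] at h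
      have := hp.two_le
      omega
    obtain ⟨k, hk⟩ := hdvd
    rcases k with _ | _ | k
    · rw [hk] at hlt
      omega
    · rw [hk] at hlt
      omega
    · rw [hk]
      have : e * (k + 1 + 1) = e * k + 2 * e := by ring
      omega
  have hmV : ∀ ψ : ↥(P : Subgroup G) →* ℂˣ, ψ ≠ 1 → ζ ψ ≠ ξ →
      (m ψ : ℤ) = (m 1 : ℤ) + γ := by
    intro ψ hψ hz
    have h := hcolm ψ
    rw [hDξ ψ hψ, if_neg (fun h => hz h.symm), mul_zero, add_zero] at h
    linarith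
  have hmZ : ∀ ψ : ↥(P : Subgroup G) →* ℂˣ, ψ ≠ 1 → ζ ψ = ξ →
      (m ψ : ℤ) = (m 1 : ℤ) + γ + δ := by
    intro ψ hψ hz
    have h := hcolm ψ
    rw [hDξ ψ hψ, if_pos hz.symm, mul_one] at h
    linarith
  have hK : K = ((p : ℤ) - 1) * γ + δ * (e : ℤ) := by
    rw [hKdef]
    have h1 : ∀ ψ : ↥(P : Subgroup G) →* ℂˣ, (if ψ = 1 then (0 : ℤ) else D ψ ξ) =
        (γ - (if ψ = 1 then γ else 0)) + δ * (if ψ ≠ 1 ∧ ζ ψ = ξ then 1 else 0) := by
      intro ψ
      by_cases h : ψ = 1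
      · rw [if_pos h, if_pos h, sub_self, if_neg (fun hh => hh.1 h)]
        ring
      · rw [if_neg h, if_neg h, sub_zero, hDξ ψ h]
        by_cases hz : ζ ψ = ξ
        · rw [if_pos hz.symm, if_pos ⟨h, hz⟩]
        · rw [if_neg (fun hh => hz hh.symm), if_neg (fun hh => hz hh.2)]
    rw [Finset.sum_congr rfl (fun ψ _ => h1 ψ), Finset.sum_add_distrib, Finset.sum_sub_distrib,
      Finset.sum_const, Finset.card_univ, hcardΨ,
      Finset.sum_ite_eq' Finset.univ (1 : ↥(P : Subgroup G) →* ℂˣ), if_pos (Finset.mem_univ _),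
      ← Finset.mul_sum, Finset.sum_boole, hZcard, nsmul_eq_mul]
    ring
  have hG5a : 0 ≤ (m 1 : ℤ) + γ := by
    have h1 := hmV ψ₁ hψ₁ hζ₁
    have h2 : (0 : ℤ) ≤ (m ψ₁ : ℤ) := by positivity
    linarith
  have hG5b : 0 ≤ (m 1 : ℤ) + γ + δ := by
    have h1 := hmZ ψ₀ hψ₀ hζ₀
    have h2 : (0 : ℤ) ≤ (m ψ₀ : ℤ) := by positivity
    linarith
  rw [hK] at hG1 hF3
  rcases arith_main p e wo f θ1 a (m 1) γ δ hp5 hdvd he2 hepos hδ hε hqe hfdvd hθ1pos hG1 hF3
    hG5a hG5b with ⟨hγ0, hδ1, hθe, hm1⟩ | ⟨hγ0, hδ1, hθ1eq, he2eq, hwoeq, hm1⟩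
  · exfalso
    have h1 := hend hθe ψ₀
    have h2 := hmZ ψ₀ hψ₀ hζ₀
    rw [hγ0, hδ1, hm1, h1] at h2
    norm_num at h2
  -- the main case
  have hmS : ∀ ψ : ↥(P : Subgroup G) →* ℂˣ, ψ ≠ 1 → ζ ψ ≠ ξ → m ψ = 1 := by
    intro ψ h1 h2
    have h3 := hmV ψ h1 h2
    rw [hγ0, hm1] at h3
    have h4 : ((m ψ : ℕ) : ℤ) = 1 := by
      rw [h3]
      norm_num
    exact_mod_cast h4
  obtain ⟨Sset, hSset⟩ : ∃ S : Finset (↥(P : Subgroup G) →* ℂˣ), S = Finset.univ.filter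
      (fun ψ : ↥(P : Subgroup G) →* ℂˣ => ψ ≠ 1 ∧ ζ ψ = ξ) := ⟨_, rfl⟩
  have hScard : Sset.card = 2 := by rw [hSset, hZcard, he2eq]
  have hmc : ∀ ψ ∈ Ssetᶜ, m ψ = 1 := by
    intro ψ hψ
    rw [Finset.mem_compl, hSset, Finset.mem_filter] at hψ
    by_cases h1 : ψ = 1
    · rw [h1, hm1]
    · exact hmS ψ h1 (fun hz => hψ ⟨Finset.mem_univ _, h1, hz⟩)
  have hθone : (θ : ↥𝐂 → ℂ) 1 = 1 := by
    rw [← char_natCast_charDegree (isCharacter_of_irr θ.2), ← hθ1def, hθ1eq]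
    simp
  obtain ⟨hval, -⟩ := Cfsg.Agent.Lib.Helper67.BrL24.eq_sum_of_degree_le
    (fun c : ↥𝐂 => (ξ : G → ℂ) (c : G)) hres (Ssetᶜ.image φψ)
    (by
      intro φ hφ
      obtain ⟨ψ, hψ, rfl⟩ := Finset.mem_image.mp hφ
      rw [hφψ, hm ψ, hmc ψ hψ]
      norm_num)
    (by
      rw [Finset.sum_image (fun a _ b _ hab => hinj hab),
        Finset.sum_congr rfl (fun ψ _ => hdφ ψ), Finset.sum_const, Finset.card_compl, hScard,
        hcardΨ, hdC, hθ1eq]
      simp)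
  have hval' : ∀ c : ↥𝐂, (ξ : G → ℂ) (c : G) =
      (∑ ψ ∈ Ssetᶜ, ((ψ (π c) : ℂˣ) : ℂ)) * (θ : ↥𝐂 → ℂ) c := by
    intro c
    rw [hval c, Finset.sum_image (fun a _ b _ hab => hinj hab), Finset.sum_mul]
    refine Finset.sum_congr rfl fun ψ _ => ?_
    rw [hφψ]
    rfl
  refine ⟨?_, ?_⟩
  · intro v hv hreg
    have hvC : v ∈ Subgroup.centralizer ((P : Subgroup G) : Set G) := by
      rw [Subgroup.mem_centralizer_iff]
      intro x hx
      exact (hv x hx).symm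
    have hπv : π ⟨v, hvC⟩ = 1 := by
      rw [hπreg]
      have h1 : orderOf (⟨v, hvC⟩ : ↥𝐂) = orderOf v := (Subgroup.orderOf_coe _).symm
      rw [h1]
      exact hreg
    have h1 := hval' ⟨v, hvC⟩
    rw [hπv] at h1
    have h2 : ∑ ψ ∈ Ssetᶜ, ((ψ (1 : ↥(P : Subgroup G)) : ℂˣ) : ℂ) = ((p - 2 : ℕ) : ℂ) := by
      simp only [map_one, Units.val_one, Finset.sum_const, Finset.card_compl, hScard, hcardΨ,
        nsmul_eq_mul, mul_one]
    rw [h2] at h1
    apply Cfsg.Agent.Lib.CT.Kernel.mem_center_of_norm_eq (isCharacter_of_irr ξ.2) hfaith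
    have h3 : (ξ : G → ℂ) v = ((p - 2 : ℕ) : ℂ) * (θ : ↥𝐂 → ℂ) ⟨v, hvC⟩ := h1
    rw [h3, norm_mul, LinChar.linear_norm (isCharacter_of_irr θ.2) hθone ⟨v, hvC⟩, mul_one,
      ← char_natCast_charDegree (isCharacter_of_irr ξ.2), hdeg]
    simp
  · obtain ⟨ψa, ψb, hab, hSab⟩ := Finset.card_eq_two.mp hScard
    have hmema : ψa ∈ Sset := by
      rw [hSab]
      simp
    have hmemb : ψb ∈ Sset := by
      rw [hSab]
      simp
    rw [hSset, Finset.mem_filter] at hmema hmemb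
    refine ⟨ψa, ψb, hmema.2.1, hmemb.2.1, ?_⟩
    intro x hx
    have h1 := hval' (inc P hP x)
    rw [proj_inc P hP π hπP x, hθP (inc P hP x) x.2, hθone, mul_one] at h1
    have h2 := Cfsg.Agent.Lib.Helper25.CyclicTI.sum_hom_sub (P : Subgroup G) hPab x
    rw [if_neg hx, ← Finset.sum_add_sum_compl Sset, hSab, Finset.sum_pair hab] at h2
    rw [hSab] at h1
    have h3 : (ξ : G → ℂ) (x : G) =
        ∑ ψ ∈ ({ψa, ψb} : Finset (↥(P : Subgroup G) →* ℂˣ))ᶜ, ((ψ x : ℂˣ) : ℂ) := h1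
    rw [h3]
    linear_combination h2

end Core

/-- **Piece RES of S4705.** -/
theorem main : S4705Stmt.Res.{u} := by
  intro G _ _ p _ P ζ hHyp
  obtain ⟨hp5, hP, hnn, hirr, hfaith, hdeg⟩ := hHyp
  classical
  have hp : p.Prime := Fact.out
  letI : Fintype ↥(Subgroup.centralizer ((P : Subgroup G) : Set G)) := Fintype.ofFinite _
  obtain ⟨ξ, hξ⟩ : ∃ ξ : IrrCharacter G, (ξ : G → ℂ) = ζ := ⟨⟨ζ, hirr⟩, rfl⟩
  rw [← hξ] at hfaith hdeg ⊢
  obtain ⟨M, hM⟩ := Cfsg.Agent.Lib.CT.Knorr.exists_isPModular p hp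
  have hMp := Cfsg.Agent.Lib.Helper77.LocalRing.isPrime_of_isPModular hM
  have hξpos : 0 < charDegree (ξ : G → ℂ) := irr_charDegree_pos ξ.2
  have hndvd : ¬ p ∣ charDegree (ξ : G → ℂ) := fun h => by
    have := Nat.le_of_dvd hξpos h
    omega
  have hBP := Cfsg.Agent.Lib.Helper74.McKayAB.isDefectGroup_of_not_dvd p M hM P hP ξ hndvd
  have hB : IsPBlock M (blockOf M (ξ : G → ℂ)) :=
    Cfsg.Agent.Lib.CT.DefectZeroBlock.isPBlock_blockOf ξ
  have hξB : ξ ∈ blockOf M (ξ : G → ℂ) :=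
    Cfsg.Agent.Lib.Helper77.DefectClass.self_mem_blockOf hMp ξ
  obtain ⟨θ, hθP, hind⟩ := Cfsg.Agent.Lib.Helper79.McKayCD.exists_root p M hM P hP _ hB hBP
  have hθb : θ ∈ blockOf M (θ : ↥(Subgroup.centralizer ((P : Subgroup G) : Set G)) → ℂ) :=
    Cfsg.Agent.Lib.Helper77.DefectClass.self_mem_blockOf hMp θ
  have hT : ∀ g : G, g ∈ Cfsg.Agent.Lib.Helper74.McKayDefs.stab (P : Subgroup G)
      (θ : ↥(Subgroup.centralizer ((P : Subgroup G) : Set G)) → ℂ) ↔
      (g ∈ Subgroup.normalizer ((P : Subgroup G) : Set G) ∧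
        ∀ c c' : Subgroup.centralizer ((P : Subgroup G) : Set G), (c' : G) = g * c * g⁻¹ →
          (θ : Subgroup.centralizer ((P : Subgroup G) : Set G) → ℂ) c' =
            (θ : Subgroup.centralizer ((P : Subgroup G) : Set G) → ℂ) c) :=
    fun g => Iff.rfl
  have hlow := Cfsg.Agent.Lib.Helper17.BqTop2.lower_bound' p M hM P hP _ hB _ hind θ hθb hθP _ hT
    _ rfl
  have hfdvd := relIndex_dvd P hP
  haveI : Fintype G := Fintype.ofFinite G
  have := finite_irrCharacter G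
  haveI : Fintype (IrrCharacter G) := Fintype.ofFinite _
  have := finite_irrCharacter ↥(Subgroup.centralizer ((P : Subgroup G) : Set G))
  haveI : Fintype (IrrCharacter ↥(Subgroup.centralizer ((P : Subgroup G) : Set G))) :=
    Fintype.ofFinite _
  have hPab : ∀ a ∈ (P : Subgroup G), ∀ b ∈ (P : Subgroup G), a * b = b * a :=
    fun a ha b hb => comm_of_mem P hP ha hb
  have := finite_hom (P : Subgroup G) hPab
  haveI : Fintype (↥(P : Subgroup G) →* ℂˣ) := Fintype.ofFinite _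
  haveI : Fintype ↥(P : Subgroup G) := Fintype.ofFinite _
  haveI : Fintype ↥(Subgroup.normalizer ((P : Subgroup G) : Set G)) := Fintype.ofFinite _
  obtain ⟨π, hπP, hπreg⟩ := exists_proj P hP
  exact res_aux P hP π hπP hπreg M hM _ hB hBP _ hind θ hθb hθP _ hT _ rfl hlow ξ hξB hp5 hdeg
    hfaith hnn hfdvd

end Cfsg.Agent.Lib.Helper80.FTRES
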