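import Mathlib
import Cfsg.Agent.Lib.Helper80.BTStmt
import Cfsg.Agent.Lib.Helper80.Integrality
import Cfsg.Agent.Lib.Helper80.FTRES
import Cfsg.Agent.Lib.CT.Wedderburn

/-!
# S0997, piece POW2B (second seat): the case `4 ∣ e`
-/

set_option autoImplicit false

namespace Cfsg.Agent.Lib.Helper80.BTPOW2B

open Cfsg Cfsg.Agent.Lib.Helper80.BTStmt Cfsg.Agent.Lib.Helper80.Integrality

universe u

/-- degree equation in integer form: `ε f = ∑_{χ ∈ X} εX χ * deg χ`. -/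
theorem deg_eq {G : Type u} [Group G] [Finite G] [Finite (IrrCharacter G)] {p : ℕ} (hp : p.Prime)
    (c : Ctx G p) (θ : IrrCharacter G) (hθ : θ ∈ c.Y) :
    c.ε * (charDegree (θ : G → ℂ) : ℤ) =
      ∑ χ ∈ (Set.toFinite c.X).toFinset, c.εX χ * (charDegree (χ : G → ℂ) : ℤ) := by
  have h := c.hYX θ hθ 1 (by rw [orderOf_one, Nat.dvd_one]; exact hp.ne_one)
  rw [finsum_mem_eq_finite_toFinset_sum _ (Set.toFinite c.X)] at h
  rw [apply_one_eq_charDegree (isCharacter_of_isIrrCharacter θ.2)] at h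
  have h2 : ∀ χ : IrrCharacter G, (c.εX χ : ℂ) * (χ : G → ℂ) 1 =
      ((c.εX χ * (charDegree (χ : G → ℂ) : ℤ) : ℤ) : ℂ) := by
    intro χ
    rw [apply_one_eq_charDegree (isCharacter_of_isIrrCharacter χ.2)]
    push_cast
    ring
  rw [Finset.sum_congr rfl (fun χ _ => h2 χ)] at h
  exact_mod_cast h

/-- the degree of a member of `X` is prime to `p`. -/
theorem not_dvd_deg {G : Type u} [Group G] {p : ℕ} (hp : p.Prime) (c : Ctx G p)
    (χ : IrrCharacter G) (hχ : χ ∈ c.X) : ¬ p ∣ charDegree (χ : G → ℂ) := by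
  intro hpd
  obtain ⟨h1, h2, -⟩ := c.hεX χ hχ
  have h3 : (p : ℤ) ∣ (charDegree (χ : G → ℂ) : ℤ) := by exact_mod_cast hpd
  have h4 : (p : ℤ) ∣ c.εX χ - (charDegree (χ : G → ℂ) : ℤ) := (Int.modEq_iff_dvd).mp h2
  have h5 : (p : ℤ) ∣ c.εX χ := by
    have := dvd_add h4 h3
    simpa using this
  have h6 : (p : ℤ) ∣ 1 := by
    rcases h1 with h | h
    · rwa [h] at h5
    · rw [h] at h5
      simpa using h5
  have h7 := Int.le_of_dvd one_pos h6
  have h8 : (2 : ℤ) ≤ p := by exact_mod_cast hp.two_le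
  omega

/-- the odd part of the degree of a member of `X` divides `g₀`. -/
theorem odd_part_dvd {G : Type u} [Group G] [Finite G] {p b g₀ : ℕ} (hp : p.Prime)
    (hcard : Nat.card G = p * 2 ^ b * g₀) (c : Ctx G p)
    (χ : IrrCharacter G) (hχ : χ ∈ c.X) (a d : ℕ) (hd : Odd d)
    (had : charDegree (χ : G → ℂ) = 2 ^ a * d) : d ∣ g₀ := by
  have hdvd := charDegree_dvd_card χ
  rw [hcard, had] at hdvd
  have hnp := not_dvd_deg hp c χ hχ
  rw [had] at hnp
  have hdp : Nat.Coprime d p := by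
    rw [Nat.coprime_comm, Nat.Prime.coprime_iff_not_dvd hp]
    intro h
    exact hnp (h.mul_left _)
  have hd2 : Nat.Coprime d (2 ^ b) := by
    exact Nat.Coprime.pow_right b hd.coprime_two_right
  have h1 : d ∣ p * 2 ^ b * g₀ := (Dvd.intro_left _ rfl).trans hdvd
  exact (hdp.mul_right hd2).dvd_of_dvd_mul_left h1

/-- POW2B. -/
theorem main (hNT1 : NT1) : POW2B.{u} := by
  intro G _ _ p b g₀ hH c hXF hYF hII hg0f hj
  classical
  obtain ⟨hsimple, hncyc, hp, -, hp2, hcard, hg⟩ := hH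
  haveI : Fact p.Prime := ⟨hp⟩
  haveI := Cfsg.Agent.Lib.CT.Wedderburn.finite_irrCharacter G
  obtain ⟨⟨t, htX, ht1⟩, hXq⟩ := hXF
  obtain ⟨⟨θ, hθ⟩, hYall⟩ := hYF
  obtain ⟨hε, hfe⟩ := hII
  obtain ⟨j, hj2, hej⟩ := hj
  obtain ⟨-, -, hθ2, -⟩ := hYall θ hθ
  have hf : charDegree (θ : G → ℂ) = g₀ := hg0f θ hθ
  have hfe' : g₀ + c.e = p := by
    rw [← hf]
    exact hfe θ hθ
  have hg2 : 2 ≤ g₀ := by
    rw [← hf]
    exact hθ2
  have hedvd : c.e ∣ p - 1 := by
    have := Cfsg.Agent.Lib.Helper80.FTRES.relIndex_dvd c.P c.hP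
    rwa [c.he] at this
  have h4e : 4 ∣ c.e := by
    rw [hej]
    exact (show (4 : ℕ) = 2 ^ 2 by norm_num) ▸ pow_dvd_pow 2 hj2
  have hp4 : p % 4 = 1 := by
    have h1 : 4 ∣ p - 1 := h4e.trans hedvd
    have h2 := hp.two_le
    omega
  have hg4 : g₀ % 4 = 1 := by omega
  -- the degree equation
  have hdeg := deg_eq hp c θ hθ
  rw [hε, hf] at hdeg
  set S := (Set.toFinite c.X).toFinset with hS
  have hmemS : ∀ χ : IrrCharacter G, χ ∈ S ↔ χ ∈ c.X := fun χ => Set.Finite.mem_toFinset _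
  have htS : t ∈ S := (hmemS t).mpr htX
  have hdt : charDegree (t : G → ℂ) = 1 := by
    rw [ht1]
    simp [charDegree]
  have hεt : c.εX t = 1 := by
    obtain ⟨h1, h2, -⟩ := c.hεX t htX
    rw [hdt] at h2
    rcases h1 with h | h
    · exact h
    · exfalso
      rw [h] at h2
      have h3 : (p : ℤ) ∣ -1 - ((1 : ℕ) : ℤ) := (Int.modEq_iff_dvd).mp h2
      have h4 : (p : ℤ) ∣ 2 := by
        have : (-1 - ((1 : ℕ) : ℤ)) = -2 := by norm_num
        rw [this] at h3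
        exact (Int.dvd_neg).mp h3
      have h5 := Int.le_of_dvd (by norm_num) h4
      have h6 : p ≤ 2 := by exact_mod_cast h5
      omega
  rw [← Finset.add_sum_erase S _ htS, hεt, hdt] at hdeg
  have hsum : ∑ χ ∈ S.erase t, c.εX χ * (charDegree (χ : G → ℂ) : ℤ) = -(g₀ : ℤ) - 1 := by
    push_cast at hdeg
    linarith
  have hmem : ∀ χ ∈ S.erase t, χ ∈ c.X ∧ (χ : G → ℂ) ≠ (fun _ => 1) := by
    intro χ hχ
    obtain ⟨hne, hχS⟩ := Finset.mem_erase.mp hχ
    exact ⟨(hmemS χ).mp hχS, fun h => hne (Subtype.ext (h.trans ht1.symm))⟩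
  have hstruct : ∀ χ ∈ S.erase t, ∃ a d : ℕ, 1 ≤ a ∧ Odd d ∧ d ∣ g₀ ∧
      charDegree (χ : G → ℂ) = 2 ^ a * d := by
    intro χ hχ
    obtain ⟨hχX, hχ1⟩ := hmem χ hχ
    have h2 : 2 ∣ charDegree (χ : G → ℂ) := hXq χ hχX hχ1
    have hpos := charDegree_pos χ
    obtain ⟨a, d, hd, had⟩ := Nat.exists_eq_two_pow_mul_odd hpos.ne'
    have ha : 1 ≤ a := by
      rcases Nat.eq_zero_or_pos a with h | h
      · exfalso
        rw [h, pow_zero, one_mul] at had
        rw [had] at h2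
        obtain ⟨k, hk⟩ := hd
        omega
      · exact h
    exact ⟨a, d, ha, hd, odd_part_dvd hp hcard c χ hχX a d hd had, had⟩
  have hsign : ∀ χ ∈ S.erase t, ∀ a d : ℕ, charDegree (χ : G → ℂ) = 2 ^ a * d →
      (p ∣ 2 ^ a * d - 1 ∨ p ∣ 2 ^ a * d + 1) := by
    intro χ hχ a d had
    obtain ⟨hχX, -⟩ := hmem χ hχ
    obtain ⟨h1, h2, -⟩ := c.hεX χ hχX
    have hpos := charDegree_pos χ
    rw [had] at h2 hpos
    have h3 : (p : ℤ) ∣ c.εX χ - ((2 ^ a * d : ℕ) : ℤ) := (Int.modEq_iff_dvd).mp h2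
    rcases h1 with h | h
    · left
      rw [h] at h3
      have h4 : (p : ℤ) ∣ ((2 ^ a * d - 1 : ℕ) : ℤ) := by
        rw [Nat.cast_sub hpos]
        have : (((2 ^ a * d : ℕ) : ℤ) - ((1 : ℕ) : ℤ)) = -(1 - ((2 ^ a * d : ℕ) : ℤ)) := by
          push_cast
          ring
        rw [this]
        exact (Int.dvd_neg).mpr h3
      exact_mod_cast h4
    · right
      rw [h] at h3
      have h4 : (p : ℤ) ∣ ((2 ^ a * d + 1 : ℕ) : ℤ) := by
        have : (((2 ^ a * d + 1 : ℕ) : ℤ)) = -(-1 - ((2 ^ a * d : ℕ) : ℤ)) := by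
          push_cast
          ring
        rw [this]
        exact (Int.dvd_neg).mpr h3
      exact_mod_cast h4
  -- some member has degree `2 d`, `d` odd
  have hex1 : ∃ χ ∈ S.erase t, ∃ d : ℕ, Odd d ∧ d ∣ g₀ ∧ charDegree (χ : G → ℂ) = 2 ^ 1 * d := by
    by_contra hcon
    push Not at hcon
    have h4 : ∀ χ ∈ S.erase t, (4 : ℤ) ∣ c.εX χ * (charDegree (χ : G → ℂ) : ℤ) := by
      intro χ hχ
      obtain ⟨a, d, ha, hd, hdg, had⟩ := hstruct χ hχ
      have ha2 : 2 ≤ a := by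
        rcases Nat.lt_or_ge a 2 with h | h
        · exfalso
          have ha1 : a = 1 := by omega
          subst ha1
          exact hcon χ hχ d hd hdg had
        · exact h
      apply Dvd.dvd.mul_left
      rw [had]
      have : (4 : ℕ) ∣ 2 ^ a * d :=
        ((show (4 : ℕ) = 2 ^ 2 by norm_num) ▸ pow_dvd_pow 2 ha2).mul_right d
      exact_mod_cast this
    have h5 := Finset.dvd_sum h4
    rw [hsum] at h5
    omega
  obtain ⟨χ₁, hχ₁, d, hd, hdg, had⟩ := hex1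
  have hg0pos : 0 < g₀ := by omega
  have hdle : d ≤ g₀ := Nat.le_of_dvd hg0pos hdg
  have hdpos : 0 < d := Nat.pos_of_dvd_of_pos hdg hg0pos
  have he4' : 4 ≤ c.e := Nat.le_of_dvd (by
    rw [hej]
    positivity) h4e
  have h2d : 2 * d = p + 1 := by
    rcases hsign χ₁ hχ₁ 1 d had with h | h
    · rw [pow_one] at h
      have := Nat.eq_of_dvd_of_lt_two_mul (by omega) h (by omega)
      omega
    · exfalso
      rw [pow_one] at h
      have := Nat.eq_of_dvd_of_lt_two_mul (by omega) h (by omega)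
      obtain ⟨k, hk⟩ := hd
      omega
  have hgd : g₀ = d := by
    obtain ⟨m, hm⟩ := hdg
    have hm1 : m = 1 := by
      rcases Nat.lt_or_ge m 2 with h | h
      · have : m ≠ 0 := by
          rintro rfl
          omega
        omega
      · exfalso
        have : d * 2 ≤ d * m := Nat.mul_le_mul_left d h
        omega
    rw [hm, hm1, mul_one]
  have hpe : p = 2 ^ (j + 1) + 1 := by
    rw [pow_succ, ← hej]
    omega
  have hgj : g₀ = 2 ^ j + 1 := by
    rw [← hej]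
    omega
  refine ⟨⟨j + 1, hpe⟩, ?_⟩
  by_contra hcon
  push Not at hcon
  have hall : ∀ χ ∈ S.erase t, ((2 * g₀ : ℕ) : ℤ) ∣ c.εX χ * (charDegree (χ : G → ℂ) : ℤ) := by
    intro χ hχ
    obtain ⟨hχX, hχ1⟩ := hmem χ hχ
    obtain ⟨a, d', ha, hd', hdg', had'⟩ := hstruct χ hχ
    have hnt : d' = 1 ∨ d' = 2 ^ j + 1 := by
      apply hNT1 j a d' (hgj ▸ hdg')
      obtain ⟨h1, h2, -⟩ := c.hεX χ hχX
      have h2' : ((2 ^ a * d' : ℕ) : ℤ) ≡ c.εX χ [ZMOD ((2 ^ (j + 1) + 1 : ℕ) : ℤ)] := by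
        rw [← hpe, ← had']
        exact h2
      rcases h1 with h | h
      · left
        rw [h] at h2'
        exact h2'
      · right
        rw [h] at h2'
        exact h2'
    rcases hnt with h | h
    · exfalso
      rw [h, mul_one] at had'
      exact hcon χ hχX hχ1 a ha had'
    · apply Dvd.dvd.mul_left
      rw [had', h, ← hgj]
      have : 2 * g₀ ∣ 2 ^ a * g₀ :=
        Nat.mul_dvd_mul_right (dvd_pow_self 2 (by omega)) g₀
      exact_mod_cast this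
  have h5 := Finset.dvd_sum hall
  rw [hsum] at h5
  have h6 : ((2 * g₀ : ℕ) : ℤ) ∣ ((g₀ + 1 : ℕ) : ℤ) := by
    have : (((g₀ + 1 : ℕ) : ℤ)) = -(-(g₀ : ℤ) - 1) := by
      push_cast
      ring
    rw [this]
    exact (Int.dvd_neg).mpr h5
  have h7 : 2 * g₀ ∣ g₀ + 1 := by exact_mod_cast h6
  have h8 := Nat.le_of_dvd (by omega) h7
  omega

end Cfsg.Agent.Lib.Helper80.BTPOW2B
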