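import Mathlib
import Cfsg.Agent.Lib.Helper80.BTStmt
import Cfsg.Agent.Lib.Helper80.BTPOW2B

/-!
# S0997, piece QTWO (second seat): `q = 2`
-/

set_option autoImplicit false

namespace Cfsg.Agent.Lib.Helper80.BTQTWO

open Cfsg Cfsg.Agent.Lib.Helper80.BTStmt Cfsg.Agent.Lib.Helper80.Integrality

universe u

/-- QTWO. -/
theorem main : QTWO.{u} := by
  intro G _ _ p q b g₀ hH c hXF hYF hII hj
  classical
  obtain ⟨hsimple, hncyc, hp, hq, hpq, hcard, hg⟩ := hH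
  haveI : Fact p.Prime := ⟨hp⟩
  haveI := Cfsg.Agent.Lib.CT.Wedderburn.finite_irrCharacter G
  obtain ⟨⟨t, htX, ht1⟩, hXq⟩ := hXF
  obtain ⟨⟨θ, hθ⟩, hYall⟩ := hYF
  obtain ⟨hε, hfe⟩ := hII
  obtain ⟨j, hj1, hej⟩ := hj
  have hfe' : charDegree (θ : G → ℂ) + c.e = p := hfe θ hθ
  have hedvd : c.e ∣ p - 1 := by
    have := Cfsg.Agent.Lib.Helper80.FTRES.relIndex_dvd c.P c.hP
    rwa [c.he] at this
  have hqe : q ∣ c.e := by
    rw [hej]
    exact dvd_pow_self q (by omega)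
  have hg0 : 0 < g₀ := by
    rcases Nat.eq_zero_or_pos g₀ with h | h
    · have hpos : 0 < Nat.card G := Nat.card_pos
      rw [hcard, h, mul_zero] at hpos
      omega
    · exact h
  have hp3 : 3 ≤ p := by omega
  have hdeg := Cfsg.Agent.Lib.Helper80.BTPOW2B.deg_eq hp c θ hθ
  rw [hε] at hdeg
  set S := (Set.toFinite c.X).toFinset with hS
  have hmemS : ∀ χ : IrrCharacter G, χ ∈ S ↔ χ ∈ c.X := fun χ => Set.Finite.mem_toFinset _
  have htS : t ∈ S := (hmemS t).mpr htX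
  have hdt : charDegree (t : G → ℂ) = 1 := by
    rw [ht1]
    simp [charDegree]
  have hεt : c.εX t = 1 := by
    obtain ⟨h1, h2, -⟩ := c.hεX t htX
    rw [hdt] at h2
    rcases h1 with h | h
    · exact h
    · exfalso
      rw [h] at h2
      have h3 : (p : ℤ) ∣ -1 - ((1 : ℕ) : ℤ) := (Int.modEq_iff_dvd).mp h2
      have h4 : (p : ℤ) ∣ 2 := by
        have : (-1 - ((1 : ℕ) : ℤ)) = -2 := by norm_num
        rw [this] at h3
        exact (Int.dvd_neg).mp h3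
      have h5 := Int.le_of_dvd (by norm_num) h4
      have h6 : p ≤ 2 := by exact_mod_cast h5
      omega
  rw [← Finset.add_sum_erase S _ htS, hεt, hdt] at hdeg
  have hall : ∀ χ ∈ S.erase t, (q : ℤ) ∣ c.εX χ * (charDegree (χ : G → ℂ) : ℤ) := by
    intro χ hχ
    obtain ⟨hne, hχS⟩ := Finset.mem_erase.mp hχ
    have h1 : q ∣ charDegree (χ : G → ℂ) :=
      hXq χ ((hmemS χ).mp hχS) (fun h => hne (Subtype.ext (h.trans ht1.symm)))
    apply Dvd.dvd.mul_left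
    exact_mod_cast h1
  have h5 := Finset.dvd_sum hall
  have h6 : (q : ℤ) ∣ ((charDegree (θ : G → ℂ) + 1 : ℕ) : ℤ) := by
    have : (((charDegree (θ : G → ℂ) + 1 : ℕ) : ℤ)) =
        -(∑ χ ∈ S.erase t, c.εX χ * (charDegree (χ : G → ℂ) : ℤ)) := by
      push_cast at hdeg ⊢
      linarith
    rw [this]
    exact (Int.dvd_neg).mpr h5
  have h7 : q ∣ charDegree (θ : G → ℂ) + 1 := by exact_mod_cast h6
  have h8 : q ∣ p - 1 := hqe.trans hedvd
  have h9 : q ∣ charDegree (θ : G → ℂ) + 1 + c.e := dvd_add h7 hqe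
  have h10 : charDegree (θ : G → ℂ) + 1 + c.e = (p - 1) + 2 := by omega
  rw [h10] at h9
  have h11 : q ∣ 2 := (Nat.dvd_add_right h8).mp h9
  exact (Nat.prime_dvd_prime_iff_eq hq Nat.prime_two).mp h11

end Cfsg.Agent.Lib.Helper80.BTQTWO
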