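import Mathlib
import Cfsg.Prelude.Def_Solvable
import Cfsg.Agent.Lib.Helper71.Frobenius

/-!
A normal subgroup `P` of prime order `p` that is self-centralizing and of index `> 1` coprime
to `p` has a Frobenius complement (Schur–Zassenhaus + the usual argument).
-/

set_option autoImplicit false

namespace Cfsg.Agent.Lib.Helper80.Frob

open scoped Pointwise

universe u
variable {G : Type u} [Group G]

theorem exists_frobeniusComplement [Finite G] (P : Subgroup G) [P.Normal] (p : ℕ) (hp : p.Prime)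
    (hP : Nat.card P = p) (hC : Subgroup.centralizer (P : Set G) ≤ P) (hidx : 1 < P.index)
    (hcop : Nat.Coprime p P.index) :
    ∃ H : Subgroup G, Cfsg.IsFrobeniusComplement H ∧ H.index = p := by
  obtain ⟨H, hH⟩ := Subgroup.exists_right_complement'_of_coprime
    (hP ▸ hcop : (Nat.card P).Coprime P.index)
  have hHidx : H.index = p := by rw [hH.index_eq_card, hP]
  have hdisj : ∀ x : G, x ∈ P → x ∈ H → x = 1 := by
    intro x hx1 hx2
    have := hH.disjoint
    rw [Subgroup.disjoint_def] at this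
    exact this hx1 hx2
  have hF1 : ∀ x : G, x ∈ P → x ≠ 1 → ∀ y : G, y * x = x * y → y ∈ P := by
    intro x hx hx1 y hy
    apply hC
    rw [Subgroup.mem_centralizer_iff]
    intro z hz
    have : Fact p.Prime := ⟨hp⟩
    have hx1' : (⟨x, hx⟩ : P) ≠ 1 := by
      intro h
      exact hx1 (congrArg Subtype.val h)
    have hz' : (⟨z, hz⟩ : P) ∈ Subgroup.zpowers (⟨x, hx⟩ : P) := by
      rw [zpowers_eq_top_of_prime_card hP hx1']
      trivial
    obtain ⟨k, hk⟩ := hz'
    have hzk : z = x ^ k := by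
      have := congrArg Subtype.val hk
      simpa using this.symm
    rw [hzk]
    exact ((Commute.zpow_right (show Commute y x from hy) k).eq).symm
  refine ⟨H, ⟨?_, ?_, ?_⟩, hHidx⟩
  · rintro rfl
    have : P = ⊤ := Subgroup.isComplement'_bot_right.mp hH
    rw [this, Subgroup.index_top] at hidx
    exact lt_irrefl _ hidx
  · rintro rfl
    rw [Subgroup.index_top] at hHidx
    exact hp.ne_one hHidx.symm
  · intro g hg
    rw [Subgroup.eq_bot_iff_forall]
    rintro y ⟨hy1, hy2⟩
    have hy2' : y ∈ MulAut.conj g • H := hy2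
    rw [Subgroup.mem_smul_pointwise_iff_exists] at hy2'
    obtain ⟨k, hk, hky⟩ := hy2'
    rw [MulAut.smul_def, MulAut.conj_apply] at hky
    obtain ⟨⟨⟨x, hx⟩, ⟨h, hh⟩⟩, hxh⟩ := hH.2 g
    simp only at hxh
    have hx1 : x ≠ 1 := by
      rintro rfl
      rw [one_mul] at hxh
      exact hg (hxh ▸ hh)
    set k' := h * k * h⁻¹ with hk'def
    have hk' : k' ∈ H := H.mul_mem (H.mul_mem hh hk) (H.inv_mem hh)
    have hyx : y = x * k' * x⁻¹ := by
      rw [← hky, ← hxh, hk'def]; group
    have h1 : y * k'⁻¹ ∈ P := by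
      have : y * k'⁻¹ = x * (k' * x⁻¹ * k'⁻¹) := by rw [hyx]; group
      rw [this]
      exact P.mul_mem hx (Subgroup.Normal.conj_mem inferInstance _ (P.inv_mem hx) k')
    have h2 : y * k'⁻¹ ∈ H := H.mul_mem hy1 (H.inv_mem hk')
    have h3 : y = k' := by
      have := hdisj _ h1 h2
      exact mul_inv_eq_one.mp this
    have h4 : k' * x = x * k' := by
      have : x * k' * x⁻¹ = k' := by rw [← hyx, h3]
      calc k' * x = x * k' * x⁻¹ * x := by rw [this]
        _ = x * k' := by group
    have h5 : k' ∈ P := hF1 x hx hx1 k' h4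
    rw [h3]
    exact hdisj _ h5 hk'

theorem exists_frobeniusComplement_card [Finite G] (P : Subgroup G) [P.Normal] (p : ℕ)
    (hp : p.Prime) (hP : Nat.card P = p) (hC : Subgroup.centralizer (P : Set G) ≤ P)
    (hidx : 1 < P.index) (hcop : Nat.Coprime p P.index) :
    ∃ H : Subgroup G, Cfsg.IsFrobeniusComplement H ∧ Nat.card ↥(Cfsg.frobeniusKernel H) = p := by
  obtain ⟨H, hH, hidx'⟩ := exists_frobeniusComplement P p hp hP hC hidx hcop
  exact ⟨H, hH, by rw [Cfsg.Agent.Lib.Helper71.Frobenius.card_kernel H hH, hidx']⟩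

end Cfsg.Agent.Lib.Helper80.Frob
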