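import Mathlib
import Cfsg.Agent.Lib.Helper80.Codegree
import Cfsg.Agent.Lib.Helper80.Schur
import Cfsg.Agent.Lib.Helper16.CentralChar
import Cfsg.Agent.Lib.Helper3.Irr
import Cfsg.Prelude.Def_Transfer

/-!
Gagola characters: an irreducible character `χ` that is nonzero on exactly two conjugacy
classes `{1}` and the class of `g₀`.  Hypotheses are passed explicitly as
`(h1 : g₀ ≠ 1) (h2 : χ g₀ ≠ 0) (h3 : ∀ g, χ g ≠ 0 → g = 1 ∨ IsConj g₀ g)`.
-/

set_option autoImplicit false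

namespace Cfsg.Agent.Lib.Helper80.Gagola

open Cfsg Cfsg.Agent.Lib.Helper80.Integrality Cfsg.Agent.Lib.Helper80.Codegree
open Cfsg.Agent.Lib.Helper80.Schur
open Cfsg.Agent.Lib.CT.Wedderburn Cfsg.Agent.Lib.CT.Orth Cfsg.Agent.Lib.CT.Kernel
open Cfsg.Agent.Lib.CT.Ops
open Cfsg.Agent.Lib.Helper16.CentralChar
open scoped ComplexConjugate

universe u
variable {G : Type u} [Group G]

/-- Extraction of a class representative from the counting hypothesis. -/
theorem exists_rep [Finite G] (χ : IrrCharacter G)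
    (hχ : Nat.card {C : ConjClasses G // ∃ g ∈ C.carrier, (χ : G → ℂ) g ≠ 0} = 2) :
    ∃ g₀ : G, g₀ ≠ 1 ∧ (χ : G → ℂ) g₀ ≠ 0 ∧
      ∀ g, (χ : G → ℂ) g ≠ 0 → g = 1 ∨ IsConj g₀ g := by
  have h1 : (χ : G → ℂ) 1 ≠ 0 := irr_apply_one_ne_zero χ.2
  obtain ⟨⟨C, g₀, hg₀C, hg₀⟩, hz, huniq⟩ := (Nat.card_eq_two_iff'
    (⟨ConjClasses.mk 1, 1, ConjClasses.mem_carrier_mk, h1⟩ :
      {C : ConjClasses G // ∃ g ∈ C.carrier, (χ : G → ℂ) g ≠ 0})).1 hχ
  have hC : ConjClasses.mk g₀ = C := ConjClasses.mem_carrier_iff_mk_eq.1 hg₀C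
  refine ⟨g₀, ?_, hg₀, ?_⟩
  · rintro rfl
    exact hz (Subtype.ext hC.symm)
  · intro g hg
    by_cases hg1 : g = 1
    · exact Or.inl hg1
    · right
      have hne : (⟨ConjClasses.mk g, g, ConjClasses.mem_carrier_mk, hg⟩ :
          {C : ConjClasses G // ∃ g ∈ C.carrier, (χ : G → ℂ) g ≠ 0}) ≠
          ⟨ConjClasses.mk 1, 1, ConjClasses.mem_carrier_mk, h1⟩ := by
        intro h
        have h' := congrArg Subtype.val h
        exact hg1 (isConj_one_left.1 (ConjClasses.mk_eq_mk_iff_isConj.1 h'))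
      have h' := congrArg Subtype.val (huniq _ hne)
      simp only at h'
      rw [← hC] at h'
      exact (ConjClasses.mk_eq_mk_iff_isConj.1 h').symm

/-- Sum of a function supported on `{1}` and the class of `g₀`, constant on that class. -/
theorem sum_eq [Fintype G] (g₀ : G) (h1 : g₀ ≠ 1) (f : G → ℂ)
    (hf1 : ∀ g, IsConj g₀ g → f g = f g₀) (hf0 : ∀ g, g ≠ 1 → ¬ IsConj g₀ g → f g = 0) :
    ∑ g : G, f g = f 1 + ((conjFinset g₀).card : ℂ) * f g₀ := by
  classical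
  have hnot : (1 : G) ∉ conjFinset g₀ := by
    intro h
    exact h1 (isConj_one_left.1 (mem_conjFinset.1 h))
  have hsub : ∑ g ∈ insert 1 (conjFinset g₀), f g = ∑ g : G, f g := by
    refine Finset.sum_subset (Finset.subset_univ _) fun g _ hg => ?_
    rw [Finset.mem_insert, not_or] at hg
    exact hf0 g hg.1 (fun h => hg.2 (mem_conjFinset.2 h))
  rw [← hsub, Finset.sum_insert hnot,
    Finset.sum_congr rfl (fun g hg => hf1 g (mem_conjFinset.1 hg)), Finset.sum_const,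
    nsmul_eq_mul]

variable [Finite G] (χ : IrrCharacter G) (g₀ : G)

/-- A character nonzero on exactly two classes is not principal when `|G| > 2`. -/
theorem ne_triv (h1 : g₀ ≠ 1) (h3 : ∀ g, (χ : G → ℂ) g ≠ 0 → g = 1 ∨ IsConj g₀ g)
    (hG : 2 < Nat.card G) : χ ≠ triv G := by
  classical
  have := Fintype.ofFinite G
  rintro rfl
  have hall : ∀ g : G, g = 1 ∨ IsConj g₀ g := fun g => h3 g (by rw [triv_apply]; exact one_ne_zero)
  have hnot : (1 : G) ∉ conjFinset g₀ := by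
    intro h
    exact h1 (isConj_one_left.1 (mem_conjFinset.1 h))
  have huniv : insert 1 (conjFinset g₀) = (Finset.univ : Finset G) := by
    rw [Finset.eq_univ_iff_forall]
    intro g
    rcases hall g with h | h
    · rw [h]; exact Finset.mem_insert_self _ _
    · exact Finset.mem_insert_of_mem (mem_conjFinset.2 h)
  have hcard : Nat.card G = (Subgroup.centralizer ({g₀} : Set G)).index + 1 := by
    rw [Nat.card_eq_fintype_card, ← Finset.card_univ, ← huniv, Finset.card_insert_of_notMem hnot,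
      card_conjFinset]
  have hdvd : (Subgroup.centralizer ({g₀} : Set G)).index ∣ Nat.card G :=
    Subgroup.index_dvd_card _
  rw [hcard] at hdvd
  have h4 : (Subgroup.centralizer ({g₀} : Set G)).index ∣ 1 := (Nat.dvd_add_right dvd_rfl).1 hdvd
  have h5 := Nat.eq_one_of_dvd_one h4
  omega

/-- `χ(1) + |C| χ(g₀) = 0`. -/
theorem sum_char (h1 : g₀ ≠ 1) (h3 : ∀ g, (χ : G → ℂ) g ≠ 0 → g = 1 ∨ IsConj g₀ g)
    (hG : 2 < Nat.card G) [Fintype G] :
    (χ : G → ℂ) 1 + ((conjFinset g₀).card : ℂ) * (χ : G → ℂ) g₀ = 0 := by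
  have horth := irr_orthonormal χ (triv G)
  rw [if_neg (ne_triv χ g₀ h1 h3 hG), classInner] at horth
  have hne : (Nat.card G : ℂ) ≠ 0 := Nat.cast_ne_zero.mpr Nat.card_pos.ne'
  have h4 : ∑ g : G, (χ : G → ℂ) g = 0 := by
    rcases mul_eq_zero.1 horth with h | h
    · exact absurd h (inv_ne_zero hne)
    · simpa [triv_apply] using h
  rw [← h4]
  refine (sum_eq g₀ h1 (χ : G → ℂ) (fun g hg => ?_) (fun g hg1 hg => ?_)).symm
  · obtain ⟨c, rfl⟩ := isConj_iff.1 hg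
    exact irr_isClassFunction χ g₀ c
  · by_contra h
    rcases h3 g h with h' | h'
    · exact hg1 h'
    · exact hg h'

/-- `χ(1) conj χ(1) + |C| χ(g₀) conj χ(g₀) = |G|`. -/
theorem sum_norm (h1 : g₀ ≠ 1) (h3 : ∀ g, (χ : G → ℂ) g ≠ 0 → g = 1 ∨ IsConj g₀ g)
    [Fintype G] :
    (χ : G → ℂ) 1 * conj ((χ : G → ℂ) 1) +
      ((conjFinset g₀).card : ℂ) * ((χ : G → ℂ) g₀ * conj ((χ : G → ℂ) g₀)) = (Nat.card G : ℂ) := by
  have horth := irr_orthonormal χ χ
  rw [if_pos rfl, classInner] at horth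
  have hne : (Nat.card G : ℂ) ≠ 0 := Nat.cast_ne_zero.mpr Nat.card_pos.ne'
  have h4 : ∑ g : G, (χ : G → ℂ) g * conj ((χ : G → ℂ) g) = (Nat.card G : ℂ) := by
    field_simp at horth
    exact horth
  rw [← h4]
  refine (sum_eq g₀ h1 (fun g => (χ : G → ℂ) g * conj ((χ : G → ℂ) g)) (fun g hg => ?_)
    (fun g hg1 hg => ?_)).symm
  · obtain ⟨c, rfl⟩ := isConj_iff.1 hg
    simp only [irr_isClassFunction χ g₀ c]
  · have : (χ : G → ℂ) g = 0 := by
      by_contra h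
      rcases h3 g h with h' | h'
      · exact hg1 h'
      · exact hg h'
    simp only [this, zero_mul]

/-- `χ` is faithful. -/
theorem faithful (h1 : g₀ ≠ 1) (h3 : ∀ g, (χ : G → ℂ) g ≠ 0 → g = 1 ∨ IsConj g₀ g)
    (hG : 2 < Nat.card G) (x : G) (hx : (χ : G → ℂ) x = (χ : G → ℂ) 1) : x = 1 := by
  classical
  have := Fintype.ofFinite G
  by_contra hx1
  have hd : (χ : G → ℂ) 1 ≠ 0 := irr_apply_one_ne_zero χ.2
  have hconj : IsConj g₀ x := by
    rcases h3 x (by rw [hx]; exact hd) with h | h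
    · exact absurd h hx1
    · exact h
  obtain ⟨c, rfl⟩ := isConj_iff.1 hconj
  rw [irr_isClassFunction χ g₀ c] at hx
  have hs := sum_char χ g₀ h1 h3 hG
  rw [hx] at hs
  have h5 : (χ : G → ℂ) 1 * (1 + ((conjFinset g₀).card : ℂ)) = 0 := by linear_combination hs
  rcases mul_eq_zero.1 h5 with h | h
  · exact hd h
  · have : ((1 + (conjFinset g₀).card : ℕ) : ℂ) = 0 := by push_cast; exact h
    exact absurd (Nat.cast_eq_zero.1 this) (by omega)

/-- The value `χ(g₀)` is real. -/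
theorem conj_val (h1 : g₀ ≠ 1) (h3 : ∀ g, (χ : G → ℂ) g ≠ 0 → g = 1 ∨ IsConj g₀ g)
    (hG : 2 < Nat.card G) : conj ((χ : G → ℂ) g₀) = (χ : G → ℂ) g₀ := by
  classical
  have := Fintype.ofFinite G
  have hs := sum_char χ g₀ h1 h3 hG
  have hm : ((conjFinset g₀).card : ℂ) ≠ 0 :=
    Nat.cast_ne_zero.mpr (Finset.card_pos.2 ⟨g₀, self_mem_conjFinset g₀⟩).ne'
  have hd : conj ((χ : G → ℂ) 1) = (χ : G → ℂ) 1 := by
    rw [apply_one_eq_charDegree (isCharacter_of_irr χ.2), Complex.conj_natCast]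
  have h5 := congrArg conj hs
  rw [map_add, map_mul, hd, Complex.conj_natCast, map_zero] at h5
  have : ((conjFinset g₀).card : ℂ) * (conj ((χ : G → ℂ) g₀) - (χ : G → ℂ) g₀) = 0 := by
    linear_combination h5 - hs
  rcases mul_eq_zero.1 this with h | h
  · exact absurd h hm
  · exact sub_eq_zero.1 h

/-- `|G| - χ(1)² = - χ(1) χ(g₀)`. -/
theorem key (h1 : g₀ ≠ 1) (h3 : ∀ g, (χ : G → ℂ) g ≠ 0 → g = 1 ∨ IsConj g₀ g)
    (hG : 2 < Nat.card G) :
    (Nat.card G : ℂ) - (χ : G → ℂ) 1 * (χ : G → ℂ) 1 = -((χ : G → ℂ) 1 * (χ : G → ℂ) g₀) := by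
  classical
  have := Fintype.ofFinite G
  have hs := sum_char χ g₀ h1 h3 hG
  have hn := sum_norm χ g₀ h1 h3
  have hd : conj ((χ : G → ℂ) 1) = (χ : G → ℂ) 1 := by
    rw [apply_one_eq_charDegree (isCharacter_of_irr χ.2), Complex.conj_natCast]
  rw [conj_val χ g₀ h1 h3 hG, hd] at hn
  linear_combination ((χ : G → ℂ) g₀) * hs - hn

/-- The character `Φ = ∑_{ψ ≠ χ} ψ(1) ψ`. -/
noncomputable def phi [Fintype (IrrCharacter G)] [DecidableEq (IrrCharacter G)]
    (χ : IrrCharacter G) : G → ℂ :=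
  fun g => ∑ ψ ∈ Finset.univ.erase χ, (ψ : G → ℂ) 1 * (ψ : G → ℂ) g

theorem isCharacter_phi [Fintype (IrrCharacter G)] [DecidableEq (IrrCharacter G)] :
    IsCharacter G (phi χ) := by
  have h := isCharacter_sum' (Finset.univ.erase χ)
    (fun ψ : IrrCharacter G => charDegree (ψ : G → ℂ) • (ψ : G → ℂ))
    (fun ψ _ => isCharacter_nsmul (isCharacter_of_irr ψ.2) _)
  have e : phi χ = fun g => ∑ ψ ∈ Finset.univ.erase χ,
      (charDegree (ψ : G → ℂ) • (ψ : G → ℂ)) g := by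
    funext g
    unfold phi
    refine Finset.sum_congr rfl fun ψ _ => ?_
    rw [Pi.smul_apply, nsmul_eq_mul, apply_one_eq_charDegree (isCharacter_of_irr ψ.2)]
  rw [e]
  exact h

theorem phi_apply [Fintype G] [DecidableEq G] [Fintype (IrrCharacter G)]
    [DecidableEq (IrrCharacter G)] (g : G) :
    phi χ g = (if g = 1 then (Nat.card G : ℂ) else 0) - (χ : G → ℂ) 1 * (χ : G → ℂ) g := by
  unfold phi
  have hsplit := Finset.add_sum_erase Finset.univ
    (fun ψ : IrrCharacter G => (ψ : G → ℂ) 1 * (ψ : G → ℂ) g) (Finset.mem_univ χ)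
  have htot : ∑ ψ : IrrCharacter G, (ψ : G → ℂ) 1 * (ψ : G → ℂ) g =
      if g = 1 then (Nat.card G : ℂ) else 0 := by
    split_ifs with hg
    · subst hg
      rw [← sum_apply_one_sq_sum]
      exact Finset.sum_congr rfl fun ψ _ => (sq _).symm
    · exact sum_apply_one_mul_of_ne_sum g hg
  rw [← htot]
  linear_combination hsplit

/-- `Φ(g₀) = Φ(1)`. -/
theorem phi_apply_rep [Fintype (IrrCharacter G)] [DecidableEq (IrrCharacter G)]
    (h1 : g₀ ≠ 1) (h3 : ∀ g, (χ : G → ℂ) g ≠ 0 → g = 1 ∨ IsConj g₀ g) (hG : 2 < Nat.card G) :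
    phi χ g₀ = phi χ 1 := by
  classical
  have := Fintype.ofFinite G
  rw [phi_apply, phi_apply, if_neg h1, if_pos rfl]
  linear_combination -key χ g₀ h1 h3 hG

/-- `{1} ∪ C` is a normal subgroup. -/
theorem exists_normal (h1 : g₀ ≠ 1) (h2 : (χ : G → ℂ) g₀ ≠ 0)
    (h3 : ∀ g, (χ : G → ℂ) g ≠ 0 → g = 1 ∨ IsConj g₀ g) (hG : 2 < Nat.card G) :
    ∃ N : Subgroup G, N.Normal ∧ ∀ g, g ∈ N ↔ (g = 1 ∨ IsConj g₀ g) := by
  classical
  have := Fintype.ofFinite G
  have := finite_irrCharacter G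
  have := Fintype.ofFinite (IrrCharacter G)
  obtain ⟨N, hN, hmem⟩ := exists_normal_ker (isCharacter_phi χ)
  refine ⟨N, hN, fun g => ?_⟩
  have hd : (χ : G → ℂ) 1 ≠ 0 := irr_apply_one_ne_zero χ.2
  have hkey := key χ g₀ h1 h3 hG
  have e1 : phi χ 1 = (Nat.card G : ℂ) - (χ : G → ℂ) 1 * (χ : G → ℂ) 1 := by
    rw [phi_apply, if_pos rfl]
  rw [hmem, e1, phi_apply]
  constructor
  · intro h
    by_contra hcon
    push Not at hcon
    obtain ⟨hg1, hgc⟩ := hcon
    rw [if_neg hg1] at h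
    have hχg : (χ : G → ℂ) g = 0 := by
      by_contra h'
      rcases h3 g h' with h'' | h''
      · exact hg1 h''
      · exact hgc h''
    rw [hχg] at h
    apply mul_ne_zero hd h2
    linear_combination h + hkey
  · rintro (rfl | hc)
    · rw [if_pos rfl]
    · obtain ⟨c, rfl⟩ := isConj_iff.1 hc
      have hne : c * g₀ * c⁻¹ ≠ 1 := fun h => h1 (conj_eq_one_iff.1 h)
      rw [if_neg hne, irr_isClassFunction χ g₀ c]
      linear_combination -hkey

omit [Finite G] in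
/-- If the sum of `χ` over a normal subgroup `K` is nonzero, then `K` lies in the kernel of
`χ`. -/
theorem apply_eq_of_sum_ne_zero (χ : IrrCharacter G) (K : Subgroup G) [K.Normal] [Fintype K]
    (hsum : ∑ k : K, (χ : G → ℂ) k ≠ 0) (x : G) (hx : x ∈ K) :
    (χ : G → ℂ) x = (χ : G → ℂ) 1 := by
  obtain ⟨n, ρ, hρ, hχ⟩ := χ.2
  have := hρ
  set T : Module.End ℂ (Fin n → ℂ) := ∑ k : K, ρ (k : G) with hT
  have hcomm : ∀ y : G, T * ρ y = ρ y * T := by
    intro y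
    rw [hT, Finset.sum_mul, Finset.mul_sum]
    refine Fintype.sum_equiv (MulAut.conjNormal y⁻¹ : MulAut K).toEquiv _ _ (fun k => ?_)
    rw [← map_mul, ← map_mul]
    congr 1
    simp
    group
  obtain ⟨c, hc⟩ := schur_scalar ρ T hcomm
  have h1 : ∑ k : K, (χ : G → ℂ) k = c * (χ : G → ℂ) 1 := by
    rw [← hχ]
    have : ∑ k : K, ρ.character k = LinearMap.trace ℂ _ T := by
      rw [hT, map_sum]
      rfl
    rw [this, hc, map_smul, smul_eq_mul, Representation.char_one, LinearMap.trace_one]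
  have hc0 : c ≠ 0 := by
    rintro rfl
    rw [zero_mul] at h1
    exact hsum h1
  have h3 : ρ x * T = T := by
    rw [hT, Finset.mul_sum]
    refine Fintype.sum_equiv (Equiv.mulLeft (⟨x, hx⟩ : K)) _ _ (fun k => ?_)
    rw [← map_mul]
    rfl
  rw [hc, mul_smul_comm, mul_one] at h3
  have h4 : ρ x = 1 := by
    have := congrArg (fun f => c⁻¹ • f) h3
    simpa [smul_smul, inv_mul_cancel₀ hc0] using this
  rw [← hχ]
  show LinearMap.trace ℂ _ (ρ x) = LinearMap.trace ℂ _ (ρ 1)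
  rw [h4, map_one ρ]

/-- Every nontrivial normal subgroup contains `g₀`. -/
theorem mem_of_normal (h1 : g₀ ≠ 1) (h3 : ∀ g, (χ : G → ℂ) g ≠ 0 → g = 1 ∨ IsConj g₀ g)
    (hG : 2 < Nat.card G) (K : Subgroup G) (hK : K.Normal) (hK1 : K ≠ ⊥) : g₀ ∈ K := by
  classical
  have := Fintype.ofFinite K
  by_contra hg₀
  apply hK1
  have hzero : ∀ k : K, k ≠ 1 → (χ : G → ℂ) k = 0 := by
    intro k hk
    by_contra h
    rcases h3 k h with h' | h'
    · exact hk (Subtype.ext h')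
    · obtain ⟨c, hc⟩ := isConj_iff.1 h'
      apply hg₀
      have := hK.conj_mem (k : G) k.2 c⁻¹
      rw [← hc] at this
      simpa [mul_assoc] using this
  have hsum : ∑ k : K, (χ : G → ℂ) k = (χ : G → ℂ) 1 := by
    rw [Finset.sum_eq_single (1 : K) (fun k _ hk => hzero k hk)
      (fun h => absurd (Finset.mem_univ _) h)]
    rfl
  rw [Subgroup.eq_bot_iff_forall]
  intro x hx
  exact faithful χ g₀ h1 h3 hG x (apply_eq_of_sum_ne_zero χ K
    (by rw [hsum]; exact irr_apply_one_ne_zero χ.2) x hx)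

omit [Finite G] in
/-- `{1} ∪ C`, when it is a minimal normal subgroup, is elementary abelian. -/
theorem elementaryAbelian [Finite G] (h1 : g₀ ≠ 1) (N : Subgroup G) [N.Normal]
    (hN : ∀ g, g ∈ N ↔ (g = 1 ∨ IsConj g₀ g))
    (hmin : ∀ K : Subgroup G, K.Normal → K ≠ ⊥ → N ≤ K) :
    ∃ p : ℕ, p.Prime ∧ IsElementaryAbelian p N := by
  have hord : orderOf g₀ ≠ 1 := by rwa [Ne, orderOf_eq_one_iff]
  obtain ⟨p, hp, hpd⟩ := Nat.exists_prime_and_dvd hord
  have : Fact p.Prime := ⟨hp⟩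
  have hx : orderOf (g₀ ^ (orderOf g₀ / p)) = p :=
    orderOf_pow_orderOf_div (orderOf_pos g₀).ne' hpd
  have hg₀N : g₀ ∈ N := (hN g₀).2 (Or.inr (IsConj.refl _))
  have hxN : g₀ ^ (orderOf g₀ / p) ∈ N := N.pow_mem hg₀N _
  have hx1 : g₀ ^ (orderOf g₀ / p) ≠ 1 := by
    intro h
    rw [h, orderOf_one] at hx
    exact hp.ne_one hx.symm
  have hxc : IsConj g₀ (g₀ ^ (orderOf g₀ / p)) := by
    rcases (hN _).1 hxN with h | h
    · exact absurd h hx1
    · exact h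
  have hg₀p : g₀ ^ p = 1 := by
    obtain ⟨c, hc⟩ := isConj_iff.1 hxc
    have h2 : (c * g₀ * c⁻¹) ^ p = 1 := by
      have h3 := pow_orderOf_eq_one (g₀ ^ (orderOf g₀ / p))
      rw [hx] at h3
      rw [hc]
      exact h3
    rw [conj_pow] at h2
    exact conj_eq_one_iff.1 h2
  have hpow : ∀ a ∈ N, a ^ p = 1 := by
    intro a ha
    rcases (hN a).1 ha with rfl | h
    · exact one_pow p
    · obtain ⟨c, rfl⟩ := isConj_iff.1 h
      rw [conj_pow, hg₀p, mul_one, mul_inv_cancel]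
  refine ⟨p, hp, ?_, hpow⟩
  -- commutativity via the centre of the `p`-group `N`
  have hpg : IsPGroup p N := fun a => ⟨1, by
    rw [pow_one]
    exact Subtype.ext (hpow a a.2)⟩
  have : Nontrivial N := ⟨⟨⟨g₀, hg₀N⟩, 1, fun h => h1 (congrArg Subtype.val h)⟩⟩
  have hcen : Nontrivial (Subgroup.center N) := hpg.center_nontrivial
  obtain ⟨z, hz⟩ := exists_ne (1 : Subgroup.center N)
  have hZ : N ⊓ Subgroup.centralizer (N : Set G) ≠ ⊥ := by
    intro hbot
    apply hz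
    have hmem : ((z : N) : G) ∈ N ⊓ Subgroup.centralizer (N : Set G) := by
      refine Subgroup.mem_inf.2 ⟨(z : N).2, ?_⟩
      rw [Subgroup.mem_centralizer_iff]
      intro n hn
      have := Subgroup.mem_center_iff.1 z.2 ⟨n, hn⟩
      exact congrArg Subtype.val this
    rw [hbot, Subgroup.mem_bot] at hmem
    exact Subtype.ext (Subtype.ext hmem)
  have hle := hmin _ (Subgroup.normal_inf_normal N (Subgroup.centralizer (N : Set G))) hZ
  refine ⟨⟨fun a b => ?_⟩⟩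
  have ha := (Subgroup.mem_inf.1 (hle a.2)).2
  rw [Subgroup.mem_centralizer_iff] at ha
  exact Subtype.ext (ha b b.2).symm

/-- Every irreducible character other than `χ` has `g₀` in its kernel. -/
theorem apply_eq_of_ne (h1 : g₀ ≠ 1) (h3 : ∀ g, (χ : G → ℂ) g ≠ 0 → g = 1 ∨ IsConj g₀ g)
    (hG : 2 < Nat.card G) (ψ : IrrCharacter G) (hψ : ψ ≠ χ) :
    (ψ : G → ℂ) g₀ = (ψ : G → ℂ) 1 := by
  classical
  have := Fintype.ofFinite G
  have := finite_irrCharacter G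
  have := Fintype.ofFinite (IrrCharacter G)
  have hphi := phi_apply_rep χ g₀ h1 h3 hG
  unfold phi at hphi
  have hsum : ∑ θ ∈ Finset.univ.erase χ,
      ((θ : G → ℂ) 1 * ((θ : G → ℂ) 1 - (θ : G → ℂ) g₀)).re = 0 := by
    rw [← Complex.re_sum]
    have : ∑ θ ∈ Finset.univ.erase χ, (θ : G → ℂ) 1 * ((θ : G → ℂ) 1 - (θ : G → ℂ) g₀) = 0 := by
      simp only [mul_sub, Finset.sum_sub_distrib]
      rw [hphi, sub_self]
    rw [this, Complex.zero_re]
  have hdeg : ∀ θ : IrrCharacter G, (θ : G → ℂ) 1 = ((charDegree (θ : G → ℂ) : ℝ) : ℂ) := by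
    intro θ
    rw [apply_one_eq_charDegree (isCharacter_of_irr θ.2)]
    push_cast
    rfl
  have hle : ∀ θ : IrrCharacter G, ((θ : G → ℂ) g₀).re ≤ (charDegree (θ : G → ℂ) : ℝ) := by
    intro θ
    have h5 := Cfsg.Agent.Lib.Helper3.Irr.IsCharacter.norm_le (isCharacter_of_irr θ.2) g₀
    rw [hdeg θ, Complex.ofReal_re] at h5
    exact (Complex.re_le_norm _).trans h5
  have hterm : ∀ θ : IrrCharacter G, ((θ : G → ℂ) 1 * ((θ : G → ℂ) 1 - (θ : G → ℂ) g₀)).re =
      (charDegree (θ : G → ℂ) : ℝ) * ((charDegree (θ : G → ℂ) : ℝ) - ((θ : G → ℂ) g₀).re) := by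
    intro θ
    rw [hdeg θ, Complex.re_ofReal_mul, Complex.sub_re, Complex.ofReal_re]
  have hnonneg : ∀ θ ∈ Finset.univ.erase χ,
      0 ≤ ((θ : G → ℂ) 1 * ((θ : G → ℂ) 1 - (θ : G → ℂ) g₀)).re := by
    intro θ _
    rw [hterm θ]
    exact mul_nonneg (Nat.cast_nonneg _) (sub_nonneg.2 (hle θ))
  have hz := (Finset.sum_eq_zero_iff_of_nonneg hnonneg).1 hsum ψ
    (Finset.mem_erase.2 ⟨hψ, Finset.mem_univ _⟩)
  rw [hterm ψ] at hz
  have hdpos : (0 : ℝ) < (charDegree (ψ : G → ℂ) : ℝ) := Nat.cast_pos.2 (charDegree_pos ψ)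
  have hre : ((ψ : G → ℂ) g₀).re = (charDegree (ψ : G → ℂ) : ℝ) := by
    rcases mul_eq_zero.1 hz with h | h
    · exact absurd h hdpos.ne'
    · linarith
  have hnorm := Cfsg.Agent.Lib.Helper3.Irr.IsCharacter.norm_le (isCharacter_of_irr ψ.2) g₀
  rw [hdeg ψ, Complex.ofReal_re] at hnorm
  have him : ((ψ : G → ℂ) g₀).im = 0 := by
    have h6 : ‖(ψ : G → ℂ) g₀‖ ^ 2 ≤ (charDegree (ψ : G → ℂ) : ℝ) ^ 2 :=
      pow_le_pow_left₀ (norm_nonneg _) hnorm 2
    rw [Complex.sq_norm, Complex.normSq_apply, hre] at h6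
    nlinarith [mul_self_nonneg ((ψ : G → ℂ) g₀).im]
  rw [hdeg ψ]
  exact Complex.ext (by rw [hre, Complex.ofReal_re]) (by rw [him, Complex.ofReal_im])

end Cfsg.Agent.Lib.Helper80.Gagola
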