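import Mathlib
import Cfsg.Agent.Lib.Helper80.IndDeg

/-!
Irreducible characters as induced characters: if `θ` is a constituent of `χ_H` then
`χ(1) ≤ [G : H] θ(1)`, with equality iff `χ = θ^G`.
-/

set_option autoImplicit false

namespace Cfsg.Agent.Lib.Helper80.IndIrr

open Cfsg Cfsg.Agent.Lib.Helper80.Integrality Cfsg.Agent.Lib.Helper80.Restrict
open Cfsg.Agent.Lib.Helper80.IndDeg
open Cfsg.Agent.Lib.CT.Wedderburn Cfsg.Agent.Lib.CT.Orth
open Cfsg.Agent.Lib.CT.FrobRec Cfsg.Agent.Lib.CT.IndChar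
open scoped ComplexConjugate

universe u
variable {G : Type u} [Group G]

/-- Frobenius reciprocity, nonvanishing form. -/
theorem classInner_indFun_ne_zero [Fintype G] (H : Subgroup G) [Fintype H] (θ : H → ℂ)
    (χ : IrrCharacter G) (hne : classInner (fun h : H => (χ : G → ℂ) h) θ ≠ 0) :
    classInner (indFun H θ) (χ : G → ℂ) ≠ 0 := by
  rw [frobenius_reciprocity H θ _ (irr_isClassFunction χ),
    Cfsg.Agent.Lib.CT.Clifford.classInner_conj_symm]
  simpa using hne

/-- If `θ` is a constituent of `χ_H`, then `χ(1) ≤ [G : H] θ(1)`. -/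
theorem charDegree_le_of_constituent [Fintype G] (H : Subgroup G) [Fintype H] (θ : H → ℂ)
    (hθ : IsCharacter H θ) (χ : IrrCharacter G)
    (hne : classInner (fun h : H => (χ : G → ℂ) h) θ ≠ 0) :
    charDegree (χ : G → ℂ) ≤ H.index * charDegree θ := by
  classical
  have := finite_irrCharacter G
  have := Fintype.ofFinite (IrrCharacter G)
  obtain ⟨c, hc1, -, hc3, -⟩ := exists_mult (isCharacter_indFun H θ hθ)
  rw [charDegree_indFun H θ hθ] at hc3
  have h0 : c χ ≠ 0 := by
    intro h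
    apply classInner_indFun_ne_zero H θ χ hne
    rw [hc1 χ, h]
    simp
  rw [hc3]
  calc charDegree (χ : G → ℂ) ≤ c χ * charDegree (χ : G → ℂ) :=
        Nat.le_mul_of_pos_left _ (Nat.pos_of_ne_zero h0)
    _ ≤ ∑ ψ : IrrCharacter G, c ψ * charDegree (ψ : G → ℂ) :=
        Finset.single_le_sum (f := fun ψ : IrrCharacter G => c ψ * charDegree (ψ : G → ℂ))
          (fun _ _ => Nat.zero_le _) (Finset.mem_univ χ)

/-- If `θ` is a constituent of `χ_H` and `[G : H] θ(1) = χ(1)`, then `χ = θ^G`. -/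
theorem indFun_eq_of_degree [Fintype G] (H : Subgroup G) [Fintype H] (θ : H → ℂ)
    (hθ : IsCharacter H θ) (χ : IrrCharacter G)
    (hne : classInner (fun h : H => (χ : G → ℂ) h) θ ≠ 0)
    (hdeg : H.index * charDegree θ = charDegree (χ : G → ℂ)) :
    indFun H θ = (χ : G → ℂ) := by
  classical
  have := finite_irrCharacter G
  have := Fintype.ofFinite (IrrCharacter G)
  obtain ⟨c, hc1, hc2, hc3, -⟩ := exists_mult (isCharacter_indFun H θ hθ)
  rw [charDegree_indFun H θ hθ, hdeg] at hc3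
  have h0 : c χ ≠ 0 := by
    intro h
    apply classInner_indFun_ne_zero H θ χ hne
    rw [hc1 χ, h]
    simp
  have hd := charDegree_pos χ
  have hsplit := Finset.add_sum_erase Finset.univ
    (fun ψ : IrrCharacter G => c ψ * charDegree (ψ : G → ℂ)) (Finset.mem_univ χ)
  have h2 : charDegree (χ : G → ℂ) ≤ c χ * charDegree (χ : G → ℂ) :=
    Nat.le_mul_of_pos_left _ (Nat.pos_of_ne_zero h0)
  have hrest : ∑ ψ ∈ Finset.univ.erase χ, c ψ * charDegree (ψ : G → ℂ) = 0 := by omega
  have hcχ : c χ = 1 := by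
    have h3 : c χ * charDegree (χ : G → ℂ) = 1 * charDegree (χ : G → ℂ) := by omega
    exact Nat.eq_of_mul_eq_mul_right hd h3
  have hzero : ∀ ψ : IrrCharacter G, ψ ≠ χ → c ψ = 0 := by
    intro ψ hψ
    have := (Finset.sum_eq_zero_iff.1 hrest) ψ (Finset.mem_erase.2 ⟨hψ, Finset.mem_univ _⟩)
    rcases Nat.mul_eq_zero.1 this with h | h
    · exact h
    · exact absurd h (charDegree_pos ψ).ne'
  funext g
  rw [hc2 g, Finset.sum_eq_single χ (fun ψ _ hψ => by rw [hzero ψ hψ]; simp)
    (fun h => absurd (Finset.mem_univ χ) h), hcχ]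
  simp

end Cfsg.Agent.Lib.Helper80.IndIrr
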