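import Mathlib
import Cfsg.Agent.Lib.Helper80.NormB0

/-!
# Principal block characters of degree prime to `p` over subgroups of index prime to `p`
-/

set_option autoImplicit false

namespace Cfsg.Agent.Lib.Helper80.NormB0b

open Cfsg Cfsg.Agent.Lib.Helper77.LocalRing Cfsg.Agent.Lib.Helper77.CentralChar
  Cfsg.Agent.Lib.Helper77.ClassSum Cfsg.Agent.Lib.Helper77.BlockIdem
  Cfsg.Agent.Lib.CT.Wedderburn Cfsg.Agent.Lib.CT.ThirdMain Cfsg.Agent.Lib.CT.Orth
  Cfsg.Agent.Lib.CT.Clifford Cfsg.Agent.Lib.CT.Ops Cfsg.Agent.Lib.Helper80.NormB0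

open scoped ComplexConjugate

universe u
variable {G : Type u} [Group G]

theorem pair_eq_degree_mul_omega {χ : G → ℂ} (hχ : IsIrrCharacter G χ) (z : MonoidAlgebra ℂ G) :
    pair χ z = (charDegree χ : ℂ) * omega χ z := by
  unfold omega
  rw [char_natCast_charDegree (isCharacter_of_irr hχ)]
  have h := irr_apply_one_ne_zero hχ
  field_simp

/-- If `H ≤ G` has index prime to `p` and `η` is a principal block character of `H` of degree
prime to `p`, then some principal block character of `G` of degree prime to `p` lies over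
`η`. -/
theorem exists_pPrime_principal_over [Finite G] (p : ℕ) [Fact p.Prime] (M : Ideal AlgInt)
    (hM : IsPModular p M) (H : Subgroup G) [Fintype H] (hidx : ¬ p ∣ H.index)
    (η : IrrCharacter H) (hη : η ∈ principalBlock M H)
    (hdeg : ¬ p ∣ charDegree (η : H → ℂ)) :
    ∃ χ : IrrCharacter G, χ ∈ principalBlock M G ∧ ¬ p ∣ charDegree (χ : G → ℂ) ∧
      classInner (fun h : H => (χ : G → ℂ) h) (η : H → ℂ) ≠ 0 := by
  classical
  have hMp := isPrime_of_isPModular hM
  have := Fintype.ofFinite G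
  have := finite_irrCharacter G
  have : Fintype (IrrCharacter G) := Fintype.ofFinite _
  have hm : ∀ χ : IrrCharacter G, ∃ m : ℕ,
      classInner (fun h : H => (χ : G → ℂ) h) (η : H → ℂ) = m := fun χ =>
    classInner_char_nat (isCharacter_restrict H (isCharacter_of_irr χ.2)) (isCharacter_of_irr η.2)
  choose m hm using hm
  set ι : G → ℂ := fun g => (sReg p : MonoidAlgebra ℂ G).coeff g with hι
  have hιc : IsClassFunction G ι := fun g h =>
    (mem_center_iff (sReg p : MonoidAlgebra ℂ G)).mp (sReg_mem_center p) h g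
  have hexp := classFunction_expand_sum ι hιc
  have hres : (fun h : H => ι h) = fun h : H => (sReg p : MonoidAlgebra ℂ H).coeff h := by
    funext h
    show (sReg p : MonoidAlgebra ℂ G).coeff (h : G) = (sReg p : MonoidAlgebra ℂ H).coeff h
    rw [coeff_sReg, coeff_sReg, Subgroup.orderOf_coe]
  have h2 : classInner (fun h : H => ι h) (η : H → ℂ)
      = ∑ χ : IrrCharacter G, classInner ι (χ : G → ℂ) *
          classInner (fun h : H => (χ : G → ℂ) h) (η : H → ℂ) := by
    have h3 : (fun h : H => ι h) = ∑ χ : IrrCharacter G,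
        classInner ι (χ : G → ℂ) • (fun h : H => (χ : G → ℂ) h) := by
      funext h
      rw [hexp h, Finset.sum_apply]
      rfl
    rw [h3, classInner_sum_left]
    exact Finset.sum_congr rfl fun χ _ => classInner_smul_left _ _ _
  rw [hres, classInner_indicator] at h2
  have hG : (Nat.card G : ℂ) = (H.index : ℂ) * (Nat.card H : ℂ) := by
    rw [← Nat.cast_mul, Subgroup.index_mul_card]
  have hH0 : (Nat.card H : ℂ) ≠ 0 := by exact_mod_cast Nat.card_pos.ne'
  have hI0 : (H.index : ℂ) ≠ 0 := by exact_mod_cast Subgroup.index_ne_zero_of_finite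
  have key : (H.index : ℂ) * pair (η : H → ℂ) (sReg p)
      = ∑ χ : IrrCharacter G, (m χ : ℂ) * pair (χ : G → ℂ) (sReg p) := by
    have h3 := congrArg (starRingEnd ℂ) h2
    rw [map_mul, map_inv₀, Complex.conj_conj, map_natCast, map_sum] at h3
    have h4 : ∀ χ : IrrCharacter G, conj (classInner ι (χ : G → ℂ) *
        classInner (fun h : H => (χ : G → ℂ) h) (η : H → ℂ))
        = (Nat.card G : ℂ)⁻¹ * ((m χ : ℂ) * pair (χ : G → ℂ) (sReg p)) := by
      intro χ
      rw [hι, classInner_indicator, hm, map_mul, map_mul, map_inv₀, Complex.conj_conj,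
        map_natCast, map_natCast]
      ring
    rw [Finset.sum_congr rfl (fun χ _ => h4 χ), ← Finset.mul_sum, hG] at h3
    have h5 : (H.index : ℂ) * pair (η : H → ℂ) (sReg p) = (H.index : ℂ) * (Nat.card H : ℂ) *
        ((Nat.card H : ℂ)⁻¹ * pair (η : H → ℂ) (sReg p)) := by
      field_simp
    rw [h5, h3]
    field_simp
  have hu : ¬ MemLocalIdeal M (omega (η : H → ℂ) (sReg p)) := omega_sReg_not_mem hM η hη
  have hL : ¬ MemLocalIdeal M ((H.index : ℂ) * pair (η : H → ℂ) (sReg p)) := by
    rw [pair_eq_degree_mul_omega η.2]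
    refine not_memLocalIdeal_mul hMp (memLocalRing_natCast hMp _)
      (fun h => hidx ((memLocalIdeal_natCast_iff hM _).mp h)) ?_
    exact not_memLocalIdeal_mul hMp (memLocalRing_natCast hMp _)
      (fun h => hdeg ((memLocalIdeal_natCast_iff hM _).mp h)) hu
  rw [key] at hL
  have hex : ∃ χ : IrrCharacter G,
      ¬ MemLocalIdeal M ((m χ : ℂ) * pair (χ : G → ℂ) (sReg p)) := by
    by_contra hall
    exact hL (memLocalIdeal_sum hMp _ _ (fun χ _ => by
      by_contra hχ
      exact hall ⟨χ, hχ⟩))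
  obtain ⟨χ, hχ⟩ := hex
  have hpair := pair_eq_degree_mul_omega χ.2 (sReg p)
  have hm0 : m χ ≠ 0 := by
    intro h0
    apply hχ
    rw [h0, Nat.cast_zero, zero_mul]
    exact memLocalIdeal_zero hMp
  have hω0 : omega (χ : G → ℂ) (sReg p) ≠ 0 := by
    intro h0
    apply hχ
    rw [hpair, h0, mul_zero, mul_zero]
    exact memLocalIdeal_zero hMp
  have hχB : χ ∈ principalBlock M G := by
    by_contra hnot
    exact hω0 (omega_sReg_eq_zero hM χ hnot)
  have hωR : MemLocalRing M (omega (χ : G → ℂ) (sReg p)) :=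
    Cfsg.Agent.Lib.Helper16.ZR.omega_memLocalRing hMp χ.2 (sReg p) (sReg_mem_center p)
      (sReg_mem_intSubring p hMp)
  refine ⟨χ, hχB, ?_, ?_⟩
  · intro hdvd
    apply hχ
    rw [hpair]
    exact memLocalIdeal_mul_left hMp (memLocalRing_natCast hMp _)
      (memLocalIdeal_mul_right hMp (memLocalIdeal_natCast_of_dvd hM hdvd) hωR)
  · rw [hm]
    exact_mod_cast hm0

/-- Let `N` be normal in `G`, `P` a Sylow `p`-subgroup of `G` and `θ` a principal block
character of `N` of degree prime to `p` that extends to `N P`.  Then some principal block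
character of `G` of degree prime to `p` lies over `θ`. -/
theorem exists_over_of_extends [Finite G] (N : Subgroup G) [N.Normal] (p : ℕ) [Fact p.Prime]
    (M : Ideal AlgInt) (hM : IsPModular p M) (P : Sylow p G) [Fintype N]
    (θ : IrrCharacter N) (hθ : θ ∈ principalBlock M N)
    (hdeg : ¬ p ∣ charDegree (θ : N → ℂ))
    (hext : ∃ η : IrrCharacter ↥(N ⊔ (P : Subgroup G)), ∀ n : N,
      (η : ↥(N ⊔ (P : Subgroup G)) → ℂ) (Subgroup.inclusion le_sup_left n) = (θ : N → ℂ) n) :
    ∃ χ : IrrCharacter G, χ ∈ principalBlock M G ∧ ¬ p ∣ charDegree (χ : G → ℂ) ∧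
      classInner (fun n : N => (χ : G → ℂ) n) (θ : N → ℂ) ≠ 0 := by
  classical
  have hp : p.Prime := Fact.out
  have hMp := isPrime_of_isPModular hM
  set H : Subgroup G := N ⊔ (P : Subgroup G) with hH
  obtain ⟨η, hη⟩ := hext
  have : Fintype H := Fintype.ofFinite H
  have := finite_irrCharacter H
  have : Fintype (IrrCharacter H) := Fintype.ofFinite _
  set incl : N →* H := Subgroup.inclusion le_sup_left with hincl
  have hinj : Function.Injective incl := Subgroup.inclusion_injective le_sup_left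
  -- `p`-regular elements of `H` lie in `N`
  have hreg : ∀ h : H, ¬ p ∣ orderOf h → (h : G) ∈ N := by
    intro h hph
    have h1 : (h : G) ∈ ((N ⊔ (P : Subgroup G) : Subgroup G) : Set G) := h.2
    rw [Subgroup.normal_mul] at h1
    obtain ⟨n, hn, u, hu, hnu⟩ := Set.mem_mul.mp h1
    have h2 : (QuotientGroup.mk (h : G) : G ⧸ N) = QuotientGroup.mk u := by
      rw [← hnu, QuotientGroup.mk_mul, (QuotientGroup.eq_one_iff n).mpr hn, one_mul]
    have h3 : orderOf (QuotientGroup.mk (h : G) : G ⧸ N) ∣ orderOf (h : G) :=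
      orderOf_map_dvd (QuotientGroup.mk' N) _
    have h4 : orderOf (QuotientGroup.mk u : G ⧸ N) ∣ orderOf u :=
      orderOf_map_dvd (QuotientGroup.mk' N) u
    obtain ⟨k, hk⟩ := P.isPGroup' ⟨u, hu⟩
    have h5 : orderOf u ∣ p ^ k :=
      orderOf_dvd_of_pow_eq_one (by simpa using congrArg Subtype.val hk)
    have h6 : orderOf (QuotientGroup.mk (h : G) : G ⧸ N) ∣ p ^ k := by
      rw [h2]
      exact h4.trans h5
    have hcop : Nat.Coprime (orderOf (h : G)) (p ^ k) :=
      Nat.Coprime.pow_right _ ((Nat.Prime.coprime_iff_not_dvd hp).mpr (by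
        rwa [Subgroup.orderOf_coe])).symm
    have h7 : orderOf (QuotientGroup.mk (h : G) : G ⧸ N) = 1 := by
      have h8 := Nat.dvd_gcd h3 h6
      rw [hcop.gcd_eq_one] at h8
      exact Nat.dvd_one.mp h8
    exact (QuotientGroup.eq_one_iff _).mp (orderOf_eq_one_iff.mp h7)
  -- the sum over `p`-regular elements
  have hsum : pair (η : H → ℂ) (sReg p) = pair (θ : N → ℂ) (sReg p) := by
    rw [pair_eq_sum, pair_eq_sum]
    symm
    refine Finset.sum_of_injOn incl (fun a _ b _ hab => hinj hab) (fun _ _ => Finset.mem_coe.mpr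
      (Finset.mem_univ _)) ?_ ?_
    · intro h _ hnot
      have hnot' : (h : G) ∉ N := by
        intro hmem
        apply hnot
        exact ⟨⟨(h : G), hmem⟩, Finset.mem_coe.mpr (Finset.mem_univ _), Subtype.ext rfl⟩
      have hsing : p ∣ orderOf h := by
        by_contra hp'
        exact hnot' (hreg h hp')
      rw [coeff_sReg, if_pos hsing, zero_mul]
    · intro n _
      rw [hη n, coeff_sReg, coeff_sReg]
      have ho : orderOf (incl n) = orderOf n := by
        rw [← Subgroup.orderOf_coe, ← Subgroup.orderOf_coe]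
        rfl
      rw [ho]
  have hηB : η ∈ principalBlock M H := by
    by_contra hnot
    have h0 := omega_sReg_eq_zero hM η hnot
    have h1 : pair (η : H → ℂ) (sReg p) = 0 := by
      unfold omega at h0
      rcases div_eq_zero_iff.mp h0 with h5 | h5
      · exact h5
      · exact absurd h5 (irr_apply_one_ne_zero η.2)
    rw [hsum] at h1
    apply omega_sReg_not_mem hM θ hθ
    unfold omega
    rw [h1, zero_div]
    exact memLocalIdeal_zero hMp
  have hidx : ¬ p ∣ H.index := fun h =>
    P.not_dvd_index (h.trans (Subgroup.index_dvd_of_le (le_sup_right : (P : Subgroup G) ≤ H)))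
  have hdegη : ¬ p ∣ charDegree (η : H → ℂ) := by
    have h1 : (η : H → ℂ) 1 = (θ : N → ℂ) 1 := by
      rw [← hη 1, map_one]
    have h2 : charDegree (η : H → ℂ) = charDegree (θ : N → ℂ) := by
      unfold charDegree
      rw [h1]
    rwa [h2]
  obtain ⟨χ, hχB, hχd, hχη⟩ := exists_pPrime_principal_over p M hM H hidx η hηB hdegη
  refine ⟨χ, hχB, hχd, ?_⟩
  -- restrict to `N`
  set fH : H → ℂ := fun h => (χ : G → ℂ) h with hfH
  have hfHc : IsClassFunction H fH := restrict_isClassFunction H (irr_isClassFunction χ)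
  have hexp := classFunction_expand_sum fH hfHc
  have hmH : ∀ ψ : IrrCharacter H, ∃ a : ℕ, classInner fH (ψ : H → ℂ) = a := fun ψ =>
    classInner_char_nat (isCharacter_restrict H (isCharacter_of_irr χ.2)) (isCharacter_of_irr ψ.2)
  choose a ha using hmH
  have hk : ∀ ψ : IrrCharacter H, ∃ b : ℕ,
      classInner (fun n : N => (ψ : H → ℂ) (incl n)) (θ : N → ℂ) = b := fun ψ =>
    classInner_char_nat (isCharacter_comp_hom incl (isCharacter_of_irr ψ.2))
      (isCharacter_of_irr θ.2)
  choose b hb using hk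
  have h1 : (fun n : N => (χ : G → ℂ) n) = ∑ ψ : IrrCharacter H,
      classInner fH (ψ : H → ℂ) • (fun n : N => (ψ : H → ℂ) (incl n)) := by
    funext n
    rw [Finset.sum_apply]
    exact hexp (incl n)
  rw [h1, classInner_sum_left]
  have h2 : ∑ ψ : IrrCharacter H, classInner (classInner fH (ψ : H → ℂ) •
      (fun n : N => (ψ : H → ℂ) (incl n))) (θ : N → ℂ) = ((∑ ψ : IrrCharacter H, a ψ * b ψ : ℕ) : ℂ) := by
    push_cast
    refine Finset.sum_congr rfl fun ψ _ => ?_
    rw [classInner_smul_left, ha, hb]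
  rw [h2]
  have ha0 : a η ≠ 0 := by
    intro h0
    apply hχη
    have := ha η
    rw [h0, Nat.cast_zero] at this
    exact this
  have hb1 : b η = 1 := by
    have h3 : (fun n : N => (η : H → ℂ) (incl n)) = (θ : N → ℂ) := funext hη
    have h4 := hb η
    rw [h3, irr_orthonormal, if_pos rfl] at h4
    exact_mod_cast h4.symm
  have h5 : a η * b η ≤ ∑ ψ : IrrCharacter H, a ψ * b ψ :=
    Finset.single_le_sum (f := fun ψ : IrrCharacter H => a ψ * b ψ) (fun _ _ => Nat.zero_le _)
      (Finset.mem_univ η)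
  rw [hb1, mul_one] at h5
  have h6 : (∑ ψ : IrrCharacter H, a ψ * b ψ) ≠ 0 := by
    have := Nat.pos_of_ne_zero ha0
    omega
  exact_mod_cast h6

end Cfsg.Agent.Lib.Helper80.NormB0b
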