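import Mathlib
import Cfsg.Prelude.Def_Blocks
import Cfsg.Agent.Lib.Helper80.Integrality
import Cfsg.Agent.Lib.CT.Kernel
import Cfsg.Agent.Lib.CT.Orth
import Cfsg.Agent.Lib.CT.Clifford
import Cfsg.Agent.Lib.CT.FrobRec
import Cfsg.Agent.Lib.CT.IndChar
import Cfsg.Agent.Lib.CT.LinChar
import Cfsg.Agent.Lib.CT.Ops
import Cfsg.Agent.Lib.CT.Wedderburn
import Cfsg.Agent.Lib.Helper63.PFrattini
import Cfsg.Agent.S0081

/-!
Kernel of the irreducible characters of degree prime to `p` (tools for S4591):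

* `sum_eq_fixed_add`: for a `p`-group acting on a finite set with a unique fixed point, the
  sum of an invariant algebraic-integer valued function is the value at the fixed point plus
  `p` times an algebraic integer;
* `normal_le_ker`: a normal subgroup `N` with `C_N(P) = 1` lies in the kernel of every
  irreducible character of degree prime to `p`;
* `core_le_ker`: so does the normal core of `N P'`;
* `mem_commutator_of_ker`: an element of `P` in all those kernels lies in `P'`;
* `eq_one_of_centralizes`: a `p'`-element of `C_G(P)` in all those kernels is trivial.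
-/

set_option autoImplicit false

namespace Cfsg.Agent.Lib.Helper80.PPrimeKer

open Cfsg Cfsg.Agent.Lib.CT
open scoped commutatorElement

/-- Fibres of an invariant function under a `p`-group action with a unique fixed point. -/
theorem card_fiber_modEq {p : ℕ} [Fact p.Prime] {Q : Type*} [Group Q] [Finite Q]
    (hQ : IsPGroup p Q) {α : Type*} [Finite α] [MulAction Q α] (a₀ : α)
    (hfix : ∀ a : α, (∀ x : Q, x • a = a) → a = a₀) (h0 : ∀ x : Q, x • a₀ = a₀)
    (f : α → ℂ) (hf : ∀ (x : Q) (a : α), f (x • a) = f a) (v : ℂ) :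
    Nat.card {a : α // f a = v} ≡ (if f a₀ = v then 1 else 0) [MOD p] := by
  classical
  let act : MulAction Q {a : α // f a = v} :=
    { smul := fun x a => ⟨x • a.1, by rw [hf]; exact a.2⟩
      one_smul := fun a => Subtype.ext (one_smul Q a.1)
      mul_smul := fun x y a => Subtype.ext (mul_smul x y a.1) }
  have h1 := hQ.card_modEq_card_fixedPoints {a : α // f a = v}
  refine h1.trans ?_
  have h2 : Nat.card (MulAction.fixedPoints Q {a : α // f a = v}) =
      (if f a₀ = v then 1 else 0) := by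
    split_ifs with h
    · rw [Nat.card_eq_one_iff_unique]
      refine ⟨⟨fun a b => ?_⟩, ⟨⟨⟨a₀, h⟩, fun x => Subtype.ext (h0 x)⟩⟩⟩
      have ha : a.1.1 = a₀ := hfix _ fun x => congrArg Subtype.val (a.2 x)
      have hb : b.1.1 = a₀ := hfix _ fun x => congrArg Subtype.val (b.2 x)
      exact Subtype.ext (Subtype.ext (ha.trans hb.symm))
    · rw [Nat.card_eq_zero]
      left
      refine ⟨fun a => h ?_⟩
      have ha : a.1.1 = a₀ := hfix _ fun x => congrArg Subtype.val (a.2 x)
      rw [← ha]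
      exact a.1.2
  rw [h2]

/-- For a `p`-group acting with a unique fixed point `a₀`, the sum of an invariant
algebraic-integer valued function is `f a₀` plus `p` times an algebraic integer. -/
theorem sum_eq_fixed_add {p : ℕ} [Fact p.Prime] {Q : Type*} [Group Q] [Finite Q]
    (hQ : IsPGroup p Q) {α : Type*} [Fintype α] [MulAction Q α] (a₀ : α)
    (hfix : ∀ a : α, (∀ x : Q, x • a = a) → a = a₀) (h0 : ∀ x : Q, x • a₀ = a₀)
    (f : α → ℂ) (hf : ∀ (x : Q) (a : α), f (x • a) = f a) (hint : ∀ a, IsIntegral ℤ (f a)) :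
    ∃ β : ℂ, IsIntegral ℤ β ∧ ∑ a, f a = f a₀ + (p : ℂ) * β := by
  classical
  have hk : ∀ v : ℂ, ∃ k : ℤ, ((Finset.univ.filter fun a : α => f a = v).card : ℂ) =
      (if f a₀ = v then 1 else 0) + (p : ℂ) * (k : ℂ) := by
    intro v
    have h1 := card_fiber_modEq hQ a₀ hfix h0 f hf v
    have h2 : Nat.card {a : α // f a = v} = (Finset.univ.filter fun a : α => f a = v).card := by
      rw [Nat.card_eq_fintype_card, Fintype.card_subtype]
    rw [h2] at h1
    obtain ⟨k, hk⟩ := (Nat.modEq_iff_dvd.mp h1.symm)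
    refine ⟨k, ?_⟩
    have h3 : (((Finset.univ.filter fun a : α => f a = v).card : ℤ) : ℂ) =
        (((if f a₀ = v then 1 else 0 : ℕ) : ℤ) : ℂ) + ((p : ℤ) : ℂ) * (k : ℂ) := by
      rw [← Int.cast_mul, ← Int.cast_add]
      congr 1
      linarith
    split_ifs at h3 ⊢ with h <;> simpa using h3
  choose k hk using hk
  refine ⟨∑ v ∈ Finset.univ.image f, (k v : ℂ) * v, ?_, ?_⟩
  · apply IsIntegral.sum
    intro v hv
    obtain ⟨a, -, rfl⟩ := Finset.mem_image.mp hv
    exact (isIntegral_algebraMap (R := ℤ) (A := ℂ) (x := k (f a))).mul (hint a)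
  · have h1 : ∑ a, f a = ∑ v ∈ Finset.univ.image f,
        ((Finset.univ.filter fun a : α => f a = v).card : ℂ) * v := by
      have := Finset.sum_comp (s := (Finset.univ : Finset α)) (fun v : ℂ => v) f
      simp only [nsmul_eq_mul] at this
      exact this
    rw [h1]
    simp_rw [hk, add_mul, Finset.sum_add_distrib]
    congr 1
    · rw [Finset.sum_eq_single (f a₀)]
      · simp
      · intro b _ hb
        rw [if_neg (Ne.symm hb), zero_mul]
      · intro h
        exact absurd (Finset.mem_image_of_mem f (Finset.mem_univ a₀)) h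
    · rw [Finset.mul_sum]
      apply Finset.sum_congr rfl
      intro v _
      ring

/-- A nonzero character sum over a subgroup yields a nonzero vector fixed by the subgroup. -/
theorem exists_fixed_of_sum_ne_zero {G : Type*} [Group G] {n : ℕ}
    (ρ : Representation ℂ G (Fin n → ℂ)) (H : Subgroup G) [Fintype H]
    (h : ∑ x : H, ρ.character (x : G) ≠ 0) :
    ∃ v : Fin n → ℂ, v ≠ 0 ∧ ∀ x ∈ H, ρ x v = v := by
  classical
  set A : Module.End ℂ (Fin n → ℂ) := ∑ x : H, ρ (x : G) with hA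
  have htr : LinearMap.trace ℂ (Fin n → ℂ) A = ∑ x : H, ρ.character (x : G) := by
    rw [hA, map_sum]
    rfl
  have hA0 : A ≠ 0 := by
    intro h0
    rw [h0, map_zero] at htr
    exact h htr.symm
  obtain ⟨w, hw⟩ : ∃ w, A w ≠ 0 := by
    by_contra hcon
    push Not at hcon
    exact hA0 (LinearMap.ext fun w => by simpa using hcon w)
  refine ⟨A w, hw, fun x hx => ?_⟩
  rw [hA, LinearMap.sum_apply, map_sum]
  have : ∀ y : H, ρ x (ρ (y : G) w) = ρ ((⟨x, hx⟩ * y : H) : G) w := by
    intro y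
    rw [Subgroup.coe_mul, map_mul]
    rfl
  simp_rw [this]
  exact Fintype.sum_equiv (Equiv.mulLeft (⟨x, hx⟩ : H)) _ _ fun y => rfl

/-- In an irreducible representation, a normal subgroup fixing a nonzero vector acts
trivially. -/
theorem ker_of_fixed_vector {G : Type*} [Group G] {n : ℕ}
    (ρ : Representation ℂ G (Fin n → ℂ)) (hρ : ρ.IsIrreducible) (M : Subgroup G) [hM : M.Normal]
    (v : Fin n → ℂ) (hv : v ≠ 0) (hfix : ∀ m ∈ M, ρ m v = v) : ∀ m ∈ M, ρ m = 1 := by
  let W : Subrepresentation ρ :=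
    { toSubmodule :=
        { carrier := {w | ∀ m ∈ M, ρ m w = w}
          add_mem' := fun {a b} ha hb m hm => by rw [map_add, ha m hm, hb m hm]
          zero_mem' := fun m _ => map_zero _
          smul_mem' := fun c w hw m hm => by rw [map_smul, hw m hm] }
      apply_mem_toSubmodule := by
        intro g w hw m hm
        have h1 : ρ m (ρ g w) = ρ g (ρ (g⁻¹ * m * g) w) := by
          rw [← Module.End.mul_apply, ← Module.End.mul_apply, ← map_mul, ← map_mul]
          congr 2
          group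
        have h2 : g⁻¹ * m * g ∈ M := by
          have := hM.conj_mem m hm g⁻¹
          simpa using this
        show ρ m (ρ g w) = ρ g w
        rw [h1, hw _ h2] }
  have hW : W ≠ ⊥ := by
    intro h0
    have hvW : v ∈ W.toSubmodule := hfix
    rw [h0] at hvW
    exact hv ((Submodule.mem_bot ℂ).mp hvW)
  have htop : W = ⊤ := (hρ.eq_bot_or_eq_top W).resolve_left hW
  intro m hm
  apply LinearMap.ext
  intro w
  have hwW : w ∈ W.toSubmodule := by
    rw [htop]
    exact Submodule.mem_top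
  exact hwW m hm

/-- A normal subgroup `N` with `C_N(P) = 1` (`P` a Sylow `p`-subgroup) is contained in the
kernel of every irreducible character of degree prime to `p`. -/
theorem normal_le_ker {G : Type*} [Group G] [Finite G] (p : ℕ) [Fact p.Prime] (P : Sylow p G)
    (N : Subgroup G) [hNn : N.Normal]
    (hN : N ⊓ Subgroup.centralizer ((P : Subgroup G) : Set G) = ⊥)
    (χ : IrrCharacter G) (hχ : ¬ p ∣ charDegree (χ : G → ℂ)) :
    ∀ n ∈ N, (χ : G → ℂ) n = (χ : G → ℂ) 1 := by
  classical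
  have hp : p.Prime := Fact.out
  have : Fintype N := Fintype.ofFinite N
  let act : MulAction (P : Subgroup G) N :=
    { smul := fun x n => ⟨(x : G) * n * (x : G)⁻¹, hNn.conj_mem n n.2 x⟩
      one_smul := fun n => Subtype.ext (by
        show ((1 : (P : Subgroup G)) : G) * (n : G) * ((1 : (P : Subgroup G)) : G)⁻¹ = n
        simp)
      mul_smul := fun x y n => Subtype.ext (by
        show ((x * y : (P : Subgroup G)) : G) * (n : G) * ((x * y : (P : Subgroup G)) : G)⁻¹ =
          (x : G) * ((y : G) * (n : G) * (y : G)⁻¹) * (x : G)⁻¹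
        simp [mul_assoc]) }
  have hsm : ∀ (x : (P : Subgroup G)) (n : N), ((x • n : N) : G) = (x : G) * n * (x : G)⁻¹ :=
    fun x n => rfl
  have hcf := Wedderburn.char_isClassFunction (Wedderburn.isCharacter_of_irr χ.2)
  obtain ⟨β, hβ, hsum⟩ := sum_eq_fixed_add (p := p) (Q := (P : Subgroup G)) P.isPGroup'
    (α := N) (1 : N)
    (by
      intro a ha
      have h1 : (a : G) ∈ N ⊓ Subgroup.centralizer ((P : Subgroup G) : Set G) := by
        refine Subgroup.mem_inf.mpr ⟨a.2, ?_⟩
        rw [Subgroup.mem_centralizer_iff]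
        intro y hy
        have h2 := congrArg Subtype.val (ha ⟨y, hy⟩)
        rw [hsm] at h2
        simp only at h2
        calc y * (a : G) = (y * (a : G) * y⁻¹) * y := by group
          _ = (a : G) * y := by rw [h2]
      rw [hN, Subgroup.mem_bot] at h1
      exact Subtype.ext h1)
    (fun x => Subtype.ext (by rw [hsm]; simp))
    (fun n : N => (χ : G → ℂ) n)
    (fun x n => by
      show (χ : G → ℂ) ((x • n : N) : G) = (χ : G → ℂ) n
      rw [hsm]
      exact hcf n x)
    (fun n => Cfsg.Agent.Lib.Helper80.Integrality.isIntegral_irrCharacter χ n)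
  have hS : ∑ n : N, (χ : G → ℂ) n ≠ 0 := by
    intro h0
    rw [h0] at hsum
    have hdeg : (χ : G → ℂ) 1 = (charDegree (χ : G → ℂ) : ℂ) :=
      (Wedderburn.char_natCast_charDegree (Wedderburn.isCharacter_of_irr χ.2)).symm
    have h1 : ((charDegree (χ : G → ℂ) : ℂ)) / (p : ℂ) = -β := by
      have hp0 : (p : ℂ) ≠ 0 := by exact_mod_cast hp.ne_zero
      field_simp
      rw [← hdeg]
      simp only [Subgroup.coe_one] at hsum
      linear_combination -hsum
    have h2 : IsIntegral ℤ ((charDegree (χ : G → ℂ) : ℂ) / (p : ℂ)) := by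
      rw [h1]
      exact hβ.neg
    exact hχ (Cfsg.Agent.Lib.Helper80.Integrality.dvd_of_isIntegral_div hp.ne_zero h2)
  obtain ⟨n, ρ, hρ, hχρ⟩ := χ.2
  rw [← hχρ] at hS ⊢
  obtain ⟨v, hv, hfix⟩ := exists_fixed_of_sum_ne_zero ρ N hS
  intro m hm
  rw [Kernel.rep_char_eq_iff]
  exact ker_of_fixed_vector ρ hρ N v hv hfix m hm

/-- The sum of a character of a subgroup `D` over `D` is `|D|` times a natural number. -/
theorem sum_eq_card_mul_nat {D : Type*} [Group D] [Fintype D] {f : D → ℂ}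
    (hf : IsCharacter D f) : ∃ j : ℕ, ∑ x : D, f x = (Nat.card D : ℂ) * (j : ℂ) := by
  obtain ⟨j, hj⟩ := Clifford.classInner_char_nat hf (Ops.isCharacter_one (G := D))
  refine ⟨j, ?_⟩
  unfold classInner at hj
  have h0 : (Nat.card D : ℂ) ≠ 0 := by exact_mod_cast Nat.card_pos.ne'
  simp only [map_one, mul_one] at hj
  rw [← hj]
  field_simp

/-- If `p` does not divide the degree of `χ`, the sum of `χ` over the derived subgroup of a
Sylow `p`-subgroup is nonzero (`χ_P` has a linear constituent). -/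
theorem sum_commutator_ne_zero {G : Type*} [Group G] [Finite G] (p : ℕ) [Fact p.Prime]
    (P : Sylow p G) (χ : IrrCharacter G) (hχ : ¬ p ∣ charDegree (χ : G → ℂ))
    [Fintype ↥⁅(P : Subgroup G), (P : Subgroup G)⁆] :
    ∑ x : ↥⁅(P : Subgroup G), (P : Subgroup G)⁆, (χ : G → ℂ) x ≠ 0 := by
  classical
  have hp : p.Prime := Fact.out
  have hD : ⁅(P : Subgroup G), (P : Subgroup G)⁆ ≤ (P : Subgroup G) := by
    rw [Subgroup.commutator_le]
    intro a ha b hb
    rw [commutatorElement_def]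
    exact mul_mem (mul_mem (mul_mem ha hb) (inv_mem ha)) (inv_mem hb)
  have : Fintype (P : Subgroup G) := Fintype.ofFinite _
  have := Wedderburn.finite_irrCharacter (P : Subgroup G)
  have : Fintype (IrrCharacter (P : Subgroup G)) := Fintype.ofFinite _
  have hψ : IsCharacter (P : Subgroup G) (fun y : (P : Subgroup G) => (χ : G → ℂ) y) :=
    Ops.isCharacter_restrict (P : Subgroup G) (Wedderburn.isCharacter_of_irr χ.2)
  have hψcf := Wedderburn.char_isClassFunction hψ
  have hk : ∀ θ : IrrCharacter (P : Subgroup G), ∃ k : ℕ,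
      classInner (fun y : (P : Subgroup G) => (χ : G → ℂ) y) (θ : ↥(P : Subgroup G) → ℂ) = k :=
    fun θ => Clifford.classInner_char_nat hψ (Wedderburn.isCharacter_of_irr θ.2)
  choose k hk using hk
  have hexp : ∀ y : (P : Subgroup G), (χ : G → ℂ) y =
      ∑ θ : IrrCharacter (P : Subgroup G), (k θ : ℂ) * (θ : ↥(P : Subgroup G) → ℂ) y := by
    intro y
    have := Orth.classFunction_expand_sum _ hψcf y
    simp_rw [hk] at this
    exact this
  -- a linear constituent
  have hdeg : charDegree (χ : G → ℂ) =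
      ∑ θ : IrrCharacter (P : Subgroup G), k θ * charDegree (θ : ↥(P : Subgroup G) → ℂ) := by
    have h1 := hexp 1
    have h2 : (charDegree (χ : G → ℂ) : ℂ) = (χ : G → ℂ) 1 :=
      Wedderburn.char_natCast_charDegree (Wedderburn.isCharacter_of_irr χ.2)
    rw [Subgroup.coe_one, ← h2] at h1
    have h3 : ∀ θ : IrrCharacter (P : Subgroup G), (θ : ↥(P : Subgroup G) → ℂ) 1 =
        (charDegree (θ : ↥(P : Subgroup G) → ℂ) : ℂ) :=
      fun θ => (Wedderburn.char_natCast_charDegree (Wedderburn.isCharacter_of_irr θ.2)).symm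
    simp_rw [h3] at h1
    exact_mod_cast h1
  obtain ⟨θ₀, hk0, hθ0⟩ : ∃ θ₀ : IrrCharacter (P : Subgroup G), k θ₀ ≠ 0 ∧
      ¬ p ∣ charDegree (θ₀ : ↥(P : Subgroup G) → ℂ) := by
    by_contra hcon
    push Not at hcon
    apply hχ
    rw [hdeg]
    apply Finset.dvd_sum
    intro θ _
    by_cases h0 : k θ = 0
    · rw [h0, zero_mul]; exact dvd_zero p
    · exact Dvd.dvd.mul_left (hcon θ h0) _
  have hθ1 : (θ₀ : ↥(P : Subgroup G) → ℂ) 1 = 1 := by
    have h1 := Cfsg.Agent.Lib.Helper80.Integrality.charDegree_dvd_card θ₀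
    have h2 : Nat.card (P : Subgroup G) = p ^ (Nat.card G).factorization p :=
      P.card_eq_multiplicity
    rw [h2] at h1
    obtain ⟨j, -, hj⟩ := (Nat.dvd_prime_pow hp).mp h1
    have hj0 : j = 0 := by
      by_contra hne
      apply hθ0
      rw [hj]
      exact dvd_pow_self p hne
    rw [hj0, pow_zero] at hj
    rw [← Wedderburn.char_natCast_charDegree (Wedderburn.isCharacter_of_irr θ₀.2), hj]
    simp
  obtain ⟨f, hf⟩ := LinChar.exists_hom_of_isCharacter _ (Wedderburn.isCharacter_of_irr θ₀.2) hθ1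
  have hker : ⁅(P : Subgroup G), (P : Subgroup G)⁆ ≤ (f.ker).map (P : Subgroup G).subtype := by
    rw [Subgroup.commutator_le]
    intro a ha b hb
    refine ⟨⁅(⟨a, ha⟩ : (P : Subgroup G)), ⟨b, hb⟩⁆, ?_, rfl⟩
    show f ⁅(⟨a, ha⟩ : (P : Subgroup G)), ⟨b, hb⟩⁆ = 1
    rw [map_commutatorElement, commutatorElement_eq_one_iff_commute]
    exact Commute.all _ _
  have hone : ∀ x : ↥⁅(P : Subgroup G), (P : Subgroup G)⁆,
      (θ₀ : ↥(P : Subgroup G) → ℂ) ⟨x, hD x.2⟩ = 1 := by
    intro x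
    obtain ⟨y, hy, hyx⟩ := hker x.2
    have hy' : y = ⟨x, hD x.2⟩ := Subtype.ext hyx
    rw [hf, ← hy', MonoidHom.mem_ker.mp hy]
    simp
  -- sums over the derived subgroup
  have hj : ∀ θ : IrrCharacter (P : Subgroup G), ∃ j : ℕ,
      ∑ x : ↥⁅(P : Subgroup G), (P : Subgroup G)⁆, (θ : ↥(P : Subgroup G) → ℂ) ⟨x, hD x.2⟩ =
        (Nat.card ↥⁅(P : Subgroup G), (P : Subgroup G)⁆ : ℂ) * (j : ℂ) := by
    intro θ
    exact sum_eq_card_mul_nat (f := fun x : ↥⁅(P : Subgroup G), (P : Subgroup G)⁆ =>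
      (θ : ↥(P : Subgroup G) → ℂ) ⟨x, hD x.2⟩)
      (Ops.isCharacter_comp_hom (Subgroup.inclusion hD) (Wedderburn.isCharacter_of_irr θ.2))
  choose j hj using hj
  have hc0 : (Nat.card ↥⁅(P : Subgroup G), (P : Subgroup G)⁆ : ℂ) ≠ 0 := by
    exact_mod_cast Nat.card_pos.ne'
  have hj0 : j θ₀ = 1 := by
    have h1 := hj θ₀
    simp_rw [hone] at h1
    simp only [Finset.sum_const, Finset.card_univ, nsmul_eq_mul, mul_one] at h1
    rw [← Nat.card_eq_fintype_card] at h1
    have h2 : (1 : ℂ) = (j θ₀ : ℂ) := by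
      apply mul_left_cancel₀ hc0
      rw [mul_one]
      exact h1
    exact_mod_cast h2.symm
  have hsum : ∑ x : ↥⁅(P : Subgroup G), (P : Subgroup G)⁆, (χ : G → ℂ) x =
      (Nat.card ↥⁅(P : Subgroup G), (P : Subgroup G)⁆ : ℂ) *
        ((∑ θ : IrrCharacter (P : Subgroup G), k θ * j θ : ℕ) : ℂ) := by
    have h1 : ∀ x : ↥⁅(P : Subgroup G), (P : Subgroup G)⁆, (χ : G → ℂ) x =
        ∑ θ : IrrCharacter (P : Subgroup G), (k θ : ℂ) * (θ : ↥(P : Subgroup G) → ℂ) ⟨x, hD x.2⟩ :=
      fun x => hexp ⟨x, hD x.2⟩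
    simp_rw [h1]
    rw [Finset.sum_comm]
    simp_rw [← Finset.mul_sum, hj]
    push_cast
    rw [Finset.mul_sum]
    apply Finset.sum_congr rfl
    intro θ _
    ring
  rw [hsum]
  apply mul_ne_zero hc0
  have hpos : 0 < ∑ θ : IrrCharacter (P : Subgroup G), k θ * j θ := by
    apply Finset.sum_pos'
    · intro θ _; exact Nat.zero_le _
    · exact ⟨θ₀, Finset.mem_univ _, by rw [hj0, mul_one]; exact Nat.pos_of_ne_zero hk0⟩
  exact_mod_cast hpos.ne'

/-- The normal core of `N P'` lies in the kernel of every irreducible character of degree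
prime to `p`, when `N` is normal with `C_N(P) = 1`. -/
theorem core_le_ker {G : Type*} [Group G] [Finite G] (p : ℕ) [Fact p.Prime] (P : Sylow p G)
    (N : Subgroup G) [hNn : N.Normal]
    (hN : N ⊓ Subgroup.centralizer ((P : Subgroup G) : Set G) = ⊥)
    (χ : IrrCharacter G) (hχ : ¬ p ∣ charDegree (χ : G → ℂ)) :
    ∀ g ∈ (N ⊔ ⁅(P : Subgroup G), (P : Subgroup G)⁆).normalCore,
      (χ : G → ℂ) g = (χ : G → ℂ) 1 := by
  classical
  have : Fintype ↥⁅(P : Subgroup G), (P : Subgroup G)⁆ := Fintype.ofFinite _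
  have hA := normal_le_ker p P N hN χ hχ
  have hB := sum_commutator_ne_zero p P χ hχ
  obtain ⟨n, ρ, hρ, hχρ⟩ := χ.2
  rw [← hχρ] at hA hB ⊢
  obtain ⟨v, hv, hfix⟩ := exists_fixed_of_sum_ne_zero ρ _ hB
  let St : Subgroup G :=
    { carrier := {g | ρ g v = v}
      mul_mem' := fun {a b} ha hb => by
        show ρ (a * b) v = v
        rw [map_mul, Module.End.mul_apply, hb, ha]
      one_mem' := by
        show ρ 1 v = v
        rw [map_one]; rfl
      inv_mem' := fun {a} ha => by
        show ρ a⁻¹ v = v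
        have h1 : ρ a⁻¹ (ρ a v) = v := by
          rw [← Module.End.mul_apply, ← map_mul, inv_mul_cancel, map_one]; rfl
        rw [ha] at h1
        exact h1 }
  have h1 : N ⊔ ⁅(P : Subgroup G), (P : Subgroup G)⁆ ≤ St := by
    apply sup_le
    · intro g hg
      show ρ g v = v
      rw [(Kernel.rep_char_eq_iff ρ g).mp (hA g hg)]; rfl
    · intro g hg
      exact hfix g hg
  intro g hg
  rw [Kernel.rep_char_eq_iff]
  exact ker_of_fixed_vector ρ hρ _ v hv
    (fun m hm => h1 (Subgroup.normalCore_le _ hm)) g hg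

/-- Expansion of a character of `G` in irreducible characters with natural coefficients. -/
theorem exists_nat_expand {G : Type*} [Group G] [Fintype G] [Fintype (IrrCharacter G)]
    {Λ : G → ℂ} (hΛ : IsCharacter G Λ) :
    ∃ k : IrrCharacter G → ℕ, (∀ χ : IrrCharacter G, classInner Λ (χ : G → ℂ) = k χ) ∧
      ∀ g, Λ g = ∑ χ : IrrCharacter G, (k χ : ℂ) * (χ : G → ℂ) g := by
  have hk : ∀ χ : IrrCharacter G, ∃ k : ℕ, classInner Λ (χ : G → ℂ) = k :=
    fun χ => Clifford.classInner_char_nat hΛ (Wedderburn.isCharacter_of_irr χ.2)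
  choose k hk using hk
  refine ⟨k, hk, fun g => ?_⟩
  have := Orth.classFunction_expand_sum Λ (Wedderburn.char_isClassFunction hΛ) g
  simp_rw [hk] at this
  exact this

/-- An element of a Sylow `p`-subgroup `P` lying in the kernel of every irreducible character
of degree prime to `p` lies in the derived subgroup of `P`. -/
theorem mem_commutator_of_ker {G : Type*} [Group G] [Finite G] (p : ℕ) [Fact p.Prime]
    (P : Sylow p G) (x : G) (hxP : x ∈ (P : Subgroup G))
    (hx : ∀ χ : IrrCharacter G, ¬ p ∣ charDegree (χ : G → ℂ) →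
      (χ : G → ℂ) x = (χ : G → ℂ) 1) :
    x ∈ ⁅(P : Subgroup G), (P : Subgroup G)⁆ := by
  classical
  by_contra hxD
  have hp : p.Prime := Fact.out
  have : Fintype G := Fintype.ofFinite G
  have : Fintype ↥(P : Subgroup G) := Fintype.ofFinite _
  have := Wedderburn.finite_irrCharacter G
  have : Fintype (IrrCharacter G) := Fintype.ofFinite _
  -- a linear character of `P` not trivial at `x`
  have hne : (Abelianization.of (⟨x, hxP⟩ : ↥(P : Subgroup G))) ≠ 1 := by
    intro h1
    apply hxD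
    have h2 : (⟨x, hxP⟩ : ↥(P : Subgroup G)) ∈ commutator ↥(P : Subgroup G) := by
      rw [← Abelianization.ker_of]
      exact MonoidHom.mem_ker.mpr h1
    rw [← Subgroup.map_subtype_commutator]
    exact ⟨_, h2, rfl⟩
  have : NeZero (Monoid.exponent (Abelianization ↥(P : Subgroup G))) :=
    ⟨Monoid.exponent_ne_zero_of_finite⟩
  obtain ⟨φ, hφ⟩ := CommGroup.exists_apply_ne_one_of_hasEnoughRootsOfUnity
    (Abelianization ↥(P : Subgroup G)) ℂ hne
  set f : ↥(P : Subgroup G) →* ℂˣ := φ.comp Abelianization.of with hf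
  have hfx : f ⟨x, hxP⟩ ≠ 1 := hφ
  have hlam : IsCharacter ↥(P : Subgroup G) (fun y => ((f y : ℂˣ) : ℂ)) :=
    LinChar.isCharacter_of_hom f
  have hΛ := IndChar.isCharacter_indFun (P : Subgroup G) _ hlam
  obtain ⟨k, hk, hexp⟩ := exists_nat_expand hΛ
  have hdeg : (P : Subgroup G).index =
      ∑ χ : IrrCharacter G, k χ * charDegree (χ : G → ℂ) := by
    have h1 := hexp 1
    rw [FrobRec.indFun_one] at h1
    have h3 : ∀ χ : IrrCharacter G, (χ : G → ℂ) 1 = (charDegree (χ : G → ℂ) : ℂ) :=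
      fun χ => (Wedderburn.char_natCast_charDegree (Wedderburn.isCharacter_of_irr χ.2)).symm
    simp_rw [h3] at h1
    simp only [map_one, Units.val_one, mul_one] at h1
    exact_mod_cast h1
  obtain ⟨χ₀, hk0, hχ0⟩ : ∃ χ₀ : IrrCharacter G, k χ₀ ≠ 0 ∧
      ¬ p ∣ charDegree (χ₀ : G → ℂ) := by
    by_contra hcon
    push Not at hcon
    apply P.not_dvd_index
    rw [hdeg]
    apply Finset.dvd_sum
    intro θ _
    by_cases h0 : k θ = 0
    · rw [h0, zero_mul]; exact dvd_zero p
    · exact Dvd.dvd.mul_left (hcon θ h0) _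
  have hcf := Wedderburn.char_isClassFunction (Wedderburn.isCharacter_of_irr χ₀.2)
  have hfrob := FrobRec.frobenius_reciprocity (P : Subgroup G)
    (fun y => ((f y : ℂˣ) : ℂ)) (χ₀ : G → ℂ) hcf
  rw [hk] at hfrob
  unfold classInner at hfrob
  set S : ℂ := ∑ y : ↥(P : Subgroup G), ((f y : ℂˣ) : ℂ) *
    (starRingEnd ℂ) ((χ₀ : G → ℂ) y) with hS
  have hS0 : S ≠ 0 := by
    intro h0
    rw [h0, mul_zero] at hfrob
    exact hk0 (by exact_mod_cast hfrob)
  have hker := hx χ₀ hχ0
  have hmul : ∀ g : G, (χ₀ : G → ℂ) (x * g) = (χ₀ : G → ℂ) g :=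
    fun g => Kernel.apply_mul_of_eq (Wedderburn.isCharacter_of_irr χ₀.2) hker g
  have hS2 : S = ((f ⟨x, hxP⟩ : ℂˣ) : ℂ) * S := by
    rw [hS, Finset.mul_sum]
    rw [← Fintype.sum_equiv (Equiv.mulLeft (⟨x, hxP⟩ : ↥(P : Subgroup G)))
      (fun y => ((f ((⟨x, hxP⟩ : ↥(P : Subgroup G)) * y) : ℂˣ) : ℂ) *
        (starRingEnd ℂ) ((χ₀ : G → ℂ) ((⟨x, hxP⟩ * y : ↥(P : Subgroup G)) : G)))
      (fun y => ((f y : ℂˣ) : ℂ) * (starRingEnd ℂ) ((χ₀ : G → ℂ) y)) (fun y => rfl)]
    apply Finset.sum_congr rfl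
    intro y _
    rw [map_mul, Units.val_mul, Subgroup.coe_mul, hmul, mul_assoc]
  have h1 : ((f ⟨x, hxP⟩ : ℂˣ) : ℂ) = 1 := by
    have h2 : (((f ⟨x, hxP⟩ : ℂˣ) : ℂ) - 1) * S = 0 := by linear_combination -hS2
    rcases mul_eq_zero.mp h2 with h3 | h3
    · exact sub_eq_zero.mp h3
    · exact absurd h3 hS0
  exact hfx (Units.ext h1)

/-- If `p` divides the degree of `χ` and does not divide the class size of `c`, then
`χ 1 - χ c` is `p` times an algebraic integer. -/
theorem sub_eq_p_mul {G : Type*} [Group G] [Finite G] (p : ℕ) [Fact p.Prime]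
    (χ : IrrCharacter G) (c : G)
    (hidx : ¬ p ∣ (Subgroup.centralizer ({c} : Set G)).index)
    (hdvd : p ∣ charDegree (χ : G → ℂ)) :
    ∃ γ : ℂ, IsIntegral ℤ γ ∧ (χ : G → ℂ) 1 - (χ : G → ℂ) c = (p : ℂ) * γ := by
  have hp : p.Prime := Fact.out
  obtain ⟨d, hd⟩ := hdvd
  have hχ1 : (χ : G → ℂ) 1 = (p : ℂ) * (d : ℂ) := by
    rw [← Wedderburn.char_natCast_charDegree (Wedderburn.isCharacter_of_irr χ.2), hd]
    push_cast
    rfl
  have hne : (χ : G → ℂ) 1 ≠ 0 := Wedderburn.irr_apply_one_ne_zero χ.2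
  have hω := Cfsg.Agent.Lib.Helper80.Integrality.isIntegral_centralChar χ c
  set ω := centralChar (χ : G → ℂ) c with hωdef
  have hω2 : ((Subgroup.centralizer ({c} : Set G)).index : ℂ) * (χ : G → ℂ) c =
      ω * (χ : G → ℂ) 1 := by
    rw [hωdef]
    unfold centralChar
    field_simp
  have hcop : IsCoprime ((Subgroup.centralizer ({c} : Set G)).index : ℤ) (p : ℤ) := by
    rw [Int.isCoprime_iff_gcd_eq_one, Int.gcd_natCast_natCast]
    exact (Nat.Coprime.symm ((Nat.Prime.coprime_iff_not_dvd hp).mpr hidx))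
  obtain ⟨a, b, hab⟩ := hcop
  have hab' : (a : ℂ) * ((Subgroup.centralizer ({c} : Set G)).index : ℂ) + (b : ℂ) * (p : ℂ) = 1 := by
    exact_mod_cast congrArg (Int.cast : ℤ → ℂ) hab
  have hχc := Cfsg.Agent.Lib.Helper80.Integrality.isIntegral_irrCharacter χ c
  refine ⟨(d : ℂ) - ((a : ℂ) * ω * (d : ℂ) + (b : ℂ) * (χ : G → ℂ) c), ?_, ?_⟩
  · apply IsIntegral.sub
    · exact isIntegral_algebraMap (R := ℤ) (A := ℂ) (x := (d : ℤ))
    · apply IsIntegral.add
      · exact ((isIntegral_algebraMap (R := ℤ) (A := ℂ) (x := a)).mul hω).mul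
          (isIntegral_algebraMap (R := ℤ) (A := ℂ) (x := (d : ℤ)))
      · exact (isIntegral_algebraMap (R := ℤ) (A := ℂ) (x := b)).mul hχc
  · have h1 : (χ : G → ℂ) c = (p : ℂ) * ((a : ℂ) * ω * (d : ℂ) + (b : ℂ) * (χ : G → ℂ) c) := by
      calc (χ : G → ℂ) c = ((a : ℂ) * ((Subgroup.centralizer ({c} : Set G)).index : ℂ) +
            (b : ℂ) * (p : ℂ)) * (χ : G → ℂ) c := by rw [hab', one_mul]
        _ = (a : ℂ) * (((Subgroup.centralizer ({c} : Set G)).index : ℂ) * (χ : G → ℂ) c) +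
            (b : ℂ) * (p : ℂ) * (χ : G → ℂ) c := by ring
        _ = _ := by rw [hω2, hχ1]; ring
    rw [hχ1]
    linear_combination -h1

/-- A `p'`-element centralizing a Sylow `p`-subgroup and lying in the kernel of every
irreducible character of degree prime to `p` is trivial. -/
theorem eq_one_of_centralizes {G : Type*} [Group G] [Finite G] (p : ℕ) [Fact p.Prime]
    (P : Sylow p G) (c : G) (hc : c ∈ Subgroup.centralizer ((P : Subgroup G) : Set G))
    (hord : ¬ p ∣ orderOf c)
    (hker : ∀ χ : IrrCharacter G, ¬ p ∣ charDegree (χ : G → ℂ) →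
      (χ : G → ℂ) c = (χ : G → ℂ) 1) : c = 1 := by
  classical
  by_contra hc1
  have hp : p.Prime := Fact.out
  have : Fintype G := Fintype.ofFinite G
  have := Wedderburn.finite_irrCharacter G
  have : Fintype (IrrCharacter G) := Fintype.ofFinite _
  have hPi := IndChar.isCharacter_indFun (P : Subgroup G) (fun _ => (1 : ℂ)) Ops.isCharacter_one
  obtain ⟨k, hk, hexp⟩ := exists_nat_expand hPi
  -- the induced character vanishes at `c`
  have hzero : indFun (P : Subgroup G) (fun _ => (1 : ℂ)) c = 0 := by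
    apply FrobRec.indFun_eq_zero_of_forall_not_mem
    intro x hx
    obtain ⟨j, hj⟩ := (IsPGroup.iff_orderOf.mp P.isPGroup') ⟨x⁻¹ * c * x, hx⟩
    rw [Subgroup.orderOf_mk] at hj
    have h1 : orderOf (x⁻¹ * c * x) = orderOf c := by
      have := (MulAut.conj x⁻¹).orderOf_eq c
      rw [MulAut.conj_apply, inv_inv] at this
      exact this
    rw [h1] at hj
    have hj0 : j = 0 := by
      by_contra hne
      apply hord
      rw [hj]
      exact dvd_pow_self p hne
    rw [hj0, pow_zero, orderOf_eq_one_iff] at hj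
    exact hc1 hj
  have hone : indFun (P : Subgroup G) (fun _ => (1 : ℂ)) 1 = ((P : Subgroup G).index : ℂ) := by
    rw [FrobRec.indFun_one, mul_one]
  have hidx : ¬ p ∣ (Subgroup.centralizer ({c} : Set G)).index := by
    intro h
    apply P.not_dvd_index
    refine h.trans (Subgroup.index_dvd_of_le ?_)
    intro y hy
    rw [Subgroup.mem_centralizer_iff]
    intro z hz
    rw [Set.mem_singleton_iff] at hz
    rw [hz]
    exact ((Subgroup.mem_centralizer_iff.mp hc) y hy).symm
  have hγ : ∀ χ : IrrCharacter G, ∃ γ : ℂ, IsIntegral ℤ γ ∧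
      (χ : G → ℂ) 1 - (χ : G → ℂ) c = (p : ℂ) * γ := by
    intro χ
    by_cases hd : p ∣ charDegree (χ : G → ℂ)
    · exact sub_eq_p_mul p χ c hidx hd
    · exact ⟨0, isIntegral_zero, by rw [hker χ hd]; ring⟩
  choose γ hγi hγ using hγ
  have hsum : ((P : Subgroup G).index : ℂ) =
      (p : ℂ) * ∑ χ : IrrCharacter G, (k χ : ℂ) * γ χ := by
    rw [← hone, ← sub_zero (indFun (P : Subgroup G) (fun _ => (1 : ℂ)) 1), ← hzero, hexp 1,
      hexp c, ← Finset.sum_sub_distrib, Finset.mul_sum]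
    apply Finset.sum_congr rfl
    intro χ _
    rw [← mul_sub, hγ]
    ring
  have hint : IsIntegral ℤ (((P : Subgroup G).index : ℂ) / (p : ℂ)) := by
    have hp0 : (p : ℂ) ≠ 0 := by exact_mod_cast hp.ne_zero
    rw [hsum, mul_div_cancel_left₀ _ hp0]
    apply IsIntegral.sum
    intro χ _
    exact (isIntegral_algebraMap (R := ℤ) (A := ℂ) (x := (k χ : ℤ))).mul (hγi χ)
  exact P.not_dvd_index
    (Cfsg.Agent.Lib.Helper80.Integrality.dvd_of_isIntegral_div hp.ne_zero hint)

/-- The intersection of the kernels of the irreducible characters of degree prime to `p` lies in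
the normal core of `N P'`, `N` the largest normal subgroup with `C_N(P) = 1`. -/
theorem ker_le_core {G : Type*} [Group G] [Finite G] (p : ℕ) [Fact p.Prime] (P : Sylow p G)
    (N : Subgroup G) [N.Normal]
    (hmax : ∀ L : Subgroup G, L.Normal →
      L ⊓ Subgroup.centralizer ((P : Subgroup G) : Set G) = ⊥ → L ≤ N)
    (g : G) (hg : ∀ χ : IrrCharacter G, ¬ p ∣ charDegree (χ : G → ℂ) →
      (χ : G → ℂ) g = (χ : G → ℂ) 1) :
    g ∈ (N ⊔ ⁅(P : Subgroup G), (P : Subgroup G)⁆).normalCore := by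
  classical
  have hp : p.Prime := Fact.out
  -- the kernel subgroup
  let K : Subgroup G :=
    { carrier := {g | ∀ χ : IrrCharacter G, ¬ p ∣ charDegree (χ : G → ℂ) →
        (χ : G → ℂ) g = (χ : G → ℂ) 1}
      mul_mem' := fun {a b} ha hb χ hχ => by
        rw [Kernel.apply_mul_of_eq (Wedderburn.isCharacter_of_irr χ.2) (ha χ hχ)]
        exact hb χ hχ
      one_mem' := fun χ _ => rfl
      inv_mem' := fun {a} ha χ hχ => by
        have h1 := Kernel.apply_mul_of_eq (Wedderburn.isCharacter_of_irr χ.2) (ha χ hχ) a⁻¹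
        rw [mul_inv_cancel] at h1
        exact h1.symm }
  have hKn : K.Normal := ⟨fun n hn g χ hχ => by
    rw [Wedderburn.char_isClassFunction (Wedderburn.isCharacter_of_irr χ.2) n g]
    exact hn χ hχ⟩
  -- Tate's theorem: `K` has a normal `p`-complement
  have hfr : K ⊓ (P : Subgroup G) ≤
      (frattini ↥(P : Subgroup G)).map (P : Subgroup G).subtype := by
    intro x hx
    obtain ⟨hx1, hx2⟩ := Subgroup.mem_inf.mp hx
    have h1 := mem_commutator_of_ker p P x hx2 hx1
    rw [← Subgroup.map_subtype_commutator] at h1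
    exact Subgroup.map_mono
      (Cfsg.Agent.Lib.Helper63.PFrattini.commutator_le_frattini P.isPGroup') h1
  obtain ⟨Q, M, hMn, hMQ⟩ := Cfsg.Agent.S0081.result P K hfr
  have hcardK : Nat.card M * Nat.card (Q : Subgroup K) = Nat.card K := hMQ.card_mul_card
  have hQcard : Nat.card (Q : Subgroup K) = p ^ (Nat.card K).factorization p :=
    Q.card_eq_multiplicity
  have hKpos : Nat.card K ≠ 0 := Nat.card_pos.ne'
  -- elements of `M` are `p'`-elements
  have hM1 : ∀ m ∈ M, ¬ p ∣ orderOf (m : K) := by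
    intro m hm hdvd
    have h1 : p ∣ Nat.card M := hdvd.trans (Subgroup.orderOf_dvd_natCard M hm)
    obtain ⟨t, ht⟩ := h1
    apply Nat.pow_succ_factorization_not_dvd hKpos hp
    have h2 := hcardK
    rw [hQcard, ht] at h2
    exact ⟨t, h2.symm.trans (by ring)⟩
  -- `p'`-elements of `K` lie in `M`
  have hidx : M.index = p ^ (Nat.card K).factorization p := by
    have h1 := Subgroup.card_mul_index M
    rw [← hcardK] at h1
    have hMpos : 0 < Nat.card M := Nat.card_pos
    rw [← hQcard]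
    exact Nat.eq_of_mul_eq_mul_left hMpos h1
  have hM2 : ∀ k : K, ¬ p ∣ orderOf k → k ∈ M := by
    intro k hk
    have h1 : orderOf (QuotientGroup.mk' M k) ∣ orderOf k := orderOf_map_dvd _ k
    have h2 : orderOf (QuotientGroup.mk' M k) ∣ p ^ (Nat.card K).factorization p := by
      rw [← hidx, Subgroup.index_eq_card]
      exact orderOf_dvd_natCard _
    obtain ⟨j, -, hj⟩ := (Nat.dvd_prime_pow hp).mp h2
    have hj0 : j = 0 := by
      by_contra hne
      apply hk
      exact (dvd_pow_self p hne).trans (hj ▸ h1)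
    rw [hj0, pow_zero, orderOf_eq_one_iff] at hj
    exact (QuotientGroup.eq_one_iff k).mp hj
  -- the `p`-complement as a normal subgroup of `G`
  let N₀ : Subgroup G := M.map K.subtype
  have hN₀mem : ∀ x : G, x ∈ N₀ ↔ ∃ hx : x ∈ K, (⟨x, hx⟩ : K) ∈ M := by
    intro x
    constructor
    · rintro ⟨m, hm, rfl⟩
      exact ⟨m.2, hm⟩
    · rintro ⟨hx, hm⟩
      exact ⟨⟨x, hx⟩, hm, rfl⟩
  have hN₀n : N₀.Normal := by
    refine ⟨fun n hn g => ?_⟩
    obtain ⟨hnK, hnM⟩ := (hN₀mem n).mp hn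
    have hgK : g * n * g⁻¹ ∈ K := hKn.conj_mem n hnK g
    refine (hN₀mem _).mpr ⟨hgK, hM2 _ ?_⟩
    have h1 := hM1 _ hnM
    rw [Subgroup.orderOf_mk] at h1 ⊢
    have h2 : orderOf (g * n * g⁻¹) = orderOf n := by
      have := (MulAut.conj g).orderOf_eq n
      rwa [MulAut.conj_apply] at this
    rw [h2]
    exact h1
  have hN₀C : N₀ ⊓ Subgroup.centralizer ((P : Subgroup G) : Set G) = ⊥ := by
    rw [eq_bot_iff]
    intro c hc
    obtain ⟨hc1, hc2⟩ := Subgroup.mem_inf.mp hc
    obtain ⟨hcK, hcM⟩ := (hN₀mem c).mp hc1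
    have h1 := hM1 _ hcM
    rw [Subgroup.orderOf_mk] at h1
    rw [Subgroup.mem_bot]
    exact eq_one_of_centralizes p P c hc2 h1 hcK
  have hN₀N : N₀ ≤ N := hmax N₀ hN₀n hN₀C
  -- the Sylow `p`-subgroup `Q` of `K` lies in a conjugate of `P`
  have hQp : IsPGroup p ((Q : Subgroup K).map K.subtype) := Q.isPGroup'.map K.subtype
  obtain ⟨R, hR⟩ := hQp.exists_le_sylow
  obtain ⟨u, hu⟩ := MulAction.exists_smul_eq G P R
  have hK_le : K ≤ N ⊔ ⁅(P : Subgroup G), (P : Subgroup G)⁆ := by
    intro k hk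
    have hk' : u * k * u⁻¹ ∈ K := hKn.conj_mem k hk u
    obtain ⟨⟨m, q⟩, hmq, -⟩ := hMQ.existsUnique (⟨u * k * u⁻¹, hk'⟩ : K)
    have hm : ((m : K) : G) ∈ N₀ := ⟨m.1, m.2, rfl⟩
    have hqQ : ((q : K) : G) ∈ (Q : Subgroup K).map K.subtype := ⟨q.1, q.2, rfl⟩
    have hqR : ((q : K) : G) ∈ (R : Subgroup G) := hR hqQ
    rw [← hu, Sylow.coe_subgroup_smul, Subgroup.mem_pointwise_smul_iff_inv_smul_mem] at hqR
    have hq1 : u⁻¹ * ((q : K) : G) * u ∈ (P : Subgroup G) := by
      simpa [MulAut.smul_def] using hqR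
    have hq2 : u⁻¹ * ((q : K) : G) * u ∈ K := by
      simpa using hKn.conj_mem _ (q : K).2 u⁻¹
    have hq3 := mem_commutator_of_ker p P _ hq1 hq2
    have hm2 : u⁻¹ * ((m : K) : G) * u ∈ N₀ := by
      simpa using hN₀n.conj_mem _ hm u⁻¹
    have hkeq : k = (u⁻¹ * ((m : K) : G) * u) * (u⁻¹ * ((q : K) : G) * u) := by
      have h1 : ((m : K) : G) * ((q : K) : G) = u * k * u⁻¹ := congrArg Subtype.val hmq
      calc k = u⁻¹ * (u * k * u⁻¹) * u := by group
        _ = _ := by rw [← h1]; group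
    rw [hkeq]
    exact Subgroup.mul_mem_sup (hN₀N hm2) hq3
  exact (Subgroup.normal_le_normalCore.mpr hK_le) hg

end Cfsg.Agent.Lib.Helper80.PPrimeKer
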